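import Cfsg.Agent.Lib.ElusL.Count

/-!
# Counting subspaces with a property through their linearly independent tuples
-/

set_option autoImplicit false
set_option linter.unusedSectionVars false
set_option linter.style.haveILetI false

open Module

namespace Cfsg.Agent.Lib.ElusF.CountP

variable {F : Type*} [Field F] [Fintype F] {q : ℕ} {V : Type*} [AddCommGroup V] [Module F V]
  [FiniteDimensional F V]

theorem card_pred_mul (hq : Fintype.card F = q) {k : ℕ} (P : Submodule F V → Prop) :
    Nat.card {W : Submodule F V // finrank F W = k ∧ P W} * ∏ j : Fin k, (q ^ k - q ^ (j : ℕ)) =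
      Nat.card {s : Fin k → V // LinearIndependent F s ∧ P (Submodule.span F (Set.range s))} := by
  classical
  haveI : Finite V := Module.finite_of_finite F
  haveI : Fintype {W : Submodule F V // finrank F W = k ∧ P W} := Fintype.ofFinite _
  let LI := {s : Fin k → V // LinearIndependent F s ∧ P (Submodule.span F (Set.range s))}
  let f : LI → {W : Submodule F V // finrank F W = k ∧ P W} := fun s =>
    ⟨Submodule.span F (Set.range s.1), by
      rw [finrank_span_eq_card s.2.1, Fintype.card_fin], s.2.2⟩
  have hfib : ∀ W : {W : Submodule F V // finrank F W = k ∧ P W},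
      Nat.card {s : LI // f s = W} = ∏ j : Fin k, (q ^ k - q ^ (j : ℕ)) := by
    intro W
    have hspan : ∀ g : {g : Fin k → W.1 // LinearIndependent F g},
        Submodule.span F (Set.range fun i => (g.1 i : V)) = W.1 := by
      intro g
      apply Submodule.eq_of_le_of_finrank_eq
      · exact Submodule.span_le.mpr (by
          rintro _ ⟨i, rfl⟩
          exact (g.1 i).2)
      · have h1 := finrank_span_eq_card (g.2.map' W.1.subtype (Submodule.ker_subtype _))
        rw [Fintype.card_fin] at h1
        rw [W.2.1]
        exact h1
    have e : {s : LI // f s = W} ≃ {g : Fin k → W.1 // LinearIndependent F g} :=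
      { toFun := fun s => ⟨fun i => ⟨s.1.1 i, by
            have h1 : s.1.1 i ∈ (f s.1).1 := Submodule.subset_span ⟨i, rfl⟩
            rw [s.2] at h1
            exact h1⟩, by
          apply LinearIndependent.of_comp W.1.subtype
          exact s.1.2.1⟩
        invFun := fun g => ⟨⟨fun i => (g.1 i : V), g.2.map' W.1.subtype (Submodule.ker_subtype _), by
            rw [hspan g]; exact W.2.2⟩, by
          apply Subtype.ext
          exact hspan g⟩
        left_inv := fun s => rfl
        right_inv := fun g => rfl }
    rw [Nat.card_congr e, card_linearIndependent (by rw [W.2.1]), W.2.1, hq]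
  change _ = Nat.card LI
  rw [Nat.card_congr (Equiv.sigmaFiberEquiv f).symm, Nat.card_sigma]
  simp only [hfib, Finset.sum_const, smul_eq_mul, Finset.card_univ, Nat.card_eq_fintype_card]

end Cfsg.Agent.Lib.ElusF.CountP
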