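import Cfsg.Agent.Lib.ElusF.Uni

/-!
# Orthogonal decomposition of a unipotent isometry into blocks
-/

set_option autoImplicit false
set_option linter.unusedSectionVars false
set_option linter.style.haveILetI false
set_option linter.unusedVariables false

open Polynomial Module

namespace Cfsg.Agent.Lib.ElusF.Decomp

open Cfsg.Agent.Lib.ElusL.Basic Cfsg.Agent.Lib.ElusL.Dec3 Cfsg.Agent.Lib.ElusF.Form
  Cfsg.Agent.Lib.ElusF.Step Cfsg.Agent.Lib.ElusF.Uni

variable {F : Type*} [Field F] {V : Type*} [AddCommGroup V] [Module F V] [FiniteDimensional F V]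
  {σ : F →+* F} {ε : F} {B : V → V → F}

theorem inv_N {y N : End F V} (hN : y = 1 + N) {Z : Submodule F V} (hZ : Inv y Z) : Inv N Z := by
  intro v hv
  have h1 : N v = y v - v := by
    rw [hN]
    simp
  rw [h1]
  exact Z.sub_mem (hZ v hv) hv

theorem decomp (hB : Fm σ ε B) {y N : End F V} (hy : Iso B y) (hinj : Function.Injective y)
    (hN : y = 1 + N) {L : ℕ} (hL : N ^ L = 0) (t : ℕ → ℕ) (ht : ∀ k, 0 < t k)
    (hstep : ∀ (U : Submodule F V) (k : ℕ), Nd B U → Inv N U → (∀ v ∈ U, (N ^ (k + 1)) v = 0) →
      (∃ v ∈ U, (N ^ k) v ≠ 0) →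
      ∃ C : Submodule F V, C ≤ U ∧ Nd B C ∧ Inv N C ∧ finrank F C = t (k + 1) * (k + 1) ∧
        ∀ j, Dd N C j = t (k + 1) * min (k + 1) j) :
    ∀ (n : ℕ) (U : Submodule F V), finrank F U = n → Nd B U → Inv N U →
      ∃ μ : Multiset ℕ, (∀ a ∈ μ, 0 < a ∧ a ≤ L) ∧ (∀ a, t a ∣ μ.count a) ∧ μ.sum = n ∧
        (∀ j, Dd N U j = (μ.map (fun a => min a j)).sum) ∧
        ∀ ν : Multiset ℕ, ν ≤ μ → (∀ a, t a ∣ ν.count a) →
          ∃ W : Submodule F V, W ≤ U ∧ Nd B W ∧ Inv N W ∧ finrank F W = ν.sum := by
  classical
  intro n
  induction n using Nat.strong_induction_on with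
  | _ n ih =>
    intro U hUn hU hUi
    rcases Nat.eq_zero_or_pos n with rfl | hnpos
    · have hbot : U = ⊥ := Submodule.finrank_eq_zero.mp hUn
      subst hbot
      refine ⟨0, by simp, by simp, by simp, ?_, ?_⟩
      · intro j
        simp [Dd]
      · intro ν hν _
        have h0 : ν = 0 := by simpa using hν
        subst h0
        exact ⟨⊥, le_rfl, fun u hu _ => (Submodule.mem_bot F).mp hu, fun v hv => by
          rw [(Submodule.mem_bot F).mp hv, map_zero]
          exact Submodule.zero_mem _, by simp⟩
    · have hex : ∃ k', ∀ v ∈ U, (N ^ k') v = 0 := ⟨L, fun v _ => by rw [hL]; rfl⟩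
      set k' := Nat.find hex with hk'
      have hk'spec : ∀ v ∈ U, (N ^ k') v = 0 := Nat.find_spec hex
      have hk'0 : k' ≠ 0 := by
        intro h0
        rw [h0] at hk'spec
        have h1 : U = ⊥ := by
          rw [eq_bot_iff]
          intro v hv
          have := hk'spec v hv
          simpa using this
        rw [h1, finrank_bot] at hUn
        omega
      obtain ⟨k, hk⟩ : ∃ k, k' = k + 1 := ⟨k' - 1, by omega⟩
      rw [hk] at hk'spec
      have hne : ∃ v ∈ U, (N ^ k) v ≠ 0 := by
        by_contra hcon
        push Not at hcon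
        have := Nat.find_min' hex hcon
        omega
      have hkL : k + 1 ≤ L := by
        have := Nat.find_min' hex (m := L) (fun v _ => by rw [hL]; rfl)
        omega
      obtain ⟨C, hCU, hC, hCi, hCf, hCd⟩ := hstep U k hU hUi hk'spec hne
      have hCy : Inv y C := inv_y hN hCi
      have hUy : Inv y U := inv_y hN hUi
      set U' := U ⊓ hB.orth C with hU'
      have hU'nd : Nd B U' := hB.nd_inf_orth hU hC hCU
      have hU'y : Inv y U' := hB.inv_inf hUy (hB.inv_orth hy hinj hCy)
      have hU'i : Inv N U' := inv_N hN hU'y
      have hdim : finrank F U' + finrank F C = finrank F U := hB.finrank_inf_orth hU hCU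
      have htk := ht (k + 1)
      have htpos : 0 < t (k + 1) * (k + 1) := Nat.mul_pos htk (by omega)
      rw [hCf] at hdim
      obtain ⟨μ', h1, h2, h3, h4, h5⟩ := ih (finrank F U') (by rw [hUn] at hdim; omega) U' rfl hU'nd hU'i
      have hU'orth : U' ≤ hB.orth C := inf_le_right
      have hdisj : Disjoint C U' := disjoint_of_orth hB hC hU'orth
      have hsup : C ⊔ U' = U := (hB.isCompl_inf_orth hC hCU).1
      refine ⟨μ' + Multiset.replicate (t (k + 1)) (k + 1), ?_, ?_, ?_, ?_, ?_⟩
      · intro a ha
        rcases Multiset.mem_add.mp ha with ha | ha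
        · exact h1 a ha
        · rw [Multiset.eq_of_mem_replicate ha]
          exact ⟨by omega, hkL⟩
      · intro a
        rw [Multiset.count_add, Multiset.count_replicate]
        split_ifs with hka
        · subst hka
          exact dvd_add (h2 _) dvd_rfl
        · rw [add_zero]
          exact h2 a
      · rw [Multiset.sum_add, Multiset.sum_replicate, smul_eq_mul, h3]
        rw [hUn] at hdim
        omega
      · intro j
        rw [← hsup, Dd_sup hdisj hCi hU'i, hCd, h4, Multiset.map_add, Multiset.sum_add,
          Multiset.map_replicate, Multiset.sum_replicate, smul_eq_mul]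
        ring
      · intro ν hν hνt
        rw [Multiset.le_iff_count] at hν
        have hcount : ∀ a, ν.count a ≤ μ'.count a + if k + 1 = a then t (k + 1) else 0 := by
          intro a
          have := hν a
          rwa [Multiset.count_add, Multiset.count_replicate] at this
        by_cases hc : t (k + 1) ≤ ν.count (k + 1)
        · have hrep : Multiset.replicate (t (k + 1)) (k + 1) ≤ ν :=
            Multiset.le_count_iff_replicate_le.mp hc
          set ν' := ν - Multiset.replicate (t (k + 1)) (k + 1) with hν'
          have hνsum : ν = ν' + Multiset.replicate (t (k + 1)) (k + 1) :=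
            (Multiset.sub_add_cancel hrep).symm
          have hcnt : ∀ a, ν.count a = ν'.count a + if k + 1 = a then t (k + 1) else 0 := by
            intro a
            conv_lhs => rw [hνsum]
            rw [Multiset.count_add, Multiset.count_replicate]
          obtain ⟨W', h6, h7, h8, h9⟩ := h5 ν' (by
            rw [Multiset.le_iff_count]
            intro a
            have h10 := hcnt a
            have h11 := hcount a
            omega) (by
            intro a
            have h10 := hcnt a
            have h11 := hνt a
            by_cases hka : k + 1 = a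
            · subst hka
              rw [if_pos rfl] at h10
              rw [h10] at h11
              exact (Nat.dvd_add_left dvd_rfl).mp h11
            · rw [if_neg hka, add_zero] at h10
              rwa [h10] at h11)
          refine ⟨C ⊔ W', sup_le hCU (h6.trans inf_le_left), nd_sup hB hC h7 (h6.trans hU'orth),
            inv_sup hCi h8, ?_⟩
          rw [finrank_sup_of_disjoint (disjoint_of_orth hB hC (h6.trans hU'orth)), hCf, h9, hνsum,
            Multiset.sum_add, Multiset.sum_replicate, smul_eq_mul]
          ring
        · have h0 : ν.count (k + 1) = 0 := by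
            have h10 := hνt (k + 1)
            exact Nat.eq_zero_of_dvd_of_lt h10 (by omega)
          obtain ⟨W', h6, h7, h8, h9⟩ := h5 ν (by
            rw [Multiset.le_iff_count]
            intro a
            by_cases hka : k + 1 = a
            · subst hka
              rw [h0]
              exact Nat.zero_le _
            · have h11 := hcount a
              rwa [if_neg hka, add_zero] at h11) hνt
          exact ⟨W', h6.trans inf_le_left, h7, h8, h9⟩

/-- A multiset is determined by the profile of sums of minima. -/
theorem count_eq_of_profile {μ ν ν' : Multiset ℕ} (h0 : ∀ a ∈ μ, 0 < a) (h : ∀ j,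
    (μ.map (fun a => min a j)).sum = (ν.map (fun a => min a j)).sum +
      (ν'.map (fun a => min a j)).sum) (hν0 : ∀ a ∈ ν, 0 < a) : ν ≤ μ := by
  classical
  rw [Multiset.le_iff_count]
  intro a
  rcases Nat.eq_zero_or_pos a with rfl | ha
  · have : ν.count 0 = 0 := Multiset.count_eq_zero.mpr (fun hm => by
      have := hν0 0 hm
      omega)
    omega
  · obtain ⟨j, rfl⟩ : ∃ j, a = j + 1 := ⟨a - 1, by omega⟩
    have h1 := sum_min_second μ j
    have h2 := sum_min_second ν j
    have h3 := sum_min_second ν' j
    have h4 := h j
    have h5 := h (j + 1)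
    have h6 := h (j + 2)
    omega

end Cfsg.Agent.Lib.ElusF.Decomp
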