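import Cfsg.Agent.Lib.ElusF.SpModel

/-!
# Upper bounds for invariant totally isotropic subspaces of the models
-/

set_option autoImplicit false
set_option linter.unusedSectionVars false
set_option linter.style.haveILetI false
set_option linter.unusedVariables false

open Polynomial Module

universe u

namespace Cfsg.Agent.Lib.ElusF.SpNeg

open Cfsg.Agent.Lib.ElusL.Basic Cfsg.Agent.Lib.ElusL.Flag Cfsg.Agent.Lib.ElusL.Cyc
  Cfsg.Agent.Lib.ElusL.Pos Cfsg.Agent.Lib.ElusF.Form Cfsg.Agent.Lib.ElusF.Step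
  Cfsg.Agent.Lib.ElusF.Split Cfsg.Agent.Lib.ElusF.SpModel

variable {F : Type u} [Field F] {q r : ℕ} {V : Type*} [AddCommGroup V] [Module F V]
  [FiniteDimensional F V]

theorem Rz.fm {B : LinearMap.BilinForm F V} {T : End F V} (h : Rz B T r) :
    Fm (RingHom.id F) (-1) (fun u v => B u v) where
  add_l u v w := by simp
  smul_l c u v := by simp
  herm u v := by
    have := h.alt.neg_eq u v
    simp only [RingHom.id_apply]
    rw [← this]
    ring
  nd u hu := (Cfsg.Agent.Lib.SylowLarge.SpForm.sep_iff h.alt).mp h.nondeg u hu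
  σσ _ := rfl
  ε0 := by simp

section factors

variable [Fintype F]

/-- General bound: the residue of an invariant totally isotropic subspace. -/
theorem bound_tail {σ : F →+* F} {ε : F} {B : V → V → F} (hB : Fm σ ε B) {T : End F V}
    (hT : Iso B T) (hrF : (r : F) ≠ 0) (hTr : T ^ r = 1) (hr : r.Prime) {d : ℕ}
    (hd : ∀ g, Irreducible g → g ∣ Phi F r → g.natDegree = d) {W : Submodule F V}
    (hTI : TI B W) (hInv : Inv T W) :
    2 * (finrank F W % d) ≤ Dk T (X - 1 : F[X]) := by
  have h1 := split01 hrF hTr hInv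
  have hnd := nd0 hB hT hrF hTr (hB.nd_top) (U := ⊤) (fun v _ => Submodule.mem_top)
  rw [top_inf_eq] at hnd
  have h2 := hB.two_mul_finrank_le hnd
    (W := W ⊓ LinearMap.ker (Polynomial.aeval T (X - 1 : F[X]))) inf_le_right
    (fun u hu v hv => hTI u hu.1 v hv.1)
  have h3 := dvd_finrank_inf (T := T) (Phi_ne_zero (F := F) hr) hd hInv
  rw [h1.2]
  unfold Dk
  obtain ⟨c, hc⟩ := h3
  rw [hc, Nat.add_mul_mod_self_left]
  have := Nat.mod_le (finrank F (W ⊓ LinearMap.ker (Polynomial.aeval T (X - 1 : F[X])) : Submodule F V)) d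
  omega

/-- The monic irreducible factors of the cyclotomic polynomial. -/
theorem exists_factors (hq : Fintype.card F = q) (hr : r.Prime) (hrF : (r : F) ≠ 0) (hrq : ¬ r ∣ q) :
    ∃ S : Finset F[X], (∀ g ∈ S, Irreducible g ∧ g.Monic ∧ g ∣ X ^ r - 1 ∧ ¬ g ∣ X - 1 ∧
        g.natDegree = orderOf (q : ZMod r)) ∧ ∏ g ∈ S, g = Phi F r ∧
      S.card * orderOf (q : ZMod r) = r - 1 := by
  classical
  have hΦ0 := Phi_ne_zero (F := F) hr
  have hmul : (X - 1) * Phi F r = X ^ r - 1 := Phi_mul r
  have hmon : (Phi F r).Monic := by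
    have hm1 : (X - 1 : F[X]).Monic := by
      have := monic_X_sub_C (1 : F)
      simpa using this
    have hm2 : (X ^ r - 1 : F[X]).Monic := by
      have := monic_X_pow_sub_C (1 : F) hr.ne_zero
      simpa using this
    rw [← hmul] at hm2
    exact hm1.of_mul_monic_left hm2
  have hsep : (X ^ r - 1 : F[X]).Separable := by
    have := separable_X_pow_sub_C (1 : F) hrF one_ne_zero
    simpa using this
  have hsepΦ : (Phi F r).Separable := hsep.of_dvd ⟨X - 1, by rw [← hmul, mul_comm]⟩
  have hsf : Squarefree (Phi F r) := hsepΦ.squarefree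
  set M := UniqueFactorizationMonoid.normalizedFactors (Phi F r) with hM
  have hnd : M.Nodup := (UniqueFactorizationMonoid.squarefree_iff_nodup_normalizedFactors hΦ0).mp hsf
  have hprops : ∀ g ∈ M, Irreducible g ∧ g.Monic ∧ g ∣ Phi F r := by
    intro g hg
    refine ⟨UniqueFactorizationMonoid.irreducible_of_normalized_factor g hg, ?_,
      UniqueFactorizationMonoid.dvd_of_mem_normalizedFactors hg⟩
    have h0 : g ≠ 0 := (UniqueFactorizationMonoid.irreducible_of_normalized_factor g hg).ne_zero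
    have := Polynomial.monic_normalize h0
    rwa [UniqueFactorizationMonoid.normalize_normalized_factor g hg] at this
  have hprod : M.prod = Phi F r := by
    have h1 := UniqueFactorizationMonoid.prod_normalizedFactors hΦ0
    apply Polynomial.eq_of_monic_of_associated _ hmon h1
    have h2 : M.prod = (M.map id).prod := by simp
    rw [h2]
    exact Polynomial.monic_multiset_prod_of_monic M id (fun g hg => (hprops g hg).2.1)
  refine ⟨M.toFinset, ?_, ?_, ?_⟩
  · intro g hg
    rw [Multiset.mem_toFinset] at hg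
    obtain ⟨h1, h2, h3⟩ := hprops g hg
    refine ⟨h1, h2, h3.trans ⟨X - 1, by rw [← hmul, mul_comm]⟩, ?_, natDegree_factor hq hr hrF hrq h1 h3⟩
    intro h4
    have h5 := (isCoprime_Phi (F := F) hrF).isUnit_of_dvd' h4 h3
    exact h1.not_isUnit h5
  · rw [Finset.prod_eq_multiset_prod, Multiset.toFinset_val, Multiset.dedup_eq_self.mpr hnd]
    simpa using hprod
  · have hdeg : (Phi F r).natDegree = r - 1 := Phi_natDegree hr
    rw [← hdeg, ← hprod, Polynomial.natDegree_multiset_prod _ (by
      intro h0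
      exact hΦ0 (by rw [← hprod]; exact Multiset.prod_eq_zero h0))]
    have h1 : ∀ x ∈ M.map natDegree, x = orderOf (q : ZMod r) := by
      intro x hx
      obtain ⟨g, hg, rfl⟩ := Multiset.mem_map.mp hx
      exact natDegree_factor hq hr hrF hrq (hprops g hg).1 (hprops g hg).2.2
    rw [Multiset.eq_replicate_card.mpr h1, Multiset.sum_replicate, smul_eq_mul, Multiset.card_map,
      Multiset.toFinset_card_of_nodup hnd]

end factors

/-- The dimension of `W ∩ ker (∏ g)(T)`. -/
theorem finrank_sum_factors {T : End F V} {W : Submodule F V} (hW : Inv T W) (S : Finset F[X])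
    (hS : ∀ g ∈ S, ∀ h ∈ S, g ≠ h → IsCoprime g h) :
    finrank F (W ⊓ LinearMap.ker (Polynomial.aeval T (∏ g ∈ S, g)) : Submodule F V) =
      ∑ g ∈ S, finrank F (W ⊓ LinearMap.ker (Polynomial.aeval T g) : Submodule F V) := by
  classical
  induction S using Finset.induction_on with
  | empty =>
    have : LinearMap.ker (Polynomial.aeval T (∏ g ∈ (∅ : Finset F[X]), g)) = ⊥ := by
      simp only [Finset.prod_empty, map_one]
      exact LinearMap.ker_id
    rw [this, inf_bot_eq]
    simp
  | insert g S hg ih =>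
    have hS' : ∀ g ∈ S, ∀ h ∈ S, g ≠ h → IsCoprime g h := fun a ha b hb =>
      hS a (Finset.mem_insert_of_mem ha) b (Finset.mem_insert_of_mem hb)
    rw [Finset.sum_insert hg, ← ih hS', Finset.prod_insert hg]
    have hcop : IsCoprime g (∏ h ∈ S, h) := by
      apply IsCoprime.prod_right
      intro h hh
      exact hS g (Finset.mem_insert_self _ _) h (Finset.mem_insert_of_mem hh) (fun e => hg (e ▸ hh))
    set P := ∏ h ∈ S, h with hP
    set W' := W ⊓ LinearMap.ker (Polynomial.aeval T (g * P)) with hW'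
    have hInv : Inv T W' := fun v hv => ⟨hW v hv.1, inv_ker T _ v hv.2⟩
    have h1 := (sup_ker hcop hInv (fun w hw => hw.2)).2
    have h2 : (W' ⊓ LinearMap.ker (Polynomial.aeval T g) : Submodule F V) =
        W ⊓ LinearMap.ker (Polynomial.aeval T g) := by
      apply le_antisymm
      · exact fun v hv => ⟨hv.1.1, hv.2⟩
      · refine fun v hv => ⟨⟨hv.1, ?_⟩, hv.2⟩
        change Polynomial.aeval T (g * P) v = 0
        rw [mul_comm, map_mul, Module.End.mul_apply, LinearMap.mem_ker.mp hv.2, map_zero]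
    have h3 : (W' ⊓ LinearMap.ker (Polynomial.aeval T P) : Submodule F V) =
        W ⊓ LinearMap.ker (Polynomial.aeval T P) := by
      apply le_antisymm
      · exact fun v hv => ⟨hv.1.1, hv.2⟩
      · refine fun v hv => ⟨⟨hv.1, ?_⟩, hv.2⟩
        change Polynomial.aeval T (g * P) v = 0
        rw [map_mul, Module.End.mul_apply, LinearMap.mem_ker.mp hv.2, map_zero]
    rw [h1, h2, h3]

section sd

variable [Fintype F]

/-- Frobenius on polynomials in an operator. -/
theorem aeval_pow_card (hq : Fintype.card F = q) (T : End F V) (g : F[X]) (e : ℕ) :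
    Polynomial.aeval (T ^ (q ^ e)) g = (Polynomial.aeval T g) ^ (q ^ e) := by
  induction e with
  | zero => simp
  | succ e ih =>
    rw [pow_succ, pow_mul, pow_mul, ← ih]
    have h1 := FiniteField.expand_card (K := F) g
    rw [hq] at h1
    have h2 : ∀ S : End F V, Polynomial.aeval (S ^ q) g = (Polynomial.aeval S g) ^ q := by
      intro S
      rw [← map_pow, ← h1, Polynomial.expand_aeval]
    exact h2 _

variable {B : LinearMap.BilinForm F V} {T : End F V}

/-- Adjoint of a polynomial in the isometry. -/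
theorem adj_aeval (h : Rz B T r) (hr : r ≠ 0) (P : F[X]) (u v : V) :
    B (Polynomial.aeval T P u) v = B u (Polynomial.aeval (T ^ (r - 1)) P v) := by
  have h1 : ∀ k : ℕ, B ((T ^ k) u) v = B u (((T ^ (r - 1)) ^ k) v) := by
    intro k
    have hiso : ∀ (k : ℕ) (x y : V), B ((T ^ k) x) ((T ^ k) y) = B x y := by
      intro k
      induction k with
      | zero => intro x y; rfl
      | succ k ih =>
        intro x y
        rw [pow_succ, Module.End.mul_apply, Module.End.mul_apply, ih, h.iso]
    have hpow : T ^ k * (T ^ (r - 1)) ^ k = 1 := by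
      rw [← pow_mul, ← pow_add]
      have : k + (r - 1) * k = r * k := by
        obtain ⟨s, rfl⟩ : ∃ s, r = s + 1 := ⟨r - 1, by omega⟩
        simp only [Nat.add_sub_cancel]
        ring
      rw [this, pow_mul, h.pow, one_pow]
    have h2 := hiso k u (((T ^ (r - 1)) ^ k) v)
    rw [← h2, ← Module.End.mul_apply (T ^ k), hpow, Module.End.one_apply]
  induction P using Polynomial.induction_on' with
  | add P Q hP hQ =>
    simp only [map_add, LinearMap.add_apply, hP, hQ]
  | monomial n a =>
    simp only [aeval_monomial, Module.End.mul_apply, Module.algebraMap_end_apply, map_smul,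
      LinearMap.smul_apply, h1 n]

/-- Self-duality of an irreducible factor for even order. -/
theorem orth_fac (h : Rz B T r) (hq : Fintype.card F = q) (hr : r ≠ 0) {e : ℕ} (hrq : r ∣ q ^ e + 1)
    {g b : F[X]} (hcop : IsCoprime g b) {u w : V} (hu : Polynomial.aeval T g u = 0)
    (hw : Polynomial.aeval T b w = 0) : B u w = 0 := by
  obtain ⟨c, d, hcd⟩ := hcop
  have hQ : q ^ e + 1 = r * (q ^ e + 1) / r := by
    rw [Nat.mul_div_cancel_left _ (by omega)]
  have hT1 : T ^ (r - 1) = T ^ (q ^ e) := by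
    obtain ⟨s, hs⟩ := hrq
    have hs0 : s ≠ 0 := by
      rintro rfl
      omega
    obtain ⟨s', rfl⟩ : ∃ s', s = s' + 1 := ⟨s - 1, by omega⟩
    have h1 : q ^ e = r * s' + (r - 1) := by
      have : r * (s' + 1) = r * s' + r := by ring
      omega
    rw [h1, pow_add, pow_mul, h.pow, one_pow, one_mul]
  have h1 : w = Polynomial.aeval T g (Polynomial.aeval T c w) := by
    have h2 : Polynomial.aeval T (c * g + d * b) w = w := by
      rw [hcd]
      simp
    rw [map_add, LinearMap.add_apply, map_mul, map_mul, Module.End.mul_apply, Module.End.mul_apply, hw,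
      map_zero, add_zero] at h2
    rw [hcomm, mul_comm, map_mul]
    exact h2.symm
  -- adjoint on the other side
  have halt : ∀ x y, B x y = - B y x := fun x y => (h.alt.neg_eq y x).symm
  rw [h1, halt, adj_aeval h hr, hT1, aeval_pow_card hq]
  have h3 : (Polynomial.aeval T g ^ (q ^ e)) u = 0 := by
    have hq0 : q ^ e ≠ 0 := by
      have : 0 < q := by rw [← hq]; exact Fintype.card_pos
      positivity
    obtain ⟨s, hs⟩ : ∃ s, q ^ e = s + 1 := ⟨q ^ e - 1, by omega⟩
    rw [hs, pow_succ, Module.End.mul_apply, hu, map_zero]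
  rw [h3, map_zero, neg_zero]

/-- The kernel of a factor is nondegenerate. -/
theorem nd_fac (h : Rz B T r) (hq : Fintype.card F = q) (hr : r ≠ 0) (hrF : (r : F) ≠ 0) {e : ℕ}
    (hrq : r ∣ q ^ e + 1) {g : F[X]} (hg : g ∣ X ^ r - 1) :
    Nd (fun u v => B u v) (LinearMap.ker (Polynomial.aeval T g)) := by
  obtain ⟨b, hb⟩ := hg
  have hsep : (X ^ r - 1 : F[X]).Separable := by
    have := separable_X_pow_sub_C (1 : F) hrF one_ne_zero
    simpa using this
  have hcop : IsCoprime g b := by
    rw [hb] at hsep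
    exact hsep.isCoprime
  have hsup := (sup_ker hcop (T := T) (W := ⊤) (fun v _ => Submodule.mem_top) (fun w _ => by
    rw [← hb]
    simp [h.pow])).1
  rw [top_inf_eq, top_inf_eq] at hsup
  exact (Rz.fm h).nd_of_orth_sum (Rz.fm h).nd_top hsup (fun x hx y hy =>
    orth_fac h hq hr hrq hcop hx hy)

theorem bound_fac (h : Rz B T r) (hq : Fintype.card F = q) (hr : r ≠ 0) (hrF : (r : F) ≠ 0) {e : ℕ}
    (hrq : r ∣ q ^ e + 1) {g : F[X]} (hg : g ∣ X ^ r - 1) {W : Submodule F V}
    (hTI : TI (fun u v => B u v) W) :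
    2 * finrank F (W ⊓ LinearMap.ker (Polynomial.aeval T g) : Submodule F V) ≤ Dk T g :=
  (Rz.fm h).two_mul_finrank_le (nd_fac h hq hr hrF hrq hg) inf_le_right
    (fun u hu v hv => hTI u hu.1 v hv.1)

theorem bound_beta (h : Rz B T r) (hq : Fintype.card F = q) (hr : r.Prime) (hrF : (r : F) ≠ 0)
    {e : ℕ} (hrq : r ∣ q ^ e + 1) (he : 0 < e) {S : Finset F[X]}
    (hS : ∀ g ∈ S, Irreducible g ∧ g.Monic ∧ g ∣ X ^ r - 1 ∧ ¬ g ∣ X - 1 ∧ g.natDegree = 2 * e)
    (hprod : ∏ g ∈ S, g = Phi F r) {W : Submodule F V} (hTI : TI (fun u v => B u v) W)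
    (hInv : Inv T W) :
    ∃ (t₀ : ℕ) (w : F[X] → ℕ), finrank F W = t₀ + 2 * e * ∑ g ∈ S, w g ∧
      2 * t₀ ≤ Dk T (X - 1 : F[X]) ∧ ∀ g ∈ S, 2 * (2 * e * w g) ≤ Dk T g := by
  classical
  have h1 := split01 hrF h.pow hInv
  have hnd := nd0 (Rz.fm h) h.iso hrF h.pow ((Rz.fm h).nd_top) (U := ⊤) (fun v _ => Submodule.mem_top)
  rw [top_inf_eq] at hnd
  have h2 := (Rz.fm h).two_mul_finrank_le hnd
    (W := W ⊓ LinearMap.ker (Polynomial.aeval T (X - 1 : F[X]))) inf_le_right
    (fun u hu v hv => hTI u hu.1 v hv.1)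
  have hcop : ∀ g ∈ S, ∀ k ∈ S, g ≠ k → IsCoprime g k := by
    intro g hg k hk hne
    obtain ⟨hgi, hgm, -⟩ := hS g hg
    obtain ⟨hki, hkm, -⟩ := hS k hk
    refine hgi.coprime_iff_not_dvd.mpr ?_
    intro hd
    exact hne (Polynomial.eq_of_monic_of_associated hgm hkm (hgi.associated_of_dvd hki hd))
  have h3 := finrank_sum_factors hInv S hcop
  rw [hprod] at h3
  have hdvd : ∀ g ∈ S, 2 * e ∣ finrank F (W ⊓ LinearMap.ker (Polynomial.aeval T g) : Submodule F V) := by
    intro g hg
    obtain ⟨hgi, -, -, -, hd⟩ := hS g hg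
    rw [← hd]
    exact natDegree_dvd_inf hgi hInv
  refine ⟨finrank F (W ⊓ LinearMap.ker (Polynomial.aeval T (X - 1 : F[X])) : Submodule F V),
    fun g => finrank F (W ⊓ LinearMap.ker (Polynomial.aeval T g) : Submodule F V) / (2 * e), ?_, h2, ?_⟩
  · rw [h1.2, h3, Finset.mul_sum]
    congr 1
    apply Finset.sum_congr rfl
    intro g hg
    rw [Nat.mul_div_cancel' (hdvd g hg)]
  · intro g hg
    rw [Nat.mul_div_cancel' (hdvd g hg)]
    exact bound_fac h hq hr.ne_zero hrF hrq (hS g hg).2.2.1 hTI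

end sd

section models

variable [Fintype F]

/-- Model for even order with a repeated factor. -/
theorem exists_alpha_even (hq : Fintype.card F = q) (hr : r.Prime) (hr2 : r ≠ 2) (hrF : (r : F) ≠ 0)
    (hrq : ¬ r ∣ q) {e d : ℕ} (hi : orderOf (q : ZMod r) = 2 * e) (he : 0 < e) (hbig : 2 * e ≤ 2 * d) :
    ∃ (V : Type u) (_ : AddCommGroup V) (_ : Module F V) (_ : FiniteDimensional F V)
      (B : LinearMap.BilinForm F V) (T : End F V), Rz B T r ∧ finrank F V = 2 * d ∧
      Dk T (X - 1 : F[X]) = (2 * d) % (2 * e) ∧ ∀ z : F, T ≠ z • 1 := by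
  classical
  obtain ⟨S, hS, hprod, hcard⟩ := exists_factors hq hr hrF hrq
  rw [hi] at hS hcard
  have hrpos := hr.two_le
  have hSne : S.Nonempty := by
    rw [← Finset.card_pos]
    rcases Nat.eq_zero_or_pos S.card with h0 | h0
    · rw [h0, zero_mul] at hcard
      omega
    · exact h0
  obtain ⟨g, hg⟩ := hSne
  have hrq' := dvd_pow_add_one (q := q) hr hi he
  set k := (2 * d) % (2 * e) with hk
  have hkeven : k = 2 * (k / 2) := by
    have h1 : (2 * d) % (2 * e) = 2 * (d % e) := Nat.mul_mod_mul_left 2 d e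
    omega
  set s := (2 * d) / (2 * e) with hs
  have hspos : 0 < s := Nat.div_pos hbig (by omega)
  obtain ⟨V, i1, i2, i3, B, T, hRz, hf, hD, -, hNS⟩ := model_even hq he.ne' hrq' (k / 2)
    (List.replicate s g) (by
      intro g' hg'
      rw [List.eq_of_mem_replicate hg']
      exact hS g hg)
  refine ⟨V, i1, i2, i3, B, T, hRz, ?_, ?_, hNS (by
    intro h0
    have := congrArg List.length h0
    simp at this
    omega)⟩
  · rw [hf, List.length_replicate, ← hkeven, hk, hs]
    exact Nat.mod_add_div _ _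
  · rw [hD, ← hkeven]

/-- Model for odd order with double factors. -/
theorem exists_alpha_odd (hq : Fintype.card F = q) (hr : r.Prime) (hr2 : r ≠ 2) (hrF : (r : F) ≠ 0)
    (hrq : ¬ r ∣ q) {i d : ℕ} (hi : orderOf (q : ZMod r) = i) (hipos : 0 < i)
    (hbig : 2 * i ≤ 2 * d) :
    ∃ (V : Type u) (_ : AddCommGroup V) (_ : Module F V) (_ : FiniteDimensional F V)
      (B : LinearMap.BilinForm F V) (T : End F V), Rz B T r ∧ finrank F V = 2 * d ∧
      Dk T (X - 1 : F[X]) = (2 * d) % (2 * i) ∧ ∀ z : F, T ≠ z • 1 := by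
  classical
  obtain ⟨S, hS, hprod, hcard⟩ := exists_factors hq hr hrF hrq
  rw [hi] at hS hcard
  have hrpos := hr.two_le
  have hSne : S.Nonempty := by
    rw [← Finset.card_pos]
    rcases Nat.eq_zero_or_pos S.card with h0 | h0
    · rw [h0, zero_mul] at hcard
      omega
    · exact h0
  obtain ⟨g, hg⟩ := hSne
  obtain ⟨hgi, -, hgr, hg1, hgd⟩ := hS g hg
  set k := (2 * d) % (2 * i) with hk
  have hkeven : k = 2 * (k / 2) := by
    have h1 : (2 * d) % (2 * i) = 2 * (d % i) := Nat.mul_mod_mul_left 2 d i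
    omega
  set s := (2 * d) / (2 * i) with hs
  have hspos : 0 < s := Nat.div_pos hbig (by omega)
  obtain ⟨V, i1, i2, i3, B, T, hRz, hf, hD, hNS⟩ := model_odd hq hgi hgr hg1
    (hr.odd_of_ne_two hr2) (k / 2) s
  refine ⟨V, i1, i2, i3, B, T, hRz, ?_, ?_, hNS hspos⟩
  · rw [hf, hgd, ← hkeven, hk, hs]
    exact Nat.mod_add_div _ _
  · rw [hD, ← hkeven]

/-- Arithmetic of the residue. -/
theorem arith_unique {i m t₀ s k u : ℕ} (hi : 0 < i) (hm : m = t₀ + i * s) (ht : 2 * t₀ ≤ k + i * u)
    (hk : k < i) (hu : u ≤ 1) : s = m / i := by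
  have h1 : i * u ≤ i := by
    calc i * u ≤ i * 1 := Nat.mul_le_mul_left _ hu
      _ = i := mul_one i
  have h2 : t₀ < i := by omega
  rw [hm, Nat.add_mul_div_left _ _ hi, Nat.div_eq_of_lt h2, zero_add]

/-- Model for even order when the number of factors is too large. -/
theorem exists_beta (hq : Fintype.card F = q) (hr : r.Prime) (hr2 : r ≠ 2) (hrF : (r : F) ≠ 0)
    (hrq : ¬ r ∣ q) {e d m : ℕ} (hi : orderOf (q : ZMod r) = 2 * e) (he : 0 < e)
    (hmd : m ≤ d) (hm : 2 * e ≤ m) (hbig : (2 * d) / (2 * e) < (r - 1) / (2 * e) + 2 * (m / (2 * e))) :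
    ∃ (V : Type u) (_ : AddCommGroup V) (_ : Module F V) (_ : FiniteDimensional F V)
      (B : LinearMap.BilinForm F V) (T : End F V), Rz B T r ∧ finrank F V = 2 * d ∧
      (∀ z : F, T ≠ z • 1) ∧ ∀ W : Submodule F V, TI (fun u v => B u v) W → Inv T W →
        finrank F W ≠ m := by
  classical
  obtain ⟨S, hS, hprod, hcard⟩ := exists_factors hq hr hrF hrq
  rw [hi] at hS hcard
  have hrpos := hr.two_le
  have h2e : 0 < 2 * e := by omega
  have hSpos : 0 < S.card := by
    rcases Nat.eq_zero_or_pos S.card with h0 | h0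
    · rw [h0, zero_mul] at hcard
      omega
    · exact h0
  obtain ⟨g₀, hg₀⟩ := Finset.card_pos.mp hSpos
  have hrq' := dvd_pow_add_one (q := q) hr hi he
  set t := S.card with ht
  have htdiv : (r - 1) / (2 * e) = t := by
    rw [← hcard, Nat.mul_div_cancel _ h2e]
  rw [htdiv] at hbig
  set k := (2 * d) % (2 * e) with hk
  have hklt : k < 2 * e := Nat.mod_lt _ h2e
  have hkeven : k = 2 * (k / 2) := by
    have h1 : (2 * d) % (2 * e) = 2 * (d % e) := Nat.mul_mod_mul_left 2 d e
    omega
  set n := (2 * d) / (2 * e) with hn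
  have hdn : k + 2 * e * n = 2 * d := Nat.mod_add_div _ _
  have hm1 : 1 ≤ m / (2 * e) := (Nat.one_le_div_iff h2e).mpr hm
  have hn2 : 2 ≤ n := by
    rw [hn, Nat.le_div_iff_mul_le h2e]
    omega
  set u := (n + t) % 2 with hu
  have hu1 : u ≤ 1 := by omega
  set N := n - u with hN
  have hNpar : ∀ h : t ≤ N, Even (N - t) := by
    intro h
    rw [Nat.even_iff]
    omega
  let L := S.toList
  have hLnd : L.Nodup := S.nodup_toList
  have hLmem : ∀ g, g ∈ L ↔ g ∈ S := fun g => Finset.mem_toList
  have hLlen : L.length = t := Finset.length_toList S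
  let l := L.take N ++ List.replicate (N - t) g₀
  have hllen : l.length = N := by
    simp only [l, List.length_append, List.length_take, List.length_replicate, hLlen]
    omega
  have hlmem : ∀ g ∈ l, g ∈ S := by
    intro g hg
    rcases List.mem_append.mp hg with h1 | h1
    · exact (hLmem g).mp (List.mem_of_mem_take h1)
    · rw [List.eq_of_mem_replicate h1]
      exact hg₀
  have ha : k + 2 * e * u = 2 * ((k + 2 * e * u) / 2) := by
    have : (k + 2 * e * u) % 2 = 0 := by
      rw [Nat.add_mod, hkeven, mul_assoc]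
      simp
    omega
  obtain ⟨V, i1, i2, i3, B, T, hRz, hf, hD, hDh, hNS⟩ := model_even hq he.ne' hrq'
    ((k + 2 * e * u) / 2) l (fun g hg => hS g (hlmem g hg))
  have hNpos : 0 < N := by omega
  refine ⟨V, i1, i2, i3, B, T, hRz, ?_, hNS (by
    intro h0
    have := congrArg List.length h0
    rw [hllen] at this
    simp at this
    omega), ?_⟩
  · rw [hf, hllen, ← ha, ← hdn]
    have : n = u + N := by omega
    rw [this]
    ring
  · intro W hTI hInv hWm
    obtain ⟨t₀, w, hW, h2, h3⟩ := bound_beta hRz hq hr hrF hrq' he hS hprod hTI hInv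
    rw [hD, ← ha] at h2
    have hsum := arith_unique h2e (hWm.symm.trans hW) h2 hklt hu1
    have hcount : ∀ g ∈ S, 2 * w g ≤ l.count g := by
      intro g hg
      have h4 := h3 g hg
      obtain ⟨hgi, hgm, hgr, hg1, hgd⟩ := hS g hg
      rw [hDh g hgm hgi hg1] at h4
      have h5 : 2 * e * (2 * w g) ≤ 2 * e * l.count g := by
        calc 2 * e * (2 * w g) = 2 * (2 * e * w g) := by ring
          _ ≤ _ := h4
      exact Nat.le_of_mul_le_mul_left h5 h2e
    have hcount1 : ∀ g ∈ S, g ≠ g₀ → w g = 0 := by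
      intro g hg hne
      have h4 := hcount g hg
      have h5 : l.count g ≤ 1 := by
        simp only [l, List.count_append]
        have h6 : (L.take N).count g ≤ 1 :=
          List.nodup_iff_count_le_one.mp (hLnd.sublist (List.take_sublist _ _)) g
        have h7 : (List.replicate (N - t) g₀).count g = 0 := by
          rw [List.count_replicate]
          simp [Ne.symm hne]
        omega
      omega
    have hcount0 : l.count g₀ ≤ 1 + (N - t) := by
      simp only [l, List.count_append]
      have h6 : (L.take N).count g₀ ≤ 1 :=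
        List.nodup_iff_count_le_one.mp (hLnd.sublist (List.take_sublist _ _)) g₀
      have h7 : (List.replicate (N - t) g₀).count g₀ = N - t := by
        simp
      omega
    have hsum1 : ∑ g ∈ S, w g = w g₀ := Finset.sum_eq_single g₀
      (fun g hg hne => hcount1 g hg hne) (fun h => absurd hg₀ h)
    rw [hsum1] at hsum
    have h8 := hcount g₀ hg₀
    by_cases hle : t ≤ N
    · have h9 := hNpar hle
      rw [Nat.even_iff] at h9
      omega
    · have : N - t = 0 := by omega
      omega

end models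

end Cfsg.Agent.Lib.ElusF.SpNeg
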