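import Cfsg.Agent.Lib.ElusF.HzArith
import Cfsg.Agent.Lib.ElusF.SpNeg

/-!
# Adjoints of polynomials in a unitary isometry; the self-dual case
-/

set_option autoImplicit false
set_option linter.unusedSectionVars false
set_option linter.style.haveILetI false
set_option linter.unusedVariables false

open Polynomial Module

universe u

namespace Cfsg.Agent.Lib.ElusF.HzAdj

open Cfsg.Agent.Lib.ElusL.Basic Cfsg.Agent.Lib.ElusL.Flag Cfsg.Agent.Lib.ElusL.Cyc
  Cfsg.Agent.Lib.ElusL.Pos Cfsg.Agent.Lib.ElusF.Form Cfsg.Agent.Lib.ElusF.Step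
  Cfsg.Agent.Lib.ElusF.Split Cfsg.Agent.Lib.ElusF.SpModel Cfsg.Agent.Lib.ElusF.SpNeg
  Cfsg.Agent.Lib.HermCount.Field Cfsg.Agent.Lib.ElusF.HzBase

variable {F : Type*} [Field F] [Fintype F] {q r : ℕ} {V : Type*} [AddCommGroup V] [Module F V]
  {B : V → V → F}

theorem odd_frob (hF : Fintype.card F = q ^ 2) {b : ℕ} (hb : Odd b) (x : F) : x ^ (q ^ b) = x ^ q := by
  obtain ⟨a, rfl⟩ := hb
  induction a with
  | zero => simp
  | succ a ih =>
    have h1 : 2 * (a + 1) + 1 = (2 * a + 1) + 2 := by ring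
    rw [h1, pow_add, pow_mul, ih, ← hF, FiniteField.pow_card]

/-- Frobenius on polynomials. -/
theorem poly_frob (hF : Fintype.card F = q ^ 2) {b : ℕ} (hb : Odd b) (P : F[X]) :
    P ^ (q ^ b) = expand F (q ^ b) (P.map (frobHom hF)) := by
  classical
  obtain ⟨p, hp⟩ := CharP.exists F
  obtain ⟨n, hpp, hcard⟩ := FiniteField.card F p
  have : Fact p.Prime := ⟨hpp⟩
  have hq : q ∣ p ^ (n : ℕ) := by
    rw [← hcard, hF]
    exact dvd_pow_self q two_ne_zero
  obtain ⟨j, -, rfl⟩ := (Nat.dvd_prime_pow hpp).mp hq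
  rw [← pow_mul]
  have h1 := map_iterateFrobenius_expand (p := p) P (j * b)
  have h2 : (iterateFrobenius F p (j * b)) = frobHom hF := by
    ext x
    rw [iterateFrobenius_def, frobHom_apply, pow_mul, odd_frob hF hb x]
  rw [h2] at h1
  rw [← h1, map_expand]

theorem aeval_frob (hF : Fintype.card F = q ^ 2) {b : ℕ} (hb : Odd b) {A : Type*} [Semiring A] [Algebra F A]
    (x : A) (P : F[X]) :
    (Polynomial.aeval x P) ^ (q ^ b) = Polynomial.aeval (x ^ (q ^ b)) (P.map (frobHom hF)) := by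
  rw [← map_pow, poly_frob hF hb, expand_aeval]

/-- The adjoint of a polynomial in an isometry of finite order. -/
theorem adj_aeval {σ : F →+* F} {ε : F} (hB : Fm σ ε B) {T : End F V} (hT : Iso B T) (hTr : T ^ r = 1)
    (hr : r ≠ 0) (P : F[X]) (u v : V) :
    B (Polynomial.aeval T P u) v = B u (Polynomial.aeval (T ^ (r - 1)) (P.map σ) v) := by
  have h1 : ∀ k : ℕ, B ((T ^ k) u) v = B u (((T ^ (r - 1)) ^ k) v) := by
    intro k
    have hpow : T ^ k * (T ^ (r - 1)) ^ k = 1 := by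
      rw [← pow_mul, ← pow_add]
      have : k + (r - 1) * k = r * k := by
        obtain ⟨s, rfl⟩ : ∃ s, r = s + 1 := ⟨r - 1, by omega⟩
        simp only [Nat.add_sub_cancel]
        ring
      rw [this, pow_mul, hTr, one_pow]
    have h2 := iso_pow hT k u (((T ^ (r - 1)) ^ k) v)
    rw [← h2, ← Module.End.mul_apply (T ^ k), hpow, Module.End.one_apply]
  induction P using Polynomial.induction_on' with
  | add P Q hP hQ =>
    rw [map_add, LinearMap.add_apply, hB.add_l, hP, hQ, Polynomial.map_add, map_add,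
      LinearMap.add_apply, hB.add_r]
  | monomial n a =>
    rw [aeval_monomial, Module.End.mul_apply, Module.algebraMap_end_apply, hB.smul_l, h1,
      map_monomial, aeval_monomial, Module.End.mul_apply, Module.algebraMap_end_apply, hB.smul_r,
      hB.σσ]

theorem inv_eq_pow {T : End F V} (hTr : T ^ r = 1) {Q : ℕ} (hrq : r ∣ Q + 1) :
    T ^ (r - 1) = T ^ Q := by
  obtain ⟨s, hs⟩ := hrq
  have hs0 : s ≠ 0 := by
    rintro rfl
    omega
  have hr0 : r ≠ 0 := by
    rintro rfl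
    omega
  obtain ⟨s', rfl⟩ : ∃ s', s = s' + 1 := ⟨s - 1, by omega⟩
  have h1 : Q = r * s' + (r - 1) := by
    have : r * (s' + 1) = r * s' + r := by ring
    omega
  rw [h1, pow_add, pow_mul, hTr, one_pow, one_mul]

/-- Orthogonality of kernels of coprime polynomials in the self-dual case. -/
theorem orth_fac (hF : Fintype.card F = q ^ 2) (hB : Fm (frobHom hF) 1 B) {T : End F V} (hT : Iso B T)
    (hTr : T ^ r = 1) (hr : r ≠ 0) {e : ℕ} (he : Odd e) (hrq : r ∣ q ^ e + 1) {g b : F[X]}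
    (hcop : IsCoprime g b) {u w : V} (hu : Polynomial.aeval T g u = 0)
    (hw : Polynomial.aeval T b w = 0) : B u w = 0 := by
  obtain ⟨c, d, hcd⟩ := hcop
  have h1 : w = Polynomial.aeval T g (Polynomial.aeval T c w) := by
    have h2 : Polynomial.aeval T (c * g + d * b) w = w := by
      rw [hcd]
      simp
    rw [map_add, LinearMap.add_apply, map_mul, map_mul, Module.End.mul_apply, Module.End.mul_apply, hw,
      map_zero, add_zero] at h2
    rw [hcomm, mul_comm, map_mul]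
    exact h2.symm
  rw [hB.eq_zero_comm, h1, adj_aeval hB hT hTr hr, inv_eq_pow hTr hrq, ← aeval_frob hF he]
  have h3 : (Polynomial.aeval T g ^ (q ^ e)) u = 0 := by
    have hq0 : q ^ e ≠ 0 := by
      have := two_le hF
      positivity
    obtain ⟨s, hs⟩ : ∃ s, q ^ e = s + 1 := ⟨q ^ e - 1, by omega⟩
    rw [hs, pow_succ, Module.End.mul_apply, hu, map_zero]
  rw [h3, hB.zero_r]

variable [FiniteDimensional F V]

/-- The kernel of a factor is nondegenerate. -/
theorem nd_fac (hF : Fintype.card F = q ^ 2) (hB : Fm (frobHom hF) 1 B) {T : End F V} (hT : Iso B T)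
    (hTr : T ^ r = 1) (hr : r ≠ 0) (hrF : (r : F) ≠ 0) {e : ℕ} (he : Odd e) (hrq : r ∣ q ^ e + 1) {g : F[X]}
    (hg : g ∣ X ^ r - 1) {U : Submodule F V} (hU : Nd B U) (hUi : Inv T U) :
    Nd B (U ⊓ LinearMap.ker (Polynomial.aeval T g)) := by
  obtain ⟨b, hb⟩ := hg
  have hsep : (X ^ r - 1 : F[X]).Separable := by
    have := separable_X_pow_sub_C (1 : F) hrF one_ne_zero
    simpa using this
  have hcop : IsCoprime g b := by
    rw [hb] at hsep
    exact hsep.isCoprime
  have hsup := (sup_ker hcop (T := T) (W := U) hUi (fun w _ => by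
    rw [← hb]
    simp [hTr])).1
  exact hB.nd_of_orth_sum hU hsup (fun x hx y hy => orth_fac hF hB hT hTr hr he hrq hcop hx.2 hy.2)

/-- The shape of an invariant totally isotropic subspace in the self-dual case. -/
theorem bound_beta (hF : Fintype.card F = q ^ 2) (hB : Fm (frobHom hF) 1 B) {T : End F V} (hT : Iso B T)
    (hTr : T ^ r = 1) (hr : r.Prime) (hrF : (r : F) ≠ 0) {e : ℕ} (he : Odd e) (hrq : r ∣ q ^ e + 1)
    {d : ℕ} {S : Finset F[X]}
    (hS : ∀ g ∈ S, Irreducible g ∧ g.Monic ∧ g ∣ X ^ r - 1 ∧ ¬ g ∣ X - 1 ∧ g.natDegree = d)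
    (hprod : ∏ g ∈ S, g = Phi F r) {W : Submodule F V} (hTI : TI B W) (hInv : Inv T W) :
    ∃ (t₀ : ℕ) (w : F[X] → ℕ), finrank F W = t₀ + d * ∑ g ∈ S, w g ∧
      2 * t₀ ≤ Dk T (X - 1 : F[X]) ∧ ∀ g ∈ S, 2 * (d * w g) ≤ Dk T g := by
  classical
  have h1 := split01 hrF hTr hInv
  have hnd := nd0 hB hT hrF hTr (hB.nd_top) (U := ⊤) (fun v _ => Submodule.mem_top)
  rw [top_inf_eq] at hnd
  have h2 := hB.two_mul_finrank_le hnd
    (W := W ⊓ LinearMap.ker (Polynomial.aeval T (X - 1 : F[X]))) inf_le_right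
    (fun u hu v hv => hTI u hu.1 v hv.1)
  have hcop : ∀ g ∈ S, ∀ k ∈ S, g ≠ k → IsCoprime g k := by
    intro g hg k hk hne
    obtain ⟨hgi, hgm, -⟩ := hS g hg
    obtain ⟨hki, hkm, -⟩ := hS k hk
    refine hgi.coprime_iff_not_dvd.mpr ?_
    intro hd
    exact hne (Polynomial.eq_of_monic_of_associated hgm hkm (hgi.associated_of_dvd hki hd))
  have h3 := finrank_sum_factors hInv S hcop
  rw [hprod] at h3
  have hdvd : ∀ g ∈ S, d ∣ finrank F (W ⊓ LinearMap.ker (Polynomial.aeval T g) : Submodule F V) := by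
    intro g hg
    obtain ⟨hgi, -, -, -, hd⟩ := hS g hg
    rw [← hd]
    exact natDegree_dvd_inf hgi hInv
  refine ⟨finrank F (W ⊓ LinearMap.ker (Polynomial.aeval T (X - 1 : F[X])) : Submodule F V),
    fun g => finrank F (W ⊓ LinearMap.ker (Polynomial.aeval T g) : Submodule F V) / d, ?_, h2, ?_⟩
  · rw [h1.2, h3, Finset.mul_sum]
    congr 1
    apply Finset.sum_congr rfl
    intro g hg
    rw [Nat.mul_div_cancel' (hdvd g hg)]
  · intro g hg
    rw [Nat.mul_div_cancel' (hdvd g hg)]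
    have hnd' := nd_fac hF hB hT hTr hr.ne_zero hrF he hrq (hS g hg).2.2.1 hB.nd_top
      (U := ⊤) (fun v _ => Submodule.mem_top)
    rw [top_inf_eq] at hnd'
    exact hB.two_mul_finrank_le hnd' inf_le_right (fun u hu v hv => hTI u hu.1 v hv.1)

/-- A factor with a nonzero part in a nondegenerate subspace. -/
theorem exists_fac {T : End F V} {S : Finset F[X]} (hr : r.Prime)
    (hS : ∀ g ∈ S, ∀ k ∈ S, g ≠ k → IsCoprime g k)
    (hprod : ∏ g ∈ S, g = Phi F r) {U : Submodule F V} (hUi : Inv T U)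
    (hU₁ : U ≤ LinearMap.ker (Polynomial.aeval T (Phi F r))) (hpos : 0 < finrank F U) :
    ∃ g ∈ S, 0 < finrank F (U ⊓ LinearMap.ker (Polynomial.aeval T g) : Submodule F V) := by
  have h3 := finrank_sum_factors hUi S hS
  rw [hprod, inf_eq_left.mpr hU₁] at h3
  by_contra hcon
  push Not at hcon
  have h4 : ∑ g ∈ S, finrank F (U ⊓ LinearMap.ker (Polynomial.aeval T g) : Submodule F V) = 0 :=
    Finset.sum_eq_zero (fun g hg => by have := hcon g hg; omega)
  omega

/-- The nondegenerate pieces in the self-dual case. -/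
theorem step_sd (hF : Fintype.card F = q ^ 2) (hB : Fm (frobHom hF) 1 B) {T : End F V} (hT : Iso B T)
    (hTr : T ^ r = 1) (hr : r.Prime) (hrF : (r : F) ≠ 0) {e : ℕ} (he : Odd e) (hrq : r ∣ q ^ e + 1)
    {d : ℕ} {S : Finset F[X]}
    (hS : ∀ g ∈ S, Irreducible g ∧ g.Monic ∧ g ∣ X ^ r - 1 ∧ ¬ g ∣ X - 1 ∧ g.natDegree = d)
    (hprod : ∏ g ∈ S, g = Phi F r) {U : Submodule F V}
    (hU₁ : U ≤ LinearMap.ker (Polynomial.aeval T (Phi F r))) (hU : Nd B U) (hUi : Inv T U)
    (hpos : 0 < finrank F U) :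
    ∃ C : Submodule F V, C ≤ U ∧ Nd B C ∧ Inv T C ∧ finrank F C = d := by
  classical
  have hinj : Function.Injective T :=
    inj_of_pow (c := 1) one_ne_zero hr.ne_zero (by rw [hTr, one_smul])
  have hcop : ∀ g ∈ S, ∀ k ∈ S, g ≠ k → IsCoprime g k := by
    intro g hg k hk hne
    obtain ⟨hgi, hgm, -⟩ := hS g hg
    obtain ⟨hki, hkm, -⟩ := hS k hk
    refine hgi.coprime_iff_not_dvd.mpr ?_
    intro hd
    exact hne (Polynomial.eq_of_monic_of_associated hgm hkm (hgi.associated_of_dvd hki hd))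
  obtain ⟨g, hgS, hgpos⟩ := exists_fac hr hcop hprod hUi hU₁ hpos
  obtain ⟨hgi, -, hgr, -, hgd⟩ := hS g hgS
  have hnd := nd_fac hF hB hT hTr hr.ne_zero hrF he hrq hgr hU hUi
  obtain ⟨W, h1, h2, h3, h4⟩ := exists_nd_cyc hF hB hT hinj hgi inf_le_right
    (hB.inv_inf hUi (inv_ker T g)) hnd hgpos
  exact ⟨W, h1.trans inf_le_left, h2, h3, by rw [h4, hgd]⟩

/-- Invariant isotropic pieces when the dimension is large. -/
theorem ti_large (hF : Fintype.card F = q ^ 2) (hB : Fm (frobHom hF) 1 B) {T : End F V} (hT : Iso B T)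
    (hTr : T ^ r = 1) (hr : r.Prime) (hrF : (r : F) ≠ 0)
    {d : ℕ} {S : Finset F[X]}
    (hS : ∀ g ∈ S, Irreducible g ∧ g.Monic ∧ g ∣ X ^ r - 1 ∧ ¬ g ∣ X - 1 ∧ g.natDegree = d)
    (hprod : ∏ g ∈ S, g = Phi F r) {U : Submodule F V}
    (hU₁ : U ≤ LinearMap.ker (Polynomial.aeval T (Phi F r))) (hUi : Inv T U)
    (hlarge : r - 1 < finrank F U) :
    ∃ W : Submodule F V, W ≤ U ∧ TI B W ∧ Inv T W ∧ finrank F W = d := by
  classical
  have hinj : Function.Injective T :=
    inj_of_pow (c := 1) one_ne_zero hr.ne_zero (by rw [hTr, one_smul])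
  have hsep : (Phi F r).Separable := by
    have h1 : (X ^ r - C (1 : F) : F[X]).Separable := separable_X_pow_sub_C 1 hrF one_ne_zero
    apply h1.of_dvd
    refine ⟨X - 1, ?_⟩
    rw [C_1, ← Phi_mul, mul_comm]
  obtain ⟨g, hg, hgd, hgl⟩ : ∃ g, Irreducible g ∧ g ∣ Phi F r ∧
      g.natDegree < finrank F (U ⊓ LinearMap.ker (Polynomial.aeval T g) : Submodule F V) := by
    by_contra hcon
    push Not at hcon
    have h1 := finrank_ker_le hsep hUi (fun g hg hgd => hcon g hg hgd) _ (Phi F r) rfl dvd_rfl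
    rw [inf_eq_left.mpr hU₁, Phi_natDegree hr] at h1
    omega
  have hE2 : 2 * g.natDegree ≤ finrank F (U ⊓ LinearMap.ker (Polynomial.aeval T g) : Submodule F V) := by
    obtain ⟨c, hc⟩ := natDegree_dvd_inf hg hUi
    rw [hc] at hgl ⊢
    have hd := hg.natDegree_pos
    have : 1 < c := by
      by_contra h
      have : c ≤ 1 := by omega
      have h2 : g.natDegree * c ≤ g.natDegree * 1 := Nat.mul_le_mul_left _ this
      omega
    calc 2 * g.natDegree = g.natDegree * 2 := mul_comm _ _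
      _ ≤ g.natDegree * c := Nat.mul_le_mul_left _ this
  have hdeg : g.natDegree = d := by
    -- the degree of a factor of the product
    obtain ⟨k, hkS, hgk⟩ := (Prime.dvd_finsetProd_iff hg.prime _).mp (by rw [hprod]; exact hgd)
    obtain ⟨hki, -, -, -, hkd⟩ := hS k hkS
    have h2 := (hg.dvd_irreducible_iff_associated hki).mp hgk
    rw [← hkd]
    exact natDegree_eq_of_degree_eq (degree_eq_degree_of_associated h2)
  obtain ⟨W, h1, h2, h3, h4⟩ := exists_ti_cyc hF hB hT hinj hg (E := U ⊓ LinearMap.ker (Polynomial.aeval T g))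
    inf_le_right (hB.inv_inf hUi (inv_ker T g)) hE2
  exact ⟨W, h1.trans inf_le_left, h2, h3, by rw [h4, hdeg]⟩

end Cfsg.Agent.Lib.ElusF.HzAdj
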