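import Cfsg.Agent.Lib.ElusF.HzBase

/-!
# Arithmetic of the order of `q` modulo `r` for the unitary groups
-/

set_option autoImplicit false
set_option linter.unusedSectionVars false
set_option linter.style.haveILetI false
set_option linter.unusedVariables false

namespace Cfsg.Agent.Lib.ElusF.HzArith

variable {q r : ℕ} [Fact r.Prime]

theorem orderOf_q2 {i b : ℕ} (hi : i = orderOf (q : ZMod r)) (hb : b = if Even i then i / 2 else i) :
    orderOf ((q ^ 2 : ℕ) : ZMod r) = b := by
  rcases Nat.eq_zero_or_pos i with h0 | h0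
  · have h1 : orderOf (q : ZMod r) = 0 := by rw [← hi, h0]
    have h2 : orderOf ((q : ZMod r) ^ 2) = 0 := by
      by_contra hne
      have h3 : 0 < orderOf ((q : ZMod r) ^ 2) := Nat.pos_of_ne_zero hne
      rw [orderOf_pos_iff, isOfFinOrder_iff_pow_eq_one] at h3
      obtain ⟨n, hn, hn1⟩ := h3
      have h4 : orderOf (q : ZMod r) ∣ 2 * n := orderOf_dvd_of_pow_eq_one (by rw [pow_mul]; exact hn1)
      rw [h1] at h4
      have := zero_dvd_iff.mp h4
      omega
    rw [hb, h0]
    push_cast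
    simp [h2]
  · push_cast
    rw [orderOf_pow' _ two_ne_zero, ← hi, hb]
    split_ifs with hev
    · rw [Nat.gcd_eq_right (even_iff_two_dvd.mp hev)]
    · have : Nat.gcd i 2 = 1 := by
        rw [Nat.gcd_comm]
        exact (Nat.prime_two.coprime_iff_not_dvd).mpr (fun h => hev (even_iff_two_dvd.mpr h))
      rw [this, Nat.div_one]

theorem neg_ne_one (hr2 : r ≠ 2) : (-1 : ZMod r) ≠ 1 := by
  have hr : r.Prime := Fact.out
  haveI : Fact (2 < r) := ⟨by have := hr.two_le; omega⟩
  exact ZMod.neg_one_ne_one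

theorem pow_eq_neg_of_dvd {l : ℕ} (h : r ∣ q ^ l + 1) : (q : ZMod r) ^ l = -1 := by
  have h1 : ((q ^ l + 1 : ℕ) : ZMod r) = 0 := (ZMod.natCast_eq_zero_iff _ _).mpr h
  push_cast at h1
  linear_combination h1

/-- If `q ^ l = -1` with `l` odd then the order is twice an odd number. -/
theorem mod_four_of_dvd (hr2 : r ≠ 2) {l : ℕ} (hl : Odd l) (h : r ∣ q ^ l + 1) :
    orderOf (q : ZMod r) % 4 = 2 ∧ orderOf (q : ZMod r) / 2 ∣ l := by
  have h1 := pow_eq_neg_of_dvd h
  have h2 : (q : ZMod r) ^ (2 * l) = 1 := by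
    rw [mul_comm, pow_mul, h1]
    ring
  have h3 := orderOf_dvd_of_pow_eq_one h2
  set i := orderOf (q : ZMod r) with hi
  have hlne : ¬ i ∣ l := by
    intro hd
    have h4 : (q : ZMod r) ^ l = 1 := by
      rw [← orderOf_dvd_iff_pow_eq_one]
      exact hd
    exact neg_ne_one hr2 (h1.symm.trans h4)
  have hev : Even i := by
    by_contra hodd
    have hodd' : Odd i := Nat.not_even_iff_odd.mp hodd
    exact hlne ((hodd'.coprime_two_right).dvd_of_dvd_mul_left h3)
  obtain ⟨e, he⟩ := hev
  have hi2 : i = 2 * e := by omega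
  have hed : e ∣ l := by
    rw [hi2] at h3
    exact (Nat.mul_dvd_mul_iff_left (by norm_num : 0 < 2)).mp h3
  have heodd : Odd e := Odd.of_dvd_nat hl hed
  obtain ⟨a, ha⟩ := heodd
  constructor
  · omega
  · have : i / 2 = e := by omega
    rw [this]
    exact hed

/-- The residue `c` divides the exponents. -/
theorem c_dvd_of_even {i c l : ℕ} (hi : i = orderOf (q : ZMod r))
    (hc : c = if i % 4 = 0 then i else if i % 4 = 2 then i / 2 else 2 * i) (hl : Even l)
    (h : i ∣ l) : c ∣ l := by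
  rw [hc]
  split_ifs with h1 h2
  · exact h
  · exact (Nat.div_dvd_of_dvd (by omega : 2 ∣ i)).trans h
  · have hodd : Odd i := by
      rw [Nat.odd_iff]
      omega
    exact Nat.Coprime.mul_dvd_of_dvd_of_dvd (hodd.coprime_two_right.symm) (even_iff_two_dvd.mp hl) h

theorem c_dvd_of_odd (hr2 : r ≠ 2) {i c l : ℕ} (hi : i = orderOf (q : ZMod r))
    (hc : c = if i % 4 = 0 then i else if i % 4 = 2 then i / 2 else 2 * i) (hl : Odd l)
    (h : r ∣ q ^ l + 1) : c ∣ l := by
  obtain ⟨h1, h2⟩ := mod_four_of_dvd hr2 hl h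
  rw [← hi] at h1 h2
  rw [hc, if_neg (by omega), if_pos h1]
  exact h2

/-- Relations among `b` and `c`. -/
theorem bc_facts {i b c : ℕ} (hipos : 0 < i) (hb : b = if Even i then i / 2 else i)
    (hc : c = if i % 4 = 0 then i else if i % 4 = 2 then i / 2 else 2 * i) :
    0 < b ∧ 0 < c ∧ (i % 4 = 2 → c = b ∧ Odd b ∧ i = 2 * b) ∧ (i % 4 ≠ 2 → c = 2 * b) := by
  by_cases hev : Even i
  · have hb' : b = i / 2 := by rw [hb, if_pos hev]
    have hi2 : i % 2 = 0 := Nat.even_iff.mp hev
    refine ⟨by omega, ?_, ?_, ?_⟩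
    · rw [hc]
      split_ifs <;> omega
    · intro h
      have hc' : c = i / 2 := by rw [hc, if_neg (by omega), if_pos h]
      refine ⟨by omega, ?_, by omega⟩
      rw [Nat.odd_iff]
      omega
    · intro h
      have hc' : c = i := by rw [hc, if_pos (by omega)]
      omega
  · have hb' : b = i := by rw [hb, if_neg hev]
    have hi2 : i % 2 = 1 := Nat.odd_iff.mp (Nat.not_even_iff_odd.mp hev)
    refine ⟨by omega, ?_, ?_, ?_⟩
    · rw [hc]
      split_ifs <;> omega
    · intro h
      omega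
    · intro h
      have hc' : c = 2 * i := by rw [hc, if_neg (by omega), if_neg (by omega)]
      omega

/-- `r` divides `q + 1` exactly for order two. -/
theorem dvd_succ_iff (hr2 : r ≠ 2) : r ∣ q + 1 ↔ orderOf (q : ZMod r) = 2 := by
  constructor
  · intro h
    have h1 : (q : ZMod r) ^ 1 = -1 := pow_eq_neg_of_dvd (by simpa using h)
    rw [pow_one] at h1
    apply orderOf_eq_prime
    · rw [h1]
      ring
    · rw [h1]
      exact neg_ne_one hr2
  · intro h
    have hr : r.Prime := Fact.out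
    have h1 := Cfsg.Agent.Lib.ElusF.SpModel.dvd_pow_add_one (q := q) (e := 1) hr (by simpa using h) one_pos
    simpa using h1

/-- An exponent inverting `q` modulo `r` up to sign. -/
theorem exists_exp (hrq : ¬ r ∣ q) : ∃ e, (q * e) % r = r - 1 := by
  have hr : r.Prime := Fact.out
  have hcop : Nat.Coprime q r := ((Nat.Prime.coprime_iff_not_dvd hr).mpr hrq).symm
  obtain ⟨m, -, hm⟩ := Nat.exists_mul_mod_eq_one_of_coprime hcop hr.one_lt
  refine ⟨(r - 1) * m, ?_⟩
  have h1 : q * ((r - 1) * m) = (r - 1) * (q * m) := by ring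
  rw [h1, Nat.mul_mod, hm, mul_one, Nat.mod_mod]
  exact Nat.mod_eq_of_lt (by have := hr.pos; omega)

end Cfsg.Agent.Lib.ElusF.HzArith
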