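import Cfsg.Agent.Lib.ElusF.SpUniModel
import Cfsg.Agent.Lib.Witt.HermModel

/-!
# Nondegenerate Hermitian forms over a field with `q ^ 2` elements: basic vectors and lines
-/

set_option autoImplicit false
set_option linter.unusedSectionVars false
set_option linter.style.haveILetI false
set_option linter.unusedVariables false

open Polynomial Module

universe u

namespace Cfsg.Agent.Lib.ElusF.HzBase

open Cfsg.Agent.Lib.ElusL.Basic Cfsg.Agent.Lib.ElusF.Form Cfsg.Agent.Lib.ElusF.Step
  Cfsg.Agent.Lib.ElusF.Split Cfsg.Agent.Lib.HermCount.Field Cfsg.Agent.Lib.HermCount.Space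

variable {F : Type*} [Field F] {V : Type*} [AddCommGroup V] [Module F V]

/-- Polarisation for a sesquilinear map with respect to a nontrivial automorphism. -/
theorem exists_self_ne {σ : F →+* F} (hσ : ∃ c, σ c ≠ c) {U : Submodule F V} (φ : V → V → F)
    (add_l : ∀ x y z, φ (x + y) z = φ x z + φ y z) (add_r : ∀ x y z, φ x (y + z) = φ x y + φ x z)
    (smul_l : ∀ (c : F) x z, φ (c • x) z = c * φ x z) (smul_r : ∀ (c : F) x z, φ x (c • z) = σ c * φ x z)
    {x y : V} (hx : x ∈ U) (hy : y ∈ U) (hne : φ x y ≠ 0) : ∃ u ∈ U, φ u u ≠ 0 := by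
  by_contra hcon
  push Not at hcon
  obtain ⟨c, hc⟩ := hσ
  have h1 := hcon (x + y) (U.add_mem hx hy)
  rw [add_l, add_r, add_r, hcon x hx, hcon y hy] at h1
  have h2 := hcon (x + c • y) (U.add_mem hx (U.smul_mem c hy))
  rw [add_l, add_r, add_r, hcon x hx, hcon _ (U.smul_mem c hy), smul_l, smul_r] at h2
  have h3 : (σ c - c) * φ x y = 0 := by
    linear_combination h2 - c * h1
  exact hne ((mul_eq_zero.mp h3).resolve_left (sub_ne_zero.mpr hc))

section Finite

variable [Fintype F] {q : ℕ}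

theorem fm_of_hspace (hF : Fintype.card F = q ^ 2) {h : V → V → F} (S : HSpace q h) :
    Fm (frobHom hF) 1 h where
  add_l := S.add_left
  smul_l := S.smul_left
  herm u v := by
    rw [one_mul, frobHom_apply]
    exact S.conj u v
  nd := S.nd
  σσ := frob_frob hF
  ε0 := one_ne_zero

theorem hspace_of_fm (hF : Fintype.card F = q ^ 2) {B : V → V → F} (hB : Fm (frobHom hF) 1 B) :
    HSpace q B where
  add_left := hB.add_l
  smul_left := hB.smul_l
  conj x y := by
    rw [hB.herm x y, one_mul, frobHom_apply]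
  nd := hB.nd

theorem fm_std (n : ℕ) (hF : Fintype.card F = q ^ 2) :
    Fm (frobHom hF) 1 (Cfsg.hermForm n F q) :=
  fm_of_hspace hF (Cfsg.Agent.Lib.HermCount.Lines.herm_space n hF)

theorem exists_sigma_ne (hF : Fintype.card F = q ^ 2) : ∃ c, frobHom hF c ≠ c :=
  exists_frob_ne hF

variable {B : V → V → F}

/-- Anisotropic vectors in a nonzero nondegenerate subspace. -/
theorem exists_aniso (hF : Fintype.card F = q ^ 2) (hB : Fm (frobHom hF) 1 B) {U : Submodule F V}
    (hU : Nd B U) (hpos : 0 < finrank F U) : ∃ u ∈ U, B u u ≠ 0 := by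
  obtain ⟨⟨v, hvU⟩, hv0⟩ : ∃ v : U, v ≠ 0 := by
    haveI := Module.nontrivial_of_finrank_pos (R := F) hpos
    exact exists_ne 0
  have hv0' : v ≠ 0 := fun h => hv0 (Subtype.ext h)
  obtain ⟨w, hwU, hvw⟩ : ∃ w ∈ U, B v w ≠ 0 := by
    by_contra hcon
    push Not at hcon
    exact hv0' (hU v hvU hcon)
  exact exists_self_ne (exists_sigma_ne hF) B hB.add_l hB.add_r hB.smul_l hB.smul_r hvU hwU hvw


/-- The functional `t ↦ δ t + σ (δ t)` with values in the fixed field. -/
noncomputable def lam (hF : Fintype.card F = q ^ 2) (δ : F) :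
    F →ₗ[(frobHom hF).eqLocusField (RingHom.id F)] ((frobHom hF).eqLocusField (RingHom.id F)) where
  toFun t := ⟨δ * t + frobHom hF (δ * t), by
    change frobHom hF _ = _
    have hσσ : ∀ x, frobHom hF (frobHom hF x) = x := frob_frob hF
    rw [map_add, hσσ, add_comm]
    rfl⟩
  map_add' x y := by
    apply Subtype.ext
    simp only [map_mul, map_add, AddMemClass.coe_add]
    ring
  map_smul' k x := by
    apply Subtype.ext
    have hk : frobHom hF (k : F) = k := k.2
    change δ * ((k : F) * x) + frobHom hF (δ * ((k : F) * x)) =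
      (k : F) * (δ * x + frobHom hF (δ * x))
    simp only [map_mul, hk]
    ring

theorem lam_apply (hF : Fintype.card F = q ^ 2) (δ t : F) :
    (lam hF δ t : F) = δ * t + frobHom hF (δ * t) := rfl

theorem exists_ti_vec [FiniteDimensional F V] (hF : Fintype.card F = q ^ 2) (hB : Fm (frobHom hF) 1 B) (T : End F V)
    {E : Submodule F V} {d : ℕ} (hd : 0 < d) (hE : 2 * d ≤ finrank F E) :
    ∃ u ∈ E, u ≠ 0 ∧ ∀ a, a < d → B u ((T ^ a) u) = 0 := by
  classical
  set K := (frobHom hF).eqLocusField (RingHom.id F) with hK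
  haveI : Fintype K := Fintype.ofFinite K
  haveI : IsScalarTower K F E := ⟨fun k x y => by
    apply Subtype.ext
    change ((k : F) * x) • (y : V) = (k : F) • (x • (y : V))
    rw [mul_smul]⟩
  haveI : FiniteDimensional K F := Module.Finite.of_finite
  haveI : FiniteDimensional K E := Module.Finite.trans F E
  have hσfix : ∀ k : K, frobHom hF (k : F) = k := fun k => k.2
  have hkr : ∀ (k : K) (x y : V), B x (((k : F)) • y) = (k : F) * B x y := by
    intro k x y
    rw [hB.smul_r, hσfix]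
  -- the forms
  let SS : F → ℕ → (E →ₗ[K] E →ₗ[K] K) := fun δ a =>
    LinearMap.mk₂ K (fun x y => lam hF δ (B x ((T ^ a) y)))
      (fun x x' y => by
        simp only [Submodule.coe_add]
        rw [hB.add_l, map_add])
      (fun k x y => by
        change lam hF δ (B ((k : F) • (x : V)) _) = _
        rw [hB.smul_l]
        exact (lam hF δ).map_smul k _)
      (fun x y y' => by
        simp only [Submodule.coe_add, map_add]
        rw [hB.add_r, map_add])
      (fun k x y => by
        change lam hF δ (B x ((T ^ a) ((k : F) • (y : V)))) = _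
        rw [map_smul, hkr]
        exact (lam hF δ).map_smul k _)
  have hSS : ∀ δ a (x y : E), SS δ a x y = lam hF δ (B x ((T ^ a) y)) := fun _ _ _ _ => rfl
  obtain ⟨δ₀, hδ₀⟩ := exists_trace hF 1 (one_pow q)
  obtain ⟨δ, hδ⟩ := exists_frob_ne hF
  let S : Option (Fin (d - 1) × Bool) → (E →ₗ[K] E →ₗ[K] K) := fun o =>
    match o with
    | none => SS δ₀ 0
    | some (j, false) => SS 1 (j + 1)
    | some (j, true) => SS δ (j + 1)
  -- dimension
  have hKF : 2 ≤ finrank K F := by
    by_contra hlt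
    have h1 : 0 < finrank K F := finrank_pos
    have h2 : finrank K F = 1 := by omega
    obtain ⟨k, hk⟩ := (finrank_eq_one_iff_of_nonzero' (1 : F) one_ne_zero).mp h2 δ
    apply hδ
    rw [← hk]
    have : k • (1 : F) = (k : F) := by
      rw [Subfield.smul_def, smul_eq_mul, mul_one]
    rw [this]
    exact k.2
  have hfin : finrank K E = finrank K F * finrank F E := (Module.finrank_mul_finrank K F E).symm
  have hcard : Fintype.card (Option (Fin (d - 1) × Bool)) = (d - 1) * 2 + 1 := by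
    simp
  obtain ⟨⟨u, huE⟩, hu0, hu⟩ := Cfsg.Agent.Lib.ElusF.CW.exists_ne_zero_quad S (by
    rw [hcard, hfin]
    have : 2 * finrank F E ≤ finrank K F * finrank F E := Nat.mul_le_mul_right _ hKF
    omega)
  refine ⟨u, huE, fun h => hu0 (Subtype.ext h), ?_⟩
  intro a ha
  rcases Nat.eq_zero_or_pos a with rfl | ha0
  · have h1 := hu none
    have h2 : lam hF δ₀ (B u ((T ^ 0) u)) = 0 := h1
    have h3 := congrArg (Subtype.val) h2
    rw [lam_apply] at h3
    simp only [pow_zero, Module.End.one_apply] at h3 ⊢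
    have h4 : frobHom hF (B u u) = B u u := by
      have := hB.herm u u
      rw [one_mul] at this
      exact this.symm
    rw [map_mul, h4] at h3
    have h5 : frobHom hF δ₀ = δ₀ ^ q := rfl
    rw [h5] at h3
    have h6 : B u u = (δ₀ + δ₀ ^ q) * B u u := by rw [hδ₀, one_mul]
    rw [h6]
    simp only [ZeroMemClass.coe_zero] at h3
    linear_combination h3
  · obtain ⟨j, rfl⟩ : ∃ j, a = j + 1 := ⟨a - 1, by omega⟩
    have hj : j < d - 1 := by omega
    have h1 := hu (some (⟨j, hj⟩, false))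
    have h2 := hu (some (⟨j, hj⟩, true))
    have h1' : lam hF 1 (B u ((T ^ (j + 1)) u)) = 0 := h1
    have h2' : lam hF δ (B u ((T ^ (j + 1)) u)) = 0 := h2
    have h3 := congrArg Subtype.val h1'
    have h4 := congrArg Subtype.val h2'
    rw [lam_apply] at h3 h4
    set t := B u ((T ^ (j + 1)) u) with ht
    rw [map_mul] at h3 h4
    simp only [map_one, one_mul] at h3
    have h5 : (δ - frobHom hF δ) * t = 0 := by
      simp only [ZeroMemClass.coe_zero] at h3 h4
      linear_combination h4 - frobHom hF δ * h3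
    refine (mul_eq_zero.mp h5).resolve_left ?_
    intro h6
    exact hδ (sub_eq_zero.mp h6).symm


/-- An anisotropic vector spans a nondegenerate line. -/
theorem nd_span (hF : Fintype.card F = q ^ 2) (hB : Fm (frobHom hF) 1 B) {u : V} (hu : B u u ≠ 0) :
    Nd B (Submodule.span F {u}) ∧ finrank F (Submodule.span F {u}) = 1 := by
  have hu0 : u ≠ 0 := by
    rintro rfl
    exact hu (hB.zero_l 0)
  refine ⟨?_, finrank_span_singleton hu0⟩
  intro w hw h
  obtain ⟨c, rfl⟩ := Submodule.mem_span_singleton.mp hw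
  have h1 := h u (Submodule.mem_span_singleton_self u)
  rw [hB.smul_l] at h1
  rw [(mul_eq_zero.mp h1).resolve_right hu, zero_smul]

/-- An isotropic vector spans a totally isotropic line. -/
theorem ti_span (hF : Fintype.card F = q ^ 2) (hB : Fm (frobHom hF) 1 B) {u : V} (hu0 : u ≠ 0)
    (hu : B u u = 0) : TI B (Submodule.span F {u}) ∧ finrank F (Submodule.span F {u}) = 1 := by
  refine ⟨?_, finrank_span_singleton hu0⟩
  intro a ha c hc
  obtain ⟨x, rfl⟩ := Submodule.mem_span_singleton.mp ha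
  obtain ⟨y, rfl⟩ := Submodule.mem_span_singleton.mp hc
  rw [hB.smul_l, hB.smul_r, hu, mul_zero, mul_zero]

/-- Isotropic vectors in a subspace of dimension at least two. -/
theorem exists_iso_vec [FiniteDimensional F V] (hF : Fintype.card F = q ^ 2) (hB : Fm (frobHom hF) 1 B)
    {E : Submodule F V} (hE : 2 ≤ finrank F E) : ∃ u ∈ E, u ≠ 0 ∧ B u u = 0 := by
  obtain ⟨u, h1, h2, h3⟩ := exists_ti_vec hF hB 1 (d := 1) one_pos (by omega : 2 * 1 ≤ finrank F E)
  refine ⟨u, h1, h2, ?_⟩
  simpa using h3 0 one_pos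

theorem inv_of_le_fix {T : End F V} {C : Submodule F V}
    (hC : C ≤ LinearMap.ker (Polynomial.aeval T (X - 1 : F[X]))) : Inv T C := by
  intro v hv
  rw [mem_fix.mp (hC hv)]
  exact hv

/-- Nondegenerate subspaces of all dimensions in a nondegenerate part of the fixed space. -/
theorem nd0_cap [FiniteDimensional F V] (hF : Fintype.card F = q ^ 2) (hB : Fm (frobHom hF) 1 B) {T : End F V}
    (hT : Iso B T) (hinj : Function.Injective T) {K : Submodule F V}
    (hK : K ≤ LinearMap.ker (Polynomial.aeval T (X - 1 : F[X]))) (hnd : Nd B K) {t : ℕ}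
    (ht : t ≤ finrank F K) :
    ∃ W : Submodule F V, W ≤ K ∧ Nd B W ∧ Inv T W ∧ finrank F W = t := by
  obtain ⟨W, h1, h2, h3, h4⟩ := ndcap hB hT hinj (d := 1) one_pos (U₀ := K)
    (fun U hU hUnd _ hpos => by
      obtain ⟨u, huU, hu⟩ := exists_aniso hF hB hUnd hpos
      have hle : Submodule.span F {u} ≤ U := by
        rw [Submodule.span_le, Set.singleton_subset_iff]
        exact huU
      obtain ⟨h1, h2⟩ := nd_span hF hB hu
      exact ⟨_, hle, h1, inv_of_le_fix (hle.trans (hU.trans hK)), h2⟩)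
    t K le_rfl hnd (inv_of_le_fix hK) (by omega)
  exact ⟨W, h1, h2, h3, by simpa using h4⟩

/-- Totally isotropic subspaces in a nondegenerate part of the fixed space. -/
theorem ti0_cap [FiniteDimensional F V] (hF : Fintype.card F = q ^ 2) (hB : Fm (frobHom hF) 1 B) {T : End F V}
    (hT : Iso B T) (hinj : Function.Injective T) (hss : SS T) {K : Submodule F V}
    (hK : K ≤ LinearMap.ker (Polynomial.aeval T (X - 1 : F[X]))) (hnd : Nd B K) {t : ℕ}
    (ht : 2 * t ≤ finrank F K) :
    ∃ W : Submodule F V, W ≤ K ∧ TI B W ∧ Inv T W ∧ finrank F W = t := by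
  obtain ⟨W, h1, h2, h3, h4⟩ := cap hB hT hinj hss (e := 1) (d := 1) (U₀ := K)
    (fun U hU _ _ hpos => by
      obtain ⟨u, huU, hu0, hu⟩ := exists_iso_vec hF hB (E := U) (by omega)
      have hle : Submodule.span F {u} ≤ U := by
        rw [Submodule.span_le, Set.singleton_subset_iff]
        exact huU
      obtain ⟨h1, h2⟩ := ti_span hF hB hu0 hu
      exact ⟨_, hle, h1, inv_of_le_fix (hle.trans (hU.trans hK)), h2⟩)
    t K le_rfl hnd (inv_of_le_fix hK) (by
      rcases Nat.eq_zero_or_pos t with h0 | h0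
      · exact Or.inl h0
      · right
        omega)
  exact ⟨W, h1, h2, h3, by simpa using h4⟩

end Finite

section Generic

variable {σ : F →+* F} {ε : F} {B : V → V → F} [FiniteDimensional F V]

/-- A cyclic subspace for an irreducible factor is nondegenerate unless totally isotropic. -/
theorem cyc_nd' (hB : Fm σ ε B) {T : End F V} (hT : Iso B T)
    (hinj : Function.Injective T) {g : F[X]} (hg : Irreducible g) {u : V} (hu0 : u ≠ 0)
    (hu : Polynomial.aeval T g u = 0) (hne : ¬ TI B (cyc T u)) : Nd B (cyc T u) := by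
  rw [hB.nd_iff_disjoint, disjoint_iff]
  set C := cyc T u with hC
  have hCi : Inv T C := cyc_inv T u
  set R := C ⊓ hB.orth C with hR
  have hRi : Inv T R := hB.inv_inf hCi (hB.inv_orth hT hinj hCi)
  have hCg : C ≤ LinearMap.ker (Polynomial.aeval T g) := by
    rintro _ ⟨P, rfl⟩
    rw [LinearMap.mem_ker, hcomm, mul_comm, ← hcomm, hu, map_zero]
  by_contra hbot
  have hRpos : 0 < finrank F R := by
    rw [Module.finrank_pos_iff_exists_ne_zero]
    obtain ⟨x, hx, hx0⟩ := Submodule.exists_mem_ne_zero_of_ne_bot hbot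
    exact ⟨⟨x, hx⟩, fun h => hx0 (congrArg Subtype.val h)⟩
  have hdvd := Cfsg.Agent.Lib.ElusL.Flag.natDegree_dvd_inf hg hRi
  rw [inf_eq_left.mpr ((inf_le_left : R ≤ C).trans hCg)] at hdvd
  have hle := Nat.le_of_dvd hRpos hdvd
  have hfin := cyc_finrank hg hu0 hu
  have hRC : R = C := Submodule.eq_of_le_of_finrank_le inf_le_left (by
    rw [hfin]
    exact hle)
  apply hne
  rw [hB.ti_iff_le_orth]
  calc C = R := hRC.symm
    _ ≤ hB.orth C := inf_le_right

/-- Preimages in the cyclic subspace. -/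
theorem exists_pre {T : End F V} (hinj : Function.Injective T) {C : Submodule F V} (hC : Inv T C) (a : ℕ) :
    ∀ w ∈ C, ∃ w' ∈ C, (T ^ a) w' = w := by
  have hR : Function.Surjective (T.restrict hC) := by
    apply LinearMap.injective_iff_surjective.mp
    intro x y hxy
    apply Subtype.ext
    apply hinj
    exact congrArg Subtype.val hxy
  induction a with
  | zero =>
    intro w hw
    exact ⟨w, hw, by simp⟩
  | succ a ih =>
    intro w hw
    obtain ⟨w₁, h1, h2⟩ := ih w hw
    obtain ⟨w₂, h3⟩ := hR ⟨w₁, h1⟩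
    refine ⟨w₂, w₂.2, ?_⟩
    have h4 : T w₂ = w₁ := congrArg Subtype.val h3
    rw [pow_succ, Module.End.mul_apply, h4, h2]

/-- A cyclic subspace is totally isotropic if its generator is orthogonal to its first translates. -/
theorem ti_of_vec (hB : Fm σ ε B) {T : End F V} (hT : Iso B T) (hinj : Function.Injective T) {g : F[X]}
    (hg : Irreducible g) {u : V} (hgu : Polynomial.aeval T g u = 0)
    (hS : ∀ a, a < g.natDegree → B u ((T ^ a) u) = 0) : TI B (cyc T u) := by
  have hc1 : ∀ P : F[X], B u (Polynomial.aeval T P u) = 0 := by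
    intro P
    obtain ⟨c, hc⟩ := exists_expand hg.ne_zero hg.natDegree_pos hgu P
    rw [hc, hB.sum_r]
    apply Finset.sum_eq_zero
    intro j hj
    rw [hB.smul_r, hS j (Finset.mem_range.mp hj), mul_zero]
  have hc2 : ∀ P : F[X], ∀ w ∈ cyc T u, B (Polynomial.aeval T P u) w = 0 := by
    intro P
    induction P using Polynomial.induction_on' with
    | add p₁ p₂ h₁ h₂ =>
      intro w hw
      rw [map_add, LinearMap.add_apply, hB.add_l, h₁ w hw, h₂ w hw, add_zero]
    | monomial a c =>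
      intro w hw
      rw [aeval_monomial, Module.End.mul_apply, Module.algebraMap_end_apply, hB.smul_l]
      obtain ⟨w', ⟨Q, rfl⟩, h2⟩ := exists_pre hinj (cyc_inv T u) a w hw
      rw [← h2, iso_pow hT a, hc1, mul_zero]
  rintro _ ⟨P, rfl⟩ w hw
  exact hc2 P w hw

end Generic

section Pieces

variable [Fintype F] {q : ℕ} {B : V → V → F} [FiniteDimensional F V]

/-- Invariant totally isotropic pieces in a large homogeneous part. -/
theorem exists_ti_cyc (hF : Fintype.card F = q ^ 2) (hB : Fm (frobHom hF) 1 B) {T : End F V} (hT : Iso B T)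
    (hinj : Function.Injective T) {g : F[X]} (hg : Irreducible g) {E : Submodule F V}
    (hEg : E ≤ LinearMap.ker (Polynomial.aeval T g)) (hEi : Inv T E)
    (hE : 2 * g.natDegree ≤ finrank F E) :
    ∃ W : Submodule F V, W ≤ E ∧ TI B W ∧ Inv T W ∧ finrank F W = g.natDegree := by
  obtain ⟨u, huE, hu0, hu⟩ := exists_ti_vec hF hB T hg.natDegree_pos hE
  have hgu : Polynomial.aeval T g u = 0 := LinearMap.mem_ker.mp (hEg huE)
  exact ⟨cyc T u, cyc_le hEi huE, ti_of_vec hB hT hinj hg hgu hu, cyc_inv T u, cyc_finrank hg hu0 hgu⟩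

/-- Invariant nondegenerate pieces in a homogeneous part. -/
theorem exists_nd_cyc (hF : Fintype.card F = q ^ 2) (hB : Fm (frobHom hF) 1 B) {T : End F V} (hT : Iso B T)
    (hinj : Function.Injective T) {g : F[X]} (hg : Irreducible g) {E : Submodule F V}
    (hEg : E ≤ LinearMap.ker (Polynomial.aeval T g)) (hEi : Inv T E) (hE : Nd B E)
    (hpos : 0 < finrank F E) :
    ∃ W : Submodule F V, W ≤ E ∧ Nd B W ∧ Inv T W ∧ finrank F W = g.natDegree := by
  obtain ⟨u, huE, hu⟩ := exists_aniso hF hB hE hpos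
  have hu0 : u ≠ 0 := by
    rintro rfl
    exact hu (hB.zero_l 0)
  have hgu : Polynomial.aeval T g u = 0 := LinearMap.mem_ker.mp (hEg huE)
  refine ⟨cyc T u, cyc_le hEi huE, cyc_nd' hB hT hinj hg hu0 hgu ?_, cyc_inv T u, cyc_finrank hg hu0 hgu⟩
  intro hTI
  exact hu (hTI u (self_mem_cyc T u) u (self_mem_cyc T u))

end Pieces

section Combine

variable {σ : F →+* F} {ε : F} {B : V → V → F} [FiniteDimensional F V] [Fintype F] {r : ℕ}

open Cfsg.Agent.Lib.ElusL.Cyc Cfsg.Agent.Lib.ElusL.Pos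

/-- Combining isotropic subspaces of the fixed and fixed-point-free parts. -/
theorem combine_ti (hB : Fm σ ε B) {T : End F V} (hT : Iso B T) (hrF : (r : F) ≠ 0)
    {W₀ W₁ : Submodule F V} (h0 : W₀ ≤ LinearMap.ker (Polynomial.aeval T (X - 1 : F[X])))
    (h1 : W₁ ≤ LinearMap.ker (Polynomial.aeval T (Phi F r))) (ht0 : TI B W₀) (ht1 : TI B W₁)
    (hi0 : Inv T W₀) (hi1 : Inv T W₁) :
    TI B (W₀ ⊔ W₁) ∧ Inv T (W₀ ⊔ W₁) ∧ finrank F (W₀ ⊔ W₁ : Submodule F V) = finrank F W₀ + finrank F W₁ := by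
  refine ⟨ti_sup hB ht0 ht1 ?_, inv_sup hi0 hi1, finrank_sup_of_disjoint ?_⟩
  · intro v hv w hw
    exact orth01 hB hT hrF (mem_fix.mp (h0 hw)) (h1 hv)
  · rw [Submodule.disjoint_def]
    intro v hv hv'
    have h2 := ker_disjoint (T := T) (isCoprime_Phi hrF)
    have h3 : v ∈ (LinearMap.ker (Polynomial.aeval T (X - 1 : F[X])) ⊓
      LinearMap.ker (Polynomial.aeval T (Phi F r)) : Submodule F V) := ⟨h0 hv, h1 hv'⟩
    rw [h2] at h3
    exact (Submodule.mem_bot F).mp h3

/-- Combining nondegenerate subspaces of the fixed and fixed-point-free parts. -/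
theorem combine_nd' (hB : Fm σ ε B) {T : End F V} (hT : Iso B T) (hrF : (r : F) ≠ 0)
    {W₀ W₁ : Submodule F V} (h0 : W₀ ≤ LinearMap.ker (Polynomial.aeval T (X - 1 : F[X])))
    (h1 : W₁ ≤ LinearMap.ker (Polynomial.aeval T (Phi F r))) (hn0 : Nd B W₀) (hn1 : Nd B W₁)
    (hi0 : Inv T W₀) (hi1 : Inv T W₁) :
    Nd B (W₀ ⊔ W₁) ∧ Inv T (W₀ ⊔ W₁) ∧
      finrank F (W₀ ⊔ W₁ : Submodule F V) = finrank F W₀ + finrank F W₁ := by
  have hle : W₁ ≤ hB.orth W₀ := by
    intro v hv w hw
    exact orth01 hB hT hrF (mem_fix.mp (h0 hw)) (h1 hv)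
  exact ⟨nd_sup hB hn0 hn1 hle, inv_sup hi0 hi1,
    finrank_sup_of_disjoint (disjoint_of_orth hB hn0 hle)⟩

end Combine

section Prod

variable {V₁ V₂ : Type*} [AddCommGroup V₁] [Module F V₁] [AddCommGroup V₂] [Module F V₂]
  {σ : F →+* F} {ε : F}

/-- The orthogonal sum. -/
theorem Fm_prod {B₁ : V₁ → V₁ → F} {B₂ : V₂ → V₂ → F} (h₁ : Fm σ ε B₁) (h₂ : Fm σ ε B₂) :
    Fm σ ε (fun u v : V₁ × V₂ => B₁ u.1 v.1 + B₂ u.2 v.2) where
  add_l u v w := by
    simp only [Prod.fst_add, Prod.snd_add, h₁.add_l, h₂.add_l]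
    ring
  smul_l c u v := by
    simp only [Prod.smul_fst, Prod.smul_snd, h₁.smul_l, h₂.smul_l]
    ring
  herm u v := by
    simp only [map_add, mul_add]
    rw [← h₁.herm, ← h₂.herm]
  nd u hu := by
    apply Prod.ext
    · apply h₁.nd
      intro v
      have := hu (v, 0)
      simpa [h₂.zero_r] using this
    · apply h₂.nd
      intro v
      have := hu (0, v)
      simpa [h₁.zero_r] using this
  σσ := h₁.σσ
  ε0 := h₁.ε0

theorem Iso_prod {B₁ : V₁ → V₁ → F} {B₂ : V₂ → V₂ → F} {T₁ : End F V₁} {T₂ : End F V₂}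
    (h₁ : Iso B₁ T₁) (h₂ : Iso B₂ T₂) :
    Iso (fun u v : V₁ × V₂ => B₁ u.1 v.1 + B₂ u.2 v.2) (LinearMap.prodMap T₁ T₂ : End F (V₁ × V₂)) := by
  intro u v
  simp only [LinearMap.prodMap_apply]
  rw [h₁, h₂]

theorem prodMap_pow (T₁ : End F V₁) (T₂ : End F V₂) (r : ℕ) :
    (LinearMap.prodMap T₁ T₂ : End F (V₁ × V₂)) ^ r = LinearMap.prodMap (T₁ ^ r) (T₂ ^ r) := by
  induction r with
  | zero =>
    apply LinearMap.ext
    intro v
    simp
  | succ r ih =>
    rw [pow_succ, ih]
    apply LinearMap.ext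
    intro v
    simp [pow_succ]

end Prod

end Cfsg.Agent.Lib.ElusF.HzBase
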