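import Cfsg.Agent.Lib.ElusF.HzMat
import Cfsg.Agent.Lib.Classical.HermOrders

/-!
# Counting totally isotropic and nondegenerate subspaces of a Hermitian space
-/

set_option autoImplicit false
set_option linter.unusedSectionVars false
set_option linter.style.haveILetI false
set_option linter.unusedVariables false

open Module

universe u v

namespace Cfsg.Agent.Lib.ElusF.HzCount

open Cfsg.Agent.Lib.HermCount.Field Cfsg.Agent.Lib.HermCount.Space
  Cfsg.Agent.Lib.Witt.HermFrames Cfsg.Agent.Lib.Witt.HermParabolic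

variable {F : Type u} [Field F] [Fintype F] {q n : ℕ}

/-! ### Totally isotropic subspaces -/

theorem Nrec_eq (q : ℕ) : ∀ (k n : ℕ), 2 * k ≤ n →
    Nrec q k n = q ^ (k * (k - 1)) * ∏ j ∈ Finset.range (2 * k), ee q (n - 1 - j) := by
  intro k
  induction k with
  | zero => intro n _; simp [Nrec]
  | succ k ih =>
    intro n hn
    obtain ⟨m, rfl⟩ : ∃ m, n = m + 2 := ⟨n - 2, by omega⟩
    simp only [Nrec, Nat.add_sub_cancel]
    rw [ih m (by omega)]
    have h1 : 2 * (k + 1) = 2 * k + 1 + 1 := by ring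
    rw [h1, Finset.prod_range_succ', Finset.prod_range_succ']
    have h2 : ∀ j, m + 2 - 1 - (j + 1 + 1) = m - 1 - j := by
      intro j
      omega
    simp only [h2]
    have h3 : m + 2 - 1 - (0 + 1) = m := by omega
    have h4 : m + 2 - 1 - 0 = m + 1 := by omega
    have h5 : m + 2 - 1 = m + 1 := by omega
    rw [h3, h4, h5]
    have h6 : (k + 1) * k = 2 * k + k * (k - 1) := by
      cases k with
      | zero => rfl
      | succ t =>
        simp only [Nat.add_sub_cancel]
        ring
    rw [h6, pow_add]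
    ring

theorem prod_flag (q k : ℕ) (hq : 1 ≤ q) :
    ∏ i : Fin k, ((q ^ 2) ^ k - (q ^ 2) ^ (i : ℕ)) =
      q ^ (k * (k - 1)) * ∏ i ∈ Finset.range k, ((q ^ 2) ^ (k - i) - 1) := by
  rw [Fin.prod_univ_eq_prod_range (fun i => (q ^ 2) ^ k - (q ^ 2) ^ i) k]
  have h1 : ∀ i ∈ Finset.range k, (q ^ 2) ^ k - (q ^ 2) ^ i = (q ^ 2) ^ i * ((q ^ 2) ^ (k - i) - 1) := by
    intro i hi
    have hi' := Finset.mem_range.mp hi
    rw [Nat.mul_sub, mul_one, ← pow_add, Nat.add_sub_cancel' hi'.le]
  rw [Finset.prod_congr rfl h1, Finset.prod_mul_distrib, Finset.prod_pow_eq_pow_sum, ← pow_mul]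
  congr 2
  have := Finset.sum_range_id_mul_two k
  linarith

/-- The number of totally isotropic subspaces. -/
theorem ti_count (hF : Fintype.card F = q ^ 2) {m : ℕ} (hm : 2 * m ≤ n) :
    Nat.card (TI n m F q) * ∏ i ∈ Finset.range m, ((q ^ 2) ^ (m - i) - 1) =
      ∏ j ∈ Finset.range (2 * m), ee q (n - 1 - j) := by
  have hq := two_le hF
  have h1 := card_frames_eq (n := n) hF m
  rw [card_frames hF m n (Fin n → F) _ (Cfsg.Agent.Lib.HermCount.Lines.herm_space n hF) (by simp) hm,
    Nrec_eq q m n hm, prod_flag q m (by omega), mul_left_comm] at h1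
  exact (Nat.eq_of_mul_eq_mul_left (pow_pos (by omega) _) h1).symm

theorem ee_cases (q i : ℕ) : (Even (i + 1) ∧ ee q i = q ^ (i + 1) - 1) ∨ (Odd (i + 1) ∧ ee q i = q ^ (i + 1) + 1) := by
  unfold ee
  split_ifs with h
  · exact Or.inr ⟨h.add_one, rfl⟩
  · refine Or.inl ⟨?_, rfl⟩
    rw [Nat.even_add_one]
    exact h

variable {p r : ℕ} [Fact p.Prime] [CharP F p]

theorem char_dvd (hF : Fintype.card F = q ^ 2) : p ∣ q := by
  obtain ⟨f, hp', hqf⟩ := FiniteField.card F p
  have h1 : p ∣ q ^ 2 := by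
    rw [← hF, hqf]
    exact dvd_pow_self _ f.ne_zero
  exact (Fact.out : p.Prime).dvd_of_dvd_pow h1

theorem char_not_dvd_ee (hF : Fintype.card F = q ^ 2) (i : ℕ) : ¬ p ∣ ee q i := by
  intro h
  have hp : p.Prime := Fact.out
  have hq := two_le hF
  have h1 : p ∣ q ^ (i + 1) := (char_dvd (p := p) hF).trans (dvd_pow_self _ (by omega))
  have h2 : 1 ≤ q ^ (i + 1) := Nat.one_le_pow _ _ (by omega)
  rcases ee_cases q i with ⟨-, h3⟩ | ⟨-, h3⟩
  · rw [h3] at h
    have h4 : p ∣ q ^ (i + 1) - (q ^ (i + 1) - 1) := Nat.dvd_sub h1 h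
    have h5 : q ^ (i + 1) - (q ^ (i + 1) - 1) = 1 := by omega
    rw [h5] at h4
    exact hp.one_lt.ne' (Nat.dvd_one.mp h4)
  · rw [h3] at h
    have h4 : p ∣ 1 := (Nat.dvd_add_right h1).mp h
    exact hp.one_lt.ne' (Nat.dvd_one.mp h4)

/-- Primes dividing the number of totally isotropic subspaces. -/
theorem ti_dvd (hF : Fintype.card F = q ^ 2) {m : ℕ} (hm : 2 * m ≤ n) (hr : r.Prime)
    (h : r ∣ Nat.card {W : Submodule F (Fin n → F) // Module.finrank F ↥W = m ∧
      (∀ u ∈ W, ∀ v ∈ W, Cfsg.hermForm n F q u v = 0)}) :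
    r ≠ p ∧ ∃ l, n - 2 * m < l ∧ l ≤ n ∧ ((Even l ∧ r ∣ q ^ l - 1) ∨ (Odd l ∧ r ∣ q ^ l + 1)) := by
  have h1 : r ∣ ∏ j ∈ Finset.range (2 * m), ee q (n - 1 - j) := by
    rw [← ti_count hF hm]
    exact h.mul_right _
  obtain ⟨j, hj, hjd⟩ := (hr.prime.dvd_finsetProd_iff _).mp h1
  have hj' := Finset.mem_range.mp hj
  constructor
  · rintro rfl
    exact char_not_dvd_ee hF _ hjd
  · refine ⟨n - 1 - j + 1, by omega, by omega, ?_⟩
    rcases ee_cases q (n - 1 - j) with ⟨h2, h3⟩ | ⟨h2, h3⟩
    · left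
      exact ⟨h2, h3 ▸ hjd⟩
    · right
      exact ⟨h2, h3 ▸ hjd⟩

/-! ### Orthonormal frames -/

section frames

variable {V : Type v} [AddCommGroup V] [Module F V]

/-- Orthonormal frames. -/
def ONF (h : V → V → F) (k : ℕ) : Type v :=
  {b : Fin k → V // ∀ i j, h (b i) (b j) = if i = j then 1 else 0}

instance {h : V → V → F} [Finite V] (k : ℕ) : Finite (ONF h k) := by
  unfold ONF
  infer_instance

/-- The number of vectors of norm one. -/
theorem card_one [Finite V] {h : V → V → F} (S : HSpace q h) (hF : Fintype.card F = q ^ 2) (k : ℕ)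
    (hk : finrank F V = k) :
    Nat.card {x : V // h x x = 1} = Nat.card {v : Fin k → F // Cfsg.hermForm k F q v v = 1} := by
  obtain ⟨ψ, hψ⟩ := Cfsg.Agent.Lib.Witt.HermModel.exists_model S hF k hk
  symm
  apply Nat.card_congr
  refine Equiv.subtypeEquiv ψ.toEquiv ?_
  intro a
  change _ ↔ h (ψ a) (ψ a) = 1
  rw [hψ]

theorem perp_nd {h : V → V → F} (S : HSpace q h) (hF : Fintype.card F = q ^ 2) {e : V} (he : h e e ≠ 0) :
    ∀ u ∈ perp S hF e, (∀ v ∈ perp S hF e, h u v = 0) → u = 0 := by
  intro u hu huv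
  apply S.nd
  intro y
  have h1 : y - (h y e / h e e) • e ∈ perp S hF e := by
    rw [mem_perp, S.sub_left, S.smul_left]
    field_simp
    ring
  have h2 := huv _ h1
  have hue : h u e = 0 := hu
  rw [S.sub_right hF, S.smul_right hF, hue] at h2
  simpa using h2

theorem perp_finrank [FiniteDimensional F V] {h : V → V → F} (S : HSpace q h) (hF : Fintype.card F = q ^ 2)
    {e : V} (he : h e e ≠ 0) {k : ℕ} (hk : finrank F V = k + 1) : finrank F (perp S hF e) = k := by
  let φ : V →ₗ[F] F :=
    { toFun := fun y => h y e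
      map_add' := fun x y => S.add_left _ _ _
      map_smul' := fun a x => by simpa using S.smul_left a x e }
  have hker : LinearMap.ker φ = perp S hF e := rfl
  have hsurj : Function.Surjective φ := by
    intro t
    refine ⟨(t / h e e) • e, ?_⟩
    change h ((t / h e e) • e) e = t
    rw [S.smul_left]
    field_simp
  have h1 := LinearMap.finrank_range_add_finrank_ker φ
  rw [LinearMap.range_eq_top.mpr hsurj, finrank_top, finrank_self, hker, hk] at h1
  omega

/-- The fibre over the first vector of a frame. -/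
noncomputable def fiberONF {h : V → V → F} (S : HSpace q h) (hF : Fintype.card F = q ^ 2) {k : ℕ} {e : V}
    (he : h e e = 1) :
    {b : ONF h (k + 1) // b.1 0 = e} ≃ ONF (fun a c : perp S hF e => h a c) k where
  toFun b := ⟨fun i => ⟨b.1.1 i.succ, by
      have h1 := b.1.2 i.succ 0
      rw [if_neg (Fin.succ_ne_zero i), b.2] at h1
      exact h1⟩, fun i j => by
      change h (b.1.1 i.succ) (b.1.1 j.succ) = _
      rw [b.1.2 i.succ j.succ]
      simp only [Fin.succ_inj]⟩
  invFun b' := ⟨⟨Fin.cons e (fun i => (b'.1 i : V)), by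
      intro i j
      refine Fin.cases ?_ (fun i' => ?_) i <;> refine Fin.cases ?_ (fun j' => ?_) j
      · simpa using he
      · have h1 : h (b'.1 j' : V) e = 0 := (b'.1 j').2
        have h2 := S.zero_of_zero hF h1
        simpa [(Fin.succ_ne_zero j').symm] using h2
      · have h1 : h (b'.1 i' : V) e = 0 := (b'.1 i').2
        simpa [Fin.succ_ne_zero i'] using h1
      · have := b'.2 i' j'
        simpa using this⟩, rfl⟩
  left_inv b := by
    apply Subtype.ext
    apply Subtype.ext
    funext i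
    refine Fin.cases ?_ (fun i' => ?_) i
    · exact b.2.symm
    · rfl
  right_inv b' := by
    apply Subtype.ext
    funext i
    rfl

/-- The number of orthonormal frames. -/
theorem card_ONF (hF : Fintype.card F = q ^ 2) : ∀ (k n : ℕ) (V : Type v) [AddCommGroup V]
    [Module F V] [Finite V] (h : V → V → F), HSpace q h → finrank F V = n → k ≤ n →
    Nat.card (ONF h k) = ∏ j ∈ Finset.range k,
      Nat.card {v : Fin (n - j) → F // Cfsg.hermForm (n - j) F q v v = 1} := by
  classical
  intro k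
  induction k with
  | zero =>
    intro n V _ _ _ h S hn hk
    have : Unique (ONF h 0) :=
      { default := ⟨fun i => i.elim0, fun i => i.elim0⟩
        uniq := fun f => by
          apply Subtype.ext
          funext i
          exact i.elim0 }
    simp
  | succ k ih =>
    intro n V _ _ _ h S hn hk
    obtain ⟨m, rfl⟩ : ∃ m, n = m + 1 := ⟨n - 1, by omega⟩
    haveI : FiniteDimensional F V := Module.Finite.of_finite
    let π : ONF h (k + 1) → {x : V // h x x = 1} := fun b => ⟨b.1 0, by
      have := b.2 0 0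
      simpa using this⟩
    haveI : Fintype {x : V // h x x = 1} := Fintype.ofFinite _
    have hfib : ∀ y : {x : V // h x x = 1}, Nat.card {b // π b = y} =
        ∏ j ∈ Finset.range k, Nat.card {v : Fin (m - j) → F // Cfsg.hermForm (m - j) F q v v = 1} := by
      intro y
      have hy : h y.1 y.1 ≠ 0 := by
        rw [y.2]
        exact one_ne_zero
      have e1 : {b // π b = y} ≃ {b : ONF h (k + 1) // b.1 0 = y.1} :=
        Equiv.subtypeEquivRight (fun b => Subtype.ext_iff)
      rw [Nat.card_congr e1, Nat.card_congr (fiberONF S hF y.2)]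
      exact ih m (perp S hF y.1) _ (S.restrict _ (perp_nd S hF hy)) (perp_finrank S hF hy hn) (by omega)
    rw [← Nat.card_congr (Equiv.sigmaFiberEquiv π), Nat.card_sigma]
    simp only [hfib]
    rw [Finset.sum_const, Finset.card_univ, ← Nat.card_eq_fintype_card, card_one S hF (m + 1) hn,
      smul_eq_mul, Finset.prod_range_succ', Nat.sub_zero, mul_comm]
    congr 1
    apply Finset.prod_congr rfl
    intro i hi
    have h1 : m + 1 - (i + 1) = m - i := by omega
    rw [h1]

theorem onf_li {h : V → V → F} (S : HSpace q h) {k : ℕ} (b : ONF h k) : LinearIndependent F b.1 := by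
  classical
  rw [Fintype.linearIndependent_iff]
  intro c hc i
  have h1 := congrArg (fun x => h x (b.1 i)) hc
  rw [Cfsg.Agent.Lib.Witt.HermModel.sum_smul_left S, S.zero_left, Finset.sum_eq_single i] at h1
  · rw [b.2 i i, if_pos rfl, mul_one] at h1
    exact h1
  · intro j _ hj
    rw [b.2 j i, if_neg hj, mul_zero]
  · simp

/-- The number of nondegenerate subspaces. -/
theorem nd_count [Finite V] (hF : Fintype.card F = q ^ 2) {h : V → V → F} (S : HSpace q h) {n k : ℕ}
    (hn : finrank F V = n) (hk : k ≤ n) :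
    Nat.card {W : Submodule F V // finrank F W = k ∧ ∀ u ∈ W, (∀ v ∈ W, h u v = 0) → u = 0} *
      ∏ j ∈ Finset.range k, Nat.card {v : Fin (k - j) → F // Cfsg.hermForm (k - j) F q v v = 1} =
      ∏ j ∈ Finset.range k, Nat.card {v : Fin (n - j) → F // Cfsg.hermForm (n - j) F q v v = 1} := by
  classical
  rw [← card_ONF hF k n V h S hn hk]
  set NW := {W : Submodule F V // finrank F W = k ∧ ∀ u ∈ W, (∀ v ∈ W, h u v = 0) → u = 0}
  haveI : Fintype NW := Fintype.ofFinite _
  have hspan : ∀ (b : ONF h k), Submodule.span F (Set.range b.1) ∈ {W : Submodule F V | finrank F W = k ∧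
      ∀ u ∈ W, (∀ v ∈ W, h u v = 0) → u = 0} := by
    intro b
    refine ⟨?_, ?_⟩
    · have := finrank_span_eq_card (onf_li S b)
      simpa using this
    · intro u hu huv
      obtain ⟨c, rfl⟩ := (Submodule.mem_span_range_iff_exists_fun F).mp hu
      have hc : c = 0 := by
        funext i
        have h1 := huv (b.1 i) (Submodule.subset_span ⟨i, rfl⟩)
        rw [Cfsg.Agent.Lib.Witt.HermModel.sum_smul_left S, Finset.sum_eq_single i] at h1
        · rw [b.2 i i, if_pos rfl, mul_one] at h1
          exact h1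
        · intro j _ hj
          rw [b.2 j i, if_neg hj, mul_zero]
        · simp
      simp [hc]
  let π : ONF h k → NW := fun b => ⟨Submodule.span F (Set.range b.1), hspan b⟩
  have hmem : ∀ (W : NW) (b : ONF h k), π b = W → ∀ i, b.1 i ∈ W.1 := by
    intro W b hb i
    rw [← hb]
    exact Submodule.subset_span ⟨i, rfl⟩
  have hfib : ∀ W : NW, Nat.card {b // π b = W} =
      ∏ j ∈ Finset.range k, Nat.card {v : Fin (k - j) → F // Cfsg.hermForm (k - j) F q v v = 1} := by
    intro W
    have e : {b // π b = W} ≃ ONF (fun a c : W.1 => h a c) k :=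
      { toFun := fun b => ⟨fun i => ⟨b.1.1 i, hmem W b.1 b.2 i⟩, fun i j => b.1.2 i j⟩
        invFun := fun b' => ⟨⟨fun i => ((b'.1 i : W.1) : V), fun i j => b'.2 i j⟩, by
          apply Subtype.ext
          change Submodule.span F (Set.range fun i => ((b'.1 i : W.1) : V)) = W.1
          apply Submodule.eq_of_le_of_finrank_eq
          · rw [Submodule.span_le]
            rintro _ ⟨i, rfl⟩
            exact (b'.1 i).2
          · have := finrank_span_eq_card (onf_li S ⟨fun i => ((b'.1 i : W.1) : V), fun i j => b'.2 i j⟩)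
            rw [W.2.1]
            simpa using this⟩
        left_inv := fun b => rfl
        right_inv := fun b => rfl }
    rw [Nat.card_congr e]
    exact card_ONF hF k k W.1 _ (S.restrict W.1 W.2.2) W.2.1 le_rfl
  rw [Nat.card_congr (Equiv.sigmaFiberEquiv π).symm, Nat.card_sigma]
  simp only [hfib, Finset.sum_const, smul_eq_mul, Finset.card_univ, Nat.card_eq_fintype_card]

end frames

/-- Primes dividing the number of nondegenerate subspaces. -/
theorem nd_dvd (hF : Fintype.card F = q ^ 2) {m : ℕ} (hm : m ≤ n) (hr : r.Prime) (hrq : ¬ r ∣ q)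
    (h : r ∣ Nat.card {W : Submodule F (Fin n → F) // Module.finrank F ↥W = m ∧
      (∀ u ∈ W, u ≠ 0 → ∃ v ∈ W, Cfsg.hermForm n F q u v ≠ 0)}) :
    ∃ l, n - m < l ∧ l ≤ n ∧ ((Even l ∧ r ∣ q ^ l - 1) ∨ (Odd l ∧ r ∣ q ^ l + 1)) := by
  have hq := two_le hF
  have hc := nd_count hF (Cfsg.Agent.Lib.HermCount.Lines.herm_space (F := F) n hF) (n := n) (k := m)
    (by simp) hm
  have hcong : Nat.card {W : Submodule F (Fin n → F) // Module.finrank F ↥W = m ∧
      (∀ u ∈ W, u ≠ 0 → ∃ v ∈ W, Cfsg.hermForm n F q u v ≠ 0)} =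
      Nat.card {W : Submodule F (Fin n → F) // finrank F W = m ∧
        ∀ u ∈ W, (∀ v ∈ W, Cfsg.hermForm n F q u v = 0) → u = 0} := by
    apply Nat.card_congr
    apply Equiv.subtypeEquivRight
    intro W
    rw [Cfsg.Agent.Lib.ElusF.HzMat.nd_std_iff W]
    rfl
  rw [hcong] at h
  have h1 : r ∣ ∏ j ∈ Finset.range m,
      Nat.card {v : Fin (n - j) → F // Cfsg.hermForm (n - j) F q v v = 1} := by
    rw [← hc]
    exact h.mul_right _
  obtain ⟨j, hj, hjd⟩ := (hr.prime.dvd_finsetProd_iff _).mp h1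
  have hj' := Finset.mem_range.mp hj
  rw [Cfsg.Agent.Lib.Classical.HermOrders.card_norm_one' hF] at hjd
  refine ⟨n - j, by omega, by omega, ?_⟩
  split_ifs at hjd with hev
  · left
    refine ⟨hev, ?_⟩
    rcases (hr.prime.dvd_mul).mp hjd with h2 | h2
    · exact absurd (hr.dvd_of_dvd_pow h2) hrq
    · exact h2
  · right
    refine ⟨Nat.not_even_iff_odd.mp hev, ?_⟩
    rcases (hr.prime.dvd_mul).mp hjd with h2 | h2
    · exact absurd (hr.dvd_of_dvd_pow h2) hrq
    · exact h2

end Cfsg.Agent.Lib.ElusF.HzCount
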