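import Cfsg.Agent.Lib.ElusF.HzList

/-!
# The case where `r` divides `q + 1`: the negative models
-/

set_option autoImplicit false
set_option linter.unusedSectionVars false
set_option linter.style.haveILetI false
set_option linter.unusedVariables false

open Polynomial Module

universe u

namespace Cfsg.Agent.Lib.ElusF.HzI2

open Cfsg.Agent.Lib.ElusL.Basic Cfsg.Agent.Lib.ElusL.Flag Cfsg.Agent.Lib.ElusL.Cyc
  Cfsg.Agent.Lib.ElusL.Pos Cfsg.Agent.Lib.ElusF.Form Cfsg.Agent.Lib.ElusF.Step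
  Cfsg.Agent.Lib.ElusF.Split Cfsg.Agent.Lib.ElusF.SpModel Cfsg.Agent.Lib.ElusF.SpNeg
  Cfsg.Agent.Lib.HermCount.Field Cfsg.Agent.Lib.ElusF.HzBase Cfsg.Agent.Lib.ElusF.HzAdj
  Cfsg.Agent.Lib.ElusF.HzArith Cfsg.Agent.Lib.ElusF.HzModel Cfsg.Agent.Lib.ElusF.HzMat
  Cfsg.Agent.Lib.ElusL.Arith Cfsg.Agent.Lib.ElusF.HzList

variable {F : Type u} [Field F] [Fintype F] {q r : ℕ}

/-- Powers of a field piece. -/
theorem model_copies (hF : Fintype.card F = q ^ 2) {g : F[X]} (hg : Irreducible g) {e : ℕ} (he : Odd e)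
    (hdeg : g.natDegree = e) (hrq : (AdjoinRoot.root g) ^ (q ^ e + 1) = 1) {c : F}
    (hgc : g ∣ X ^ r - C c) (s : ℕ) :
    ∃ (V : Type u) (_ : AddCommGroup V) (_ : Module F V) (_ : FiniteDimensional F V)
      (B : V → V → F) (T : End F V), Fm (frobHom hF) 1 B ∧ Iso B T ∧ finrank F V = e * (s + 1) ∧
      T ^ r = c • 1 := by
  obtain ⟨V', _, _, _, B', T', h1', h2', hf', hp', -⟩ := exists_line hF hg he hdeg hrq
  induction s with
  | zero =>
    exact ⟨V', inferInstance, inferInstance, inferInstance, B', T', h1', h2', by rw [hf']; ring, hp' r c hgc⟩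
  | succ s ih =>
    obtain ⟨V, _, _, _, B, T, h1, h2, hf, hp⟩ := ih
    refine ⟨V × V', inferInstance, inferInstance, inferInstance, _, LinearMap.prodMap T T',
      Fm_prod h1 h1', Iso_prod h2 h2', ?_, ?_⟩
    · rw [Module.finrank_prod, hf, hf']
      ring
    · rw [prodMap_pow, hp, hp' r c hgc]
      apply LinearMap.ext
      intro v
      rfl

/-- The model with irreducible `X ^ r - c`. -/
theorem exists_gamma (hF : Fintype.card F = q ^ 2) (hr : r.Prime) (hr2 : r ≠ 2) (hdvd : r ∣ q + 1)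
    (hrq : ¬ r ∣ q) {n : ℕ} (hn : n ≠ 0) (hv : padicValNat r (q + 1) < padicValNat r n) :
    ∃ (V : Type u) (_ : AddCommGroup V) (_ : Module F V) (_ : FiniteDimensional F V)
      (B : V → V → F) (T : End F V) (c : F), Fm (frobHom hF) 1 B ∧ Iso B T ∧ T ^ r = c • 1 ∧
      finrank F V = n ∧ LinearMap.det T = 1 ∧ (∀ z : F, T ≠ z • 1) ∧
      ∀ W : Submodule F V, Inv T W → r ∣ finrank F W := by
  classical
  haveI : Fact r.Prime := ⟨hr⟩
  have hodd : Odd r := hr.odd_of_ne_two hr2
  set f := padicValNat r (q + 1) with hf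
  have hrn : r ∣ n := dvd_of_one_le_padicValNat (by omega)
  obtain ⟨t', ht'⟩ := hrn
  have ht0 : t' ≠ 0 := by
    rintro rfl
    exact hn (by rw [ht', mul_zero])
  obtain ⟨s, rfl⟩ : ∃ s, t' = s + 1 := ⟨t' - 1, by omega⟩
  have hval : padicValNat r n = 1 + padicValNat r (s + 1) := by
    rw [ht', padicValNat.mul hr.ne_zero ht0, padicValNat_self]
  have hfdvd : r ^ f ∣ s + 1 := (padicValNat_dvd_iff_le ht0).mpr (by omega)
  obtain ⟨c, hc0, hcf, hcb⟩ := exists_nonpower (F := F) rfl hr (dvd_sq hF hdvd) (t := r ^ f)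
    (pow_ne_zero _ hr.ne_zero) (by
      rw [hF, val_sq hF hr hr2 hdvd, padicValNat.prime_pow])
  have hirr : Irreducible (X ^ r - C c : F[X]) := X_pow_sub_C_irreducible_of_prime hr hcb
  have hd : (X ^ r - C c : F[X]).natDegree = r := natDegree_X_pow_sub_C
  haveI : Fact (Irreducible (X ^ r - C c : F[X])) := ⟨hirr⟩
  have hroot : (AdjoinRoot.root (X ^ r - C c : F[X])) ^ (q ^ r + 1) = 1 := by
    have h1 : AdjoinRoot.mk (X ^ r - C c : F[X]) (X ^ r - C c) = 0 := AdjoinRoot.mk_self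
    rw [map_sub, map_pow, AdjoinRoot.mk_X, AdjoinRoot.mk_C, sub_eq_zero] at h1
    have h2 := padicValNat.pow_add_pow (p := r) (x := q) (y := 1) hodd (by simpa using hdvd) hrq hodd
    rw [one_pow, padicValNat_self, ← hf] at h2
    have h3 : r ^ (f + 1) ∣ q ^ r + 1 := by
      rw [← h2]
      exact pow_padicValNat_dvd
    obtain ⟨k, hk⟩ := h3
    rw [hk, pow_mul, pow_succ', pow_mul, h1, ← map_pow, hcf, map_one, one_pow]
  obtain ⟨V, i1, i2, i3, B, T, h1, h2, hfin, hTr⟩ := model_copies (r := r) hF hirr hodd hd hroot dvd_rfl s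
  have hfin' : finrank F V = n := by rw [hfin, ht']
  obtain ⟨h0, hdetT⟩ := det_of_irr hr hirr hTr
  refine ⟨V, i1, i2, i3, B, T, c, h1, h2, hTr, hfin', ?_, ?_, ?_⟩
  · rw [hdetT, hfin, Nat.mul_div_cancel_left _ hr.pos]
    have h3 : (-1 : F) ^ r * (-c) = c := by
      rw [hodd.neg_one_pow]
      ring
    rw [h3]
    obtain ⟨k, hk⟩ := hfdvd
    rw [hk, pow_mul, hcf, one_pow]
  · rintro z rfl
    haveI := Module.nontrivial_of_finrank_pos (R := F) (M := V) (by omega)
    obtain ⟨v, hv0⟩ := exists_ne (0 : V)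
    apply hcb z
    rw [_root_.smul_pow, one_pow] at hTr
    have h3 := congrArg (fun f : End F V => f v) hTr
    simp only [LinearMap.smul_apply, Module.End.one_apply] at h3
    exact smul_left_injective F hv0 h3
  · intro W hW
    have := natDegree_dvd hirr h0 hW
    rwa [hd] at this

open scoped _root_.Classical in
/-- Bound on invariant isotropic subspaces for distinct eigenvalues. -/
theorem bound_list (hF : Fintype.card F = q ^ 2) (hr : r.Prime) (hrF : (r : F) ≠ 0) (hdvd : r ∣ q + 1)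
    (hrq : ¬ r ∣ q) {V : Type*} [AddCommGroup V] [Module F V] [FiniteDimensional F V] {B : V → V → F}
    {T : End F V} (hB : Fm (frobHom hF) 1 B) (hT : Iso B T) (hTr : T ^ r = 1) {l : List F} (hnd : l.Nodup)
    {a : ℕ} (hD : ∀ P : F[X], Dk T P = (if P.eval 1 = 0 then a else 0) + l.countP (fun θ => P.eval θ = 0))
    {W : Submodule F V} (hTI : TI B W) (hInv : Inv T W) :
    2 * finrank F W ≤ a + l.count 1 := by
  haveI : Fact r.Prime := ⟨hr⟩
  have hrQ : ¬ r ∣ q ^ 2 := fun h => hrq (hr.dvd_of_dvd_pow h)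
  obtain ⟨S, hS, hprod, -⟩ := exists_factors hF hr hrF hrQ
  have hord : orderOf ((q ^ 2 : ℕ) : ZMod r) = 1 := by
    rw [orderOf_eq_one_iff]
    have h1 := pow_eq_neg_of_dvd (r := r) (q := q) (l := 1) (by simpa using hdvd)
    rw [pow_one] at h1
    push_cast
    rw [h1]
    ring
  rw [hord] at hS
  obtain ⟨t₀, w, hW, h2, h3⟩ := bound_beta hF hB hT hTr hr hrF odd_one (by simpa using hdvd) hS hprod hTI hInv
  have hw : ∀ g ∈ S, w g = 0 := by
    intro g hg
    obtain ⟨hgi, hgm, hgr, hg1, hgd⟩ := hS g hg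
    have h4 := h3 g hg
    rw [hD g] at h4
    have h5 : g.eval 1 ≠ 0 := by
      intro h0
      apply hg1
      have h6 : X - C 1 ∣ g := Polynomial.dvd_iff_isRoot.mpr h0
      have h7 := (Polynomial.irreducible_X_sub_C (1 : F)).dvd_symm hgi h6
      simpa using h7
    rw [if_neg h5, zero_add, one_mul] at h4
    have h6 : g = X + C (g.coeff 0) := hgm.eq_X_add_C hgd
    have h7 : l.countP (fun θ => g.eval θ = 0) ≤ 1 := by
      have h8 : l.countP (fun θ => g.eval θ = 0) = l.count (- g.coeff 0) := by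
        rw [List.count_eq_countP]
        apply List.countP_congr
        intro x _
        constructor
        · intro hx
          have : x + g.coeff 0 = 0 := by
            have h9 := congrArg (Polynomial.eval x) h6
            simp only [eval_add, eval_X, eval_C] at h9
            simp only [decide_eq_true_eq] at hx
            rw [← h9]
            exact hx
          simp only [beq_iff_eq]
          linear_combination this
        · intro hx
          simp only [beq_iff_eq] at hx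
          simp only [decide_eq_true_eq]
          rw [h6]
          simp only [eval_add, eval_X, eval_C, coeff_add, coeff_X_zero, coeff_C_zero, zero_add]
          rw [hx]
          simp
      rw [h8]
      exact List.nodup_iff_count_le_one.mp hnd _
    omega
  have hsum : ∑ g ∈ S, w g = 0 := Finset.sum_eq_zero hw
  rw [hsum, mul_zero, add_zero] at hW
  rw [hW]
  have h4 : Dk T (X - 1 : F[X]) = a + l.count 1 := by
    rw [hD]
    have h5 : (X - 1 : F[X]).eval 1 = 0 := by simp
    rw [if_pos h5]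
    congr 1
    rw [List.count_eq_countP]
    apply List.countP_congr
    intro x _
    simp [sub_eq_zero]
  rw [← h4]
  exact h2

/-- Primitive roots of unity. -/
theorem exists_prim (hF : Fintype.card F = q ^ 2) (hr : r.Prime) (hdvd : r ∣ q + 1) :
    ∃ θ : F, θ ^ r = 1 ∧ θ ≠ 1 ∧ θ ^ (q + 1) = 1 := by
  haveI : Fact r.Prime := ⟨hr⟩
  obtain ⟨γ, hγo, hγ⟩ := exists_gen (F := F) rfl
  have hq1 : 1 < Fintype.card F := Fintype.one_lt_card
  have hd : r ∣ orderOf γ := by
    rw [hγo]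
    exact dvd_sq hF hdvd
  have h1 : orderOf (γ ^ (orderOf γ / r)) = r :=
    orderOf_pow_orderOf_div (by rw [hγo]; omega) hd
  set u := γ ^ (orderOf γ / r) with hu
  have h2 : u ^ r = 1 := by
    rw [← h1]
    exact pow_orderOf_eq_one u
  have h3 : u ≠ 1 := by
    intro h
    rw [h, orderOf_one] at h1
    exact hr.one_lt.ne h1
  refine ⟨(u : F), ?_, ?_, ?_⟩
  · rw [← Units.val_pow_eq_pow_val, h2]
    rfl
  · intro h
    exact h3 (Units.ext h)
  · obtain ⟨k, hk⟩ := hdvd
    rw [hk, pow_mul, ← Units.val_pow_eq_pow_val, h2]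
    simp

theorem prod_list (θ : F) (a₀ k : ℕ) :
    ((List.range k).map (fun j => θ ^ (a₀ + j))).prod = θ ^ (k * a₀ + k * (k - 1) / 2) := by
  induction k with
  | zero => simp
  | succ k ih =>
    rw [List.range_succ, List.map_append, List.prod_append, ih]
    simp only [List.map_cons, List.map_nil, List.prod_cons, List.prod_nil, mul_one]
    rw [← pow_add, Cfsg.Agent.Lib.Classical.HermOrders.tri_succ]
    congr 1
    ring

theorem nodup_list {θ : F} (hθ : θ ^ r = 1) (hθ1 : θ ≠ 1) (hr : r.Prime) (a₀ : ℕ) {k : ℕ} (hk : k ≤ r) :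
    ((List.range k).map (fun j => θ ^ (a₀ + j))).Nodup := by
  haveI : Fact r.Prime := ⟨hr⟩
  have hord : orderOf θ = r := orderOf_eq_prime hθ hθ1
  have hprim : IsPrimitiveRoot θ r := hord ▸ IsPrimitiveRoot.orderOf θ
  have hmodeq : ∀ a b : ℕ, θ ^ a = θ ^ b → a ≡ b [MOD r] := by
    intro a b hab
    apply hprim.pow_inj (Nat.mod_lt _ hr.pos) (Nat.mod_lt _ hr.pos)
    rw [← hord, pow_mod_orderOf, pow_mod_orderOf]
    exact hab
  refine List.Nodup.map_on ?_ List.nodup_range
  intro x hx y hy hxy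
  have h1 := List.mem_range.mp hx
  have h2 := List.mem_range.mp hy
  have h3 := hmodeq _ _ hxy
  have h4 : x ≡ y [MOD r] := Nat.ModEq.add_left_cancel' a₀ h3
  exact Nat.ModEq.eq_of_lt_of_lt h4 (by omega) (by omega)

open scoped _root_.Classical in
/-- Assembling a diagonal model. -/
theorem beta_aux (hF : Fintype.card F = q ^ 2) (hr : r.Prime) (hrF : (r : F) ≠ 0) (hdvd : r ∣ q + 1)
    (hrq : ¬ r ∣ q) {θ : F} (hθ : θ ^ r = 1) (hθ1 : θ ≠ 1) (hθq : θ ^ (q + 1) = 1) {a₀ k a n m : ℕ}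
    (hkr : k ≤ r) (hk2 : 2 ≤ k) (hn : a + k = n) (hsum : r ∣ k * a₀ + k * (k - 1) / 2)
    (hbig : a + ((List.range k).map (fun j => θ ^ (a₀ + j))).count 1 < 2 * m) :
    ∃ (V : Type u) (_ : AddCommGroup V) (_ : Module F V) (_ : FiniteDimensional F V)
      (B : V → V → F) (T : End F V), Fm (frobHom hF) 1 B ∧ Iso B T ∧ T ^ r = 1 ∧ finrank F V = n ∧
      LinearMap.det T = 1 ∧ (∀ z : F, T ≠ z • 1) ∧
      ∀ W : Submodule F V, TI B W → Inv T W → finrank F W ≠ m := by
  set l := (List.range k).map (fun j => θ ^ (a₀ + j)) with hl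
  have hnd : l.Nodup := nodup_list hθ hθ1 hr a₀ hkr
  have hlq : ∀ x ∈ l, x ^ (q + 1) = 1 := by
    intro x hx
    obtain ⟨j, -, rfl⟩ := List.mem_map.mp hx
    rw [← pow_mul, mul_comm, pow_mul, hθq, one_pow]
  have hlr : ∀ x ∈ l, x ^ r = 1 := by
    intro x hx
    obtain ⟨j, -, rfl⟩ := List.mem_map.mp hx
    rw [← pow_mul, mul_comm, pow_mul, hθ, one_pow]
  obtain ⟨V, i1, i2, i3, B, T, h1, h2, hf, hdet, hp, hD⟩ := model_list hF a l hlq
  have hlen : l.length = k := by simp [hl]
  refine ⟨V, i1, i2, i3, B, T, h1, h2, hp r hlr, by rw [hf, hlen, hn], ?_, ?_, ?_⟩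
  · rw [hdet, hl, prod_list]
    obtain ⟨c, hc⟩ := hsum
    rw [hc, pow_mul, hθ, one_pow]
  · intro z hz
    have hx : ∀ x ∈ l, z = x := by
      intro x hx
      have h3 : 0 < Dk T (X - C x) := by
        rw [hD]
        have : 0 < l.countP (fun θ => (X - C x : F[X]).eval θ = 0) :=
          List.countP_pos_iff.mpr ⟨x, hx, by simp⟩
        omega
      have h4 := eval_of_Dk h3 hz
      simp only [eval_sub, eval_X, eval_C] at h4
      exact sub_eq_zero.mp h4
    have h5 := hx (θ ^ (a₀ + 0)) (List.mem_map.mpr ⟨0, List.mem_range.mpr (by omega), rfl⟩)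
    have h6 := hx (θ ^ (a₀ + 1)) (List.mem_map.mpr ⟨1, List.mem_range.mpr (by omega), rfl⟩)
    have h7 : θ ^ (a₀ + 0) ≠ 0 := by
      apply pow_ne_zero
      intro h8
      rw [h8, zero_pow hr.ne_zero] at hθ
      exact zero_ne_one hθ
    apply hθ1
    have h8 : θ ^ (a₀ + 0) * θ = θ ^ (a₀ + 0) := by
      rw [← pow_succ, show a₀ + 0 + 1 = a₀ + 1 from rfl, ← h6, h5]
    exact mul_left_cancel₀ h7 (h8.trans (mul_one _).symm)
  · intro W hTI hInv hWm
    have h3 := bound_list hF hr hrF hdvd hrq h1 h2 (hp r hlr) hnd hD hTI hInv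
    rw [hWm] at h3
    omega

/-- The model for `i = 2` with too many eigenvalues. -/
theorem exists_beta_2 (hF : Fintype.card F = q ^ 2) (hr : r.Prime) (hr2 : r ≠ 2) (hrF : (r : F) ≠ 0)
    (hdvd : r ∣ q + 1) (hrq : ¬ r ∣ q) {n m : ℕ} (hn : 3 ≤ n) (hm : 1 ≤ m)
    (hbig : n < (r - 1) + 2 * m) :
    ∃ (V : Type u) (_ : AddCommGroup V) (_ : Module F V) (_ : FiniteDimensional F V)
      (B : V → V → F) (T : End F V), Fm (frobHom hF) 1 B ∧ Iso B T ∧ T ^ r = 1 ∧ finrank F V = n ∧
      LinearMap.det T = 1 ∧ (∀ z : F, T ≠ z • 1) ∧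
      ∀ W : Submodule F V, TI B W → Inv T W → finrank F W ≠ m := by
  classical
  haveI : Fact r.Prime := ⟨hr⟩
  obtain ⟨θ, hθ, hθ1, hθq⟩ := exists_prim hF hr hdvd
  have hord : orderOf θ = r := orderOf_eq_prime hθ hθ1
  have hr3 : 3 ≤ r := by
    have := hr.two_le
    omega
  obtain ⟨u, hu⟩ := hr.odd_of_ne_two hr2
  by_cases hnr : r - 1 ≤ n
  · -- large degree
    refine beta_aux hF hr hrF hdvd hrq hθ hθ1 hθq (a₀ := 1) (k := r - 1) (a := n - (r - 1)) (by omega)
      (by omega) (by omega) ?_ ?_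
    · have hu1 : 1 ≤ u := by omega
      obtain ⟨v, rfl⟩ : ∃ v, u = v + 1 := ⟨u - 1, by omega⟩
      have h1 : r - 1 = 2 * (v + 1) := by omega
      have h2 : r - 1 - 1 = 2 * v + 1 := by omega
      rw [h2, h1]
      have h3 : 2 * (v + 1) * (2 * v + 1) / 2 = (v + 1) * (2 * v + 1) :=
        Nat.div_eq_of_eq_mul_right (by norm_num) (by ring)
      rw [h3, hu]
      exact ⟨v + 1, by ring⟩
    · have h1 : ((List.range (r - 1)).map (fun j => θ ^ (1 + j))).count 1 = 0 := by
        rw [List.count_eq_zero]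
        intro hmem
        obtain ⟨j, hj, hj1⟩ := List.mem_map.mp hmem
        have hj' := List.mem_range.mp hj
        have h2 : r ∣ 1 + j := by
          rw [← hord]
          exact orderOf_dvd_of_pow_eq_one hj1
        have := Nat.le_of_dvd (by omega) h2
        omega
      rw [h1]
      omega
  · -- small degree
    have hcop : Nat.Coprime n r := by
      rw [Nat.coprime_comm, Nat.Prime.coprime_iff_not_dvd hr]
      intro h
      have := Nat.le_of_dvd (by omega) h
      omega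
    obtain ⟨a₀, -, ha₀⟩ := Nat.exists_mul_mod_eq_of_coprime ((r - 1) * (n * (n - 1) / 2)) hcop hr.ne_zero
    refine beta_aux hF hr hrF hdvd hrq hθ hθ1 hθq (a₀ := a₀) (k := n) (a := 0) (by omega)
      (by omega) (by omega) ?_ ?_
    · apply (Nat.modEq_zero_iff_dvd).mp
      have h1 : n * a₀ + n * (n - 1) / 2 ≡ (r - 1) * (n * (n - 1) / 2) + n * (n - 1) / 2 [MOD r] :=
        Nat.ModEq.add_right _ ha₀
      refine h1.trans ?_
      have h2 : (r - 1) * (n * (n - 1) / 2) + n * (n - 1) / 2 = r * (n * (n - 1) / 2) := by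
        obtain ⟨s, hs⟩ : ∃ s, r = s + 1 := ⟨r - 1, by omega⟩
        rw [hs]
        simp only [Nat.add_sub_cancel]
        ring
      rw [h2]
      exact (Nat.modEq_zero_iff_dvd).mpr (dvd_mul_right _ _)
    · have h1 := List.nodup_iff_count_le_one.mp (nodup_list hθ hθ1 hr a₀ (k := n) (by omega)) 1
      omega

end Cfsg.Agent.Lib.ElusF.HzI2
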