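import Cfsg.Agent.Lib.ElusF.HzCount

/-!
# Diagonal models, and the elements with irreducible `X ^ r - z`
-/

set_option autoImplicit false
set_option linter.unusedSectionVars false
set_option linter.style.haveILetI false
set_option linter.unusedVariables false

open Polynomial Module

universe u

namespace Cfsg.Agent.Lib.ElusF.HzList

open Cfsg.Agent.Lib.ElusL.Basic Cfsg.Agent.Lib.ElusL.Flag Cfsg.Agent.Lib.ElusL.Cyc
  Cfsg.Agent.Lib.ElusL.Pos Cfsg.Agent.Lib.ElusF.Form Cfsg.Agent.Lib.ElusF.Step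
  Cfsg.Agent.Lib.ElusF.Split Cfsg.Agent.Lib.ElusF.SpModel Cfsg.Agent.Lib.ElusF.SpNeg
  Cfsg.Agent.Lib.HermCount.Field Cfsg.Agent.Lib.ElusF.HzBase Cfsg.Agent.Lib.ElusF.HzAdj
  Cfsg.Agent.Lib.ElusF.HzArith Cfsg.Agent.Lib.ElusF.HzModel Cfsg.Agent.Lib.ElusF.HzMat
  Cfsg.Agent.Lib.ElusL.Arith

variable {F : Type u} [Field F] [Fintype F] {q r : ℕ}

open scoped _root_.Classical in
/-- Diagonal models. -/
theorem model_list (hF : Fintype.card F = q ^ 2) (a : ℕ) (l : List F) (hl : ∀ θ ∈ l, θ ^ (q + 1) = 1) :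
    ∃ (V : Type u) (_ : AddCommGroup V) (_ : Module F V) (_ : FiniteDimensional F V)
      (B : V → V → F) (T : End F V), Fm (frobHom hF) 1 B ∧ Iso B T ∧ finrank F V = a + l.length ∧
      LinearMap.det T = l.prod ∧ (∀ r : ℕ, (∀ θ ∈ l, θ ^ r = 1) → T ^ r = 1) ∧
      ∀ P : F[X], Dk T P = (if P.eval 1 = 0 then a else 0) + l.countP (fun θ => P.eval θ = 0) := by
  induction l with
  | nil =>
    refine ⟨Fin a → F, inferInstance, inferInstance, inferInstance, _, 1, triv_fm hF a, triv_iso a,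
      ?_, ?_, fun r _ => one_pow r, ?_⟩
    · simp
    · simp
    · intro P
      by_cases h : P.eval 1 = 0
      · rw [if_pos h]
        unfold Dk
        have h1 : Polynomial.aeval (1 : End F (Fin a → F)) P = 0 := by
          have := Polynomial.aeval_algebraMap_apply_eq_algebraMap_eval (A := End F (Fin a → F)) (1 : F) P
          rw [h, map_zero, map_one] at this
          exact this
        rw [h1, LinearMap.ker_zero, finrank_top]
        simp
      · rw [if_neg h, Dk_one h]
        simp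
  | cons θ l ih =>
    obtain ⟨V, _, _, _, B, T, h1, h2, hf, hdet, hp, hD⟩ := ih (fun x hx => hl x (List.mem_cons_of_mem _ hx))
    have hθ := hl θ (List.mem_cons_self)
    obtain ⟨τ, hτ⟩ := exists_tau (K := F) hF 1
    have hcard : Nat.card F = q ^ (2 * 1) := by
      rw [Nat.card_eq_fintype_card, hF]
    have hx : θ * τ θ = 1 := by
      rw [hτ, pow_one, ← pow_succ', hθ]
    refine ⟨V × F, inferInstance, inferInstance, inferInstance, _,
      LinearMap.prodMap T (Algebra.lmul F F θ), Fm_prod h1 (line_form hF odd_one hcard hτ),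
      Iso_prod h2 (line_iso hx), ?_, ?_, ?_, ?_⟩
    · rw [Module.finrank_prod, hf, finrank_self, List.length_cons]
      ring
    · rw [LinearMap.det_prodMap, hdet, List.prod_cons, mul_comm]
      congr 1
      have h3 : LinearMap.det (Algebra.lmul F F θ) = Algebra.norm F θ := rfl
      rw [h3, Algebra.norm_self]
      rfl
    · intro r hr
      rw [prodMap_pow, hp r (fun x hx => hr x (List.mem_cons_of_mem _ hx)), ← map_pow,
        hr θ List.mem_cons_self, map_one, LinearMap.prodMap_one]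
    · intro P
      rw [Dk_prod, hD, Dk_lmul, List.countP_cons, finrank_self]
      have h4 : Polynomial.aeval θ P = P.eval θ := by rw [Polynomial.coe_aeval_eq_eval]
      rw [h4]
      by_cases h : P.eval θ = 0
      · simp [h]
        ring
      · simp [h]

/-! ### Arithmetic for `r ∣ q + 1` -/

theorem val_sq (hF : Fintype.card F = q ^ 2) (hr : r.Prime) (hr2 : r ≠ 2) (hdvd : r ∣ q + 1) :
    padicValNat r (q ^ 2 - 1) = padicValNat r (q + 1) := by
  haveI : Fact r.Prime := ⟨hr⟩
  have hq := two_le hF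
  have h1 : q ^ 2 - 1 = (q + 1) * (q - 1) := by
    obtain ⟨t, rfl⟩ : ∃ t, q = t + 1 := ⟨q - 1, by omega⟩
    simp only [Nat.add_sub_cancel]
    have : (t + 1) ^ 2 = (t + 1 + 1) * t + 1 := by ring
    omega
  have hne : ¬ r ∣ q - 1 := by
    intro h3
    have h4 : r ∣ (q + 1) - (q - 1) := Nat.dvd_sub hdvd h3
    have h5 : (q + 1) - (q - 1) = 2 := by omega
    rw [h5] at h4
    exact hr2 ((Nat.prime_dvd_prime_iff_eq hr Nat.prime_two).mp h4)
  rw [h1, padicValNat.mul (by omega) (by omega), padicValNat.eq_zero_of_not_dvd hne, add_zero]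

theorem dvd_sq (hF : Fintype.card F = q ^ 2) (hdvd : r ∣ q + 1) : r ∣ Fintype.card F - 1 := by
  have hq := two_le hF
  have h1 : q ^ 2 - 1 = (q + 1) * (q - 1) := by
    obtain ⟨t, rfl⟩ : ∃ t, q = t + 1 := ⟨q - 1, by omega⟩
    simp only [Nat.add_sub_cancel]
    have : (t + 1) ^ 2 = (t + 1 + 1) * t + 1 := by ring
    omega
  rw [hF, h1]
  exact hdvd.mul_right _

variable {V : Type*} [AddCommGroup V] [Module F V] [FiniteDimensional F V] {B : V → V → F} {T : End F V}

/-- With irreducible `X ^ r - z`, determinant one gives a bound on the dimension. -/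
theorem val_of_irr (hF : Fintype.card F = q ^ 2) (hr : r.Prime) (hr2 : r ≠ 2) (hdvd : r ∣ q + 1) {z : F}
    (hz0 : z ≠ 0) (hno : ∀ b : F, b ^ r ≠ z) (hTr : T ^ r = z • 1) (hdet : LinearMap.det T = 1)
    (hn : finrank F V ≠ 0) : padicValNat r (q + 1) < padicValNat r (finrank F V) := by
  haveI : Fact r.Prime := ⟨hr⟩
  have hirr : Irreducible (X ^ r - C z : F[X]) := X_pow_sub_C_irreducible_of_prime hr hno
  obtain ⟨h0, hdetT⟩ := det_of_irr hr hirr hTr
  have hd : (X ^ r - C z : F[X]).natDegree = r := natDegree_X_pow_sub_C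
  have hrn : r ∣ finrank F V := by
    have := natDegree_dvd hirr h0 (W := ⊤) (fun _ _ => trivial)
    rwa [hd, finrank_top] at this
  obtain ⟨t, ht⟩ := hrn
  have ht0 : t ≠ 0 := by
    rintro rfl
    exact hn (by rw [ht, mul_zero])
  have hdiv : finrank F V / r = t := by
    rw [ht]
    exact Nat.mul_div_cancel_left _ hr.pos
  rw [hdet, hdiv] at hdetT
  have hv : padicValNat r (finrank F V) = 1 + padicValNat r t := by
    rw [ht, padicValNat.mul hr.ne_zero ht0, padicValNat_self]
  have h3 : z ^ t = 1 := by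
    have : (-1 : F) ^ r * (-z) = z := by
      rw [(hr.odd_of_ne_two hr2).neg_one_pow]
      ring
    rw [this] at hdetT
    exact hdetT.symm
  by_contra hcon
  push Not at hcon
  have hvt : padicValNat r t < padicValNat r (Fintype.card F - 1) := by
    rw [hF, val_sq hF hr hr2 hdvd]
    omega
  obtain ⟨b, hb⟩ := rth_of_pow_eq_one rfl hr (dvd_sq hF hdvd) hz0 ht0 h3 hvt
  exact hno b hb

/-- Invariant totally isotropic subspaces for irreducible `X ^ r - z`. -/
theorem pos_irr_ti (hF : Fintype.card F = q ^ 2) (hB : Fm (frobHom hF) 1 B) (hT : Iso B T) (hr : r.Prime)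
    (hrF : (r : F) ≠ 0) {z : F} (hz0 : z ≠ 0) (hirr : Irreducible (X ^ r - C z : F[X]))
    (hTr : T ^ r = z • 1) {m : ℕ} (hrm : r ∣ m) (hm : 2 * m ≤ finrank F V) :
    ∃ W : Submodule F V, TI B W ∧ Inv T W ∧ finrank F W = m := by
  have hinj : Function.Injective T := inj_of_pow hz0 hr.ne_zero hTr
  have hss : SS T := ss_of_pow hrF hz0 hTr
  obtain ⟨h0, -⟩ := det_of_irr hr hirr hTr
  have hd : (X ^ r - C z : F[X]).natDegree = r := natDegree_X_pow_sub_C
  obtain ⟨s, rfl⟩ := hrm
  have hrp := hr.pos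
  obtain ⟨W, -, h2, h3, h4⟩ := cap hB hT hinj hss (e := 2 * r - 1) (d := r) (U₀ := ⊤)
    (fun U _ _ hUi hpos => by
      obtain ⟨W, h1, h2, h3, h4⟩ := exists_ti_cyc hF hB hT hinj hirr (E := U)
        (fun v _ => by rw [LinearMap.mem_ker, h0]; rfl) hUi (by rw [hd]; omega)
      exact ⟨W, h1, h2, h3, by rw [h4, hd]⟩) s ⊤ le_rfl hB.nd_top (fun v _ => trivial) (by
      rw [finrank_top]
      rcases Nat.eq_zero_or_pos s with h1 | h1
      · exact Or.inl h1
      · right
        obtain ⟨s', rfl⟩ : ∃ s', s = s' + 1 := ⟨s - 1, by omega⟩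
        simp only [Nat.add_sub_cancel]
        have h2 : r * (s' + 1) = r * s' + r := by ring
        have h3 : 2 * r * s' = 2 * (r * s') := by ring
        omega)
  exact ⟨W, h2, h3, h4⟩

/-- Invariant nondegenerate subspaces for irreducible `X ^ r - z`. -/
theorem pos_irr_nd (hF : Fintype.card F = q ^ 2) (hB : Fm (frobHom hF) 1 B) (hT : Iso B T) (hr : r.Prime)
    {z : F} (hz0 : z ≠ 0) (hirr : Irreducible (X ^ r - C z : F[X]))
    (hTr : T ^ r = z • 1) {m : ℕ} (hrm : r ∣ m) (hm : m ≤ finrank F V) :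
    ∃ W : Submodule F V, Nd B W ∧ Inv T W ∧ finrank F W = m := by
  have hinj : Function.Injective T := inj_of_pow hz0 hr.ne_zero hTr
  obtain ⟨h0, -⟩ := det_of_irr hr hirr hTr
  have hd : (X ^ r - C z : F[X]).natDegree = r := natDegree_X_pow_sub_C
  obtain ⟨s, rfl⟩ := hrm
  obtain ⟨W, -, h2, h3, h4⟩ := ndcap hB hT hinj (d := r) hr.pos (U₀ := ⊤)
    (fun U _ hUn hUi hpos => by
      obtain ⟨W, h1, h2, h3, h4⟩ := exists_nd_cyc hF hB hT hinj hirr (E := U)
        (fun v _ => by rw [LinearMap.mem_ker, h0]; rfl) hUi hUn hpos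
      exact ⟨W, h1, h2, h3, by rw [h4, hd]⟩) s ⊤ le_rfl hB.nd_top (fun v _ => trivial) (by
      rw [finrank_top]
      exact hm)
  exact ⟨W, h2, h3, h4⟩

end Cfsg.Agent.Lib.ElusF.HzList
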