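import Cfsg.Agent.Lib.ElusF.HzModel
import Cfsg.Agent.Lib.Witt.HermParabolic
import Cfsg.Agent.Lib.ElusL.Bridge

/-!
# From models to matrices; scalars and scaling
-/

set_option autoImplicit false
set_option linter.unusedSectionVars false
set_option linter.style.haveILetI false
set_option linter.unusedVariables false

open Polynomial Module Matrix

universe u

namespace Cfsg.Agent.Lib.ElusF.HzMat

open Cfsg.Agent.Lib.ElusL.Basic Cfsg.Agent.Lib.ElusL.Flag Cfsg.Agent.Lib.ElusL.Cyc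
  Cfsg.Agent.Lib.ElusL.Pos Cfsg.Agent.Lib.ElusF.Form Cfsg.Agent.Lib.ElusF.Step
  Cfsg.Agent.Lib.ElusF.Split Cfsg.Agent.Lib.ElusF.SpModel
  Cfsg.Agent.Lib.HermCount.Field Cfsg.Agent.Lib.ElusF.HzBase Cfsg.Agent.Lib.ElusF.HzAdj
  Cfsg.Agent.Lib.ElusF.HzArith Cfsg.Agent.Lib.ElusF.HzModel Cfsg.Agent.Lib.ElusL.Bridge

variable {F : Type u} [Field F] [Fintype F] {q r n : ℕ}

theorem iso_std {x : Matrix.SpecialLinearGroup (Fin n) F} (hx : x ∈ Cfsg.SU n F q) :
    Iso (Cfsg.hermForm n F q) (Matrix.toLin' (x : Matrix (Fin n) (Fin n) F)) := by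
  intro u v
  rw [Matrix.toLin'_apply, Matrix.toLin'_apply]
  exact hx u v

theorem nd_std_iff (W : Submodule F (Fin n → F)) :
    (∀ u ∈ W, u ≠ 0 → ∃ v ∈ W, Cfsg.hermForm n F q u v ≠ 0) ↔ Nd (Cfsg.hermForm n F q) W := by
  constructor
  · intro h u hu huv
    by_contra hne
    obtain ⟨v, hv, hv0⟩ := h u hu hne
    exact hv0 (huv v hv)
  · intro h u hu hne
    by_contra hcon
    push Not at hcon
    exact hne (h u hu hcon)

theorem ns_std {x : Matrix.SpecialLinearGroup (Fin n) F}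
    (hx : ∀ z : F, (x : Matrix (Fin n) (Fin n) F) ≠ z • (1 : Matrix (Fin n) (Fin n) F)) (z : F) :
    (Matrix.toLin' (x : Matrix (Fin n) (Fin n) F) : End F (Fin n → F)) ≠ z • 1 := by
  intro h
  apply hx z
  apply (Matrix.toLin' (R := F) (m := Fin n) (n := Fin n)).injective
  rw [h, map_smul, Matrix.toLin'_one]
  rfl

section conj

variable {V : Type*} [AddCommGroup V] [Module F V] [FiniteDimensional F V] {B : V → V → F} {T : End F V}

/-- A model of the right dimension in coordinates. -/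
theorem exists_coord (hF : Fintype.card F = q ^ 2) (hB : Fm (frobHom hF) 1 B) (hT : Iso B T)
    (hdim : finrank F V = n) :
    ∃ (e : (Fin n → F) ≃ₗ[F] V) (A : Matrix (Fin n) (Fin n) F),
      (∀ u v, B (e u) (e v) = Cfsg.hermForm n F q u v) ∧ (∀ v, e (A *ᵥ v) = T (e v)) ∧
      A.det = LinearMap.det T ∧ A.det * A.det ^ q = 1 := by
  haveI : Finite V := Module.finite_of_finite F
  obtain ⟨e, he⟩ := Cfsg.Agent.Lib.Witt.HermModel.exists_model (hspace_of_fm hF hB) hF n hdim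
  let Y : (Fin n → F) →ₗ[F] (Fin n → F) := e.symm.toLinearMap ∘ₗ T ∘ₗ e.toLinearMap
  let A : Matrix (Fin n) (Fin n) F := LinearMap.toMatrix' Y
  have hA : ∀ v, A *ᵥ v = e.symm (T (e v)) := by
    intro v
    simp [A, Y, LinearMap.toMatrix'_mulVec]
  have hdet : A.det = LinearMap.det T := by
    rw [LinearMap.det_toMatrix']
    exact LinearMap.det_conj T e.symm
  refine ⟨e, A, he, ?_, hdet, ?_⟩
  · intro v
    rw [hA, LinearEquiv.apply_symm_apply]
  · apply Cfsg.Agent.Lib.Witt.HermParabolic.det_mul_frob hF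
    intro u v
    rw [← he, ← he, hA, hA, LinearEquiv.apply_symm_apply, LinearEquiv.apply_symm_apply, hT]

theorem det_norm (hF : Fintype.card F = q ^ 2) (hB : Fm (frobHom hF) 1 B) (hT : Iso B T) :
    LinearMap.det T ^ (q + 1) = 1 := by
  obtain ⟨e, A, -, -, h3, h4⟩ := exists_coord hF hB hT rfl
  rw [← h3, pow_succ, mul_comm]
  exact h4

/-- Determinant one for elements of order coprime to `q + 1`. -/
theorem det_one (hF : Fintype.card F = q ^ 2) (hB : Fm (frobHom hF) 1 B) (hT : Iso B T) (hr : r.Prime)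
    (hrq1 : ¬ r ∣ q + 1) (hTr : T ^ r = 1) : LinearMap.det T = 1 := by
  have h1 : LinearMap.det T ^ r = 1 := by
    rw [← map_pow, hTr, map_one]
  exact one_of_coprime_pow ((Nat.Prime.coprime_iff_not_dvd hr).mpr hrq1) h1 (det_norm hF hB hT)

/-- The element of `SU` given by a model. -/
theorem exists_su (hF : Fintype.card F = q ^ 2) (hB : Fm (frobHom hF) 1 B) (hT : Iso B T)
    (hdim : finrank F V = n) (hdet : LinearMap.det T = 1) :
    ∃ (e : (Fin n → F) ≃ₗ[F] V) (x : Matrix.SpecialLinearGroup (Fin n) F), x ∈ Cfsg.SU n F q ∧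
      (∀ u v, B (e u) (e v) = Cfsg.hermForm n F q u v) ∧
      (∀ v, e ((x : Matrix (Fin n) (Fin n) F) *ᵥ v) = T (e v)) := by
  obtain ⟨e, A, h1, h2, h3, -⟩ := exists_coord hF hB hT hdim
  let x : Matrix.SpecialLinearGroup (Fin n) F := ⟨A, by rw [h3, hdet]⟩
  refine ⟨e, x, ?_, h1, h2⟩
  intro u v
  change Cfsg.hermForm n F q (A *ᵥ u) (A *ᵥ v) = Cfsg.hermForm n F q u v
  rw [← h1, ← h1, h2, h2, hT]

theorem su_pow {x : Matrix.SpecialLinearGroup (Fin n) F} {e : (Fin n → F) ≃ₗ[F] V}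
    (hx : ∀ v, e ((x : Matrix (Fin n) (Fin n) F) *ᵥ v) = T (e v)) {z : F} (hT : T ^ r = z • 1) :
    ((x ^ r : Matrix.SpecialLinearGroup (Fin n) F) : Matrix (Fin n) (Fin n) F) =
      z • (1 : Matrix (Fin n) (Fin n) F) := by
  have hpow : ∀ (k : ℕ) (v : Fin n → F), e (((x ^ k : Matrix.SpecialLinearGroup (Fin n) F) :
      Matrix (Fin n) (Fin n) F) *ᵥ v) = (T ^ k) (e v) := by
    intro k
    induction k with
    | zero => intro v; simp
    | succ k ih =>
      intro v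
      rw [pow_succ, Matrix.SpecialLinearGroup.coe_mul, ← Matrix.mulVec_mulVec, ih, hx, pow_succ]
      rfl
  apply (Matrix.toLin' (R := F) (m := Fin n) (n := Fin n)).injective
  apply LinearMap.ext
  intro v
  apply e.injective
  rw [Matrix.toLin'_apply, hpow, hT, map_smul, Matrix.toLin'_one]
  simp

theorem su_ns {x : Matrix.SpecialLinearGroup (Fin n) F} {e : (Fin n → F) ≃ₗ[F] V}
    (hx : ∀ v, e ((x : Matrix (Fin n) (Fin n) F) *ᵥ v) = T (e v)) (hNS : ∀ z : F, T ≠ z • 1) (z : F) :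
    (x : Matrix (Fin n) (Fin n) F) ≠ z • (1 : Matrix (Fin n) (Fin n) F) := by
  intro hz
  apply hNS z
  apply LinearMap.ext
  intro v
  obtain ⟨w, rfl⟩ := e.surjective v
  rw [← hx, hz, Matrix.smul_mulVec, Matrix.one_mulVec, map_smul]
  rfl

/-- A model without invariant totally isotropic `m`-spaces contradicts the left-hand side. -/
theorem false_of_ti (hF : Fintype.card F = q ^ 2) (hB : Fm (frobHom hF) 1 B) (hT : Iso B T)
    (hdim : finrank F V = n) (hdet : LinearMap.det T = 1) {z : F} {m : ℕ} (hTr : T ^ r = z • 1)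
    (hNS : ∀ z : F, T ≠ z • 1) (hno : ∀ W : Submodule F V, TI B W → Inv T W → finrank F W ≠ m)
    (hL : ∀ x : Matrix.SpecialLinearGroup (Fin n) F, x ∈ Cfsg.SU n F q →
      (∃ z : F, ((x ^ r : Matrix.SpecialLinearGroup (Fin n) F) : Matrix (Fin n) (Fin n) F) = z • (1 : Matrix (Fin n) (Fin n) F)) →
      (∀ z : F, (x : Matrix (Fin n) (Fin n) F) ≠ z • (1 : Matrix (Fin n) (Fin n) F)) →
      ∃ W : Submodule F (Fin n → F), Module.finrank F ↥W = m ∧ (∀ u ∈ W, ∀ v ∈ W, Cfsg.hermForm n F q u v = 0) ∧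
        W.map (Matrix.toLin' (x : Matrix (Fin n) (Fin n) F)) ≤ W) : False := by
  obtain ⟨e, x, hxS, he, hx⟩ := exists_su hF hB hT hdim hdet
  obtain ⟨W', hW'm, hW'TI, hW'map⟩ := hL x hxS ⟨z, su_pow hx hTr⟩ (su_ns hx hNS)
  apply hno (W'.map e.toLinearMap)
  · rintro _ ⟨u, hu, rfl⟩ _ ⟨v, hv, rfl⟩
    change B (e u) (e v) = 0
    rw [he]
    exact hW'TI u hu v hv
  · rintro _ ⟨u, hu, rfl⟩
    refine ⟨(x : Matrix (Fin n) (Fin n) F) *ᵥ u, hW'map ?_, hx u⟩
    exact ⟨u, hu, rfl⟩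
  · rw [LinearEquiv.finrank_map_eq, hW'm]

/-- A model without invariant nondegenerate `m`-spaces contradicts the left-hand side. -/
theorem false_of_nd (hF : Fintype.card F = q ^ 2) (hB : Fm (frobHom hF) 1 B) (hT : Iso B T)
    (hdim : finrank F V = n) (hdet : LinearMap.det T = 1) {z : F} {m : ℕ} (hTr : T ^ r = z • 1)
    (hNS : ∀ z : F, T ≠ z • 1) (hno : ∀ W : Submodule F V, Nd B W → Inv T W → finrank F W ≠ m)
    (hL : ∀ x : Matrix.SpecialLinearGroup (Fin n) F, x ∈ Cfsg.SU n F q →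
      (∃ z : F, ((x ^ r : Matrix.SpecialLinearGroup (Fin n) F) : Matrix (Fin n) (Fin n) F) = z • (1 : Matrix (Fin n) (Fin n) F)) →
      (∀ z : F, (x : Matrix (Fin n) (Fin n) F) ≠ z • (1 : Matrix (Fin n) (Fin n) F)) →
      ∃ W : Submodule F (Fin n → F), Module.finrank F ↥W = m ∧ (∀ u ∈ W, u ≠ 0 → ∃ v ∈ W, Cfsg.hermForm n F q u v ≠ 0) ∧
        W.map (Matrix.toLin' (x : Matrix (Fin n) (Fin n) F)) ≤ W) : False := by
  obtain ⟨e, x, hxS, he, hx⟩ := exists_su hF hB hT hdim hdet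
  obtain ⟨W', hW'm, hW'N, hW'map⟩ := hL x hxS ⟨z, su_pow hx hTr⟩ (su_ns hx hNS)
  apply hno (W'.map e.toLinearMap)
  · rintro _ ⟨u, hu, rfl⟩ hh
    have h1 : u = 0 := (nd_std_iff W').mp hW'N u hu (fun v hv => by
      have := hh (e v) ⟨v, hv, rfl⟩
      change B (e u) (e v) = 0 at this
      rw [he] at this
      exact this)
    rw [h1]
    simp
  · rintro _ ⟨u, hu, rfl⟩
    refine ⟨(x : Matrix (Fin n) (Fin n) F) *ᵥ u, hW'map ?_, hx u⟩
    exact ⟨u, hu, rfl⟩
  · rw [LinearEquiv.finrank_map_eq, hW'm]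

/-- The norm of a scalar power. -/
theorem scalar_norm (hF : Fintype.card F = q ^ 2) (hB : Fm (frobHom hF) 1 B) (hT : Iso B T) {z : F}
    (hTr : T ^ r = z • 1) (hpos : 0 < finrank F V) : z ^ (q + 1) = 1 := by
  haveI := Module.nontrivial_of_finrank_pos (R := F) hpos
  obtain ⟨u, hu⟩ := exists_ne (0 : V)
  obtain ⟨v, hv⟩ : ∃ v, B u v ≠ 0 := by
    by_contra hcon
    push Not at hcon
    exact hu (hB.nd u hcon)
  have h1 := iso_pow hT r u v
  rw [hTr] at h1
  simp only [LinearMap.smul_apply, Module.End.one_apply] at h1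
  rw [hB.smul_l, hB.smul_r] at h1
  have h2 : z * frobHom hF z = 1 := by
    have h3 : (z * frobHom hF z - 1) * B u v = 0 := by
      linear_combination h1
    exact sub_eq_zero.mp ((mul_eq_zero.mp h3).resolve_right hv)
  rw [pow_succ, mul_comm]
  exact h2

/-- Scaling by an element of norm one. -/
theorem iso_smul (hF : Fintype.card F = q ^ 2) (hB : Fm (frobHom hF) 1 B) (hT : Iso B T) {s : F}
    (hs : s ^ (q + 1) = 1) : Iso B (s • T) := by
  intro u v
  simp only [LinearMap.smul_apply]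
  rw [hB.smul_l, hB.smul_r, hT, ← mul_assoc]
  have : s * frobHom hF s = 1 := by
    rw [frobHom_apply, mul_comm, ← pow_succ]
    exact hs
  rw [this, one_mul]

/-- Roots in the norm one group when the prime does not divide `q + 1`. -/
theorem exists_root_coprime (hr : r.Prime) (hrq1 : ¬ r ∣ q + 1) {z : F} (hz : z ^ (q + 1) = 1) :
    ∃ s : F, s ^ r = z ∧ s ^ (q + 1) = 1 := by
  have hcop : Nat.Coprime r (q + 1) := (Nat.Prime.coprime_iff_not_dvd hr).mpr hrq1
  by_cases hq0 : q = 0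
  · subst hq0
    exact ⟨z, by
      have : z = 1 := by simpa using hz
      rw [this, one_pow], by simpa using hz⟩
  obtain ⟨m, -, hm⟩ := Nat.exists_mul_mod_eq_one_of_coprime hcop (by omega)
  refine ⟨z ^ m, ?_, ?_⟩
  · rw [← pow_mul, mul_comm, pow_eq_pow_mod _ hz, hm, pow_one]
  · rw [← pow_mul, mul_comm, pow_mul, hz, one_pow]

/-- Scaling to an element of prime order. -/
theorem exists_scale (hF : Fintype.card F = q ^ 2) (hB : Fm (frobHom hF) 1 B) (hT : Iso B T) (hr : r.Prime)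
    {z s : F} (hTr : T ^ r = z • 1) (hs : s ^ r = z) (hs1 : s ^ (q + 1) = 1) :
    s ≠ 0 ∧ Iso B (s⁻¹ • T) ∧ (s⁻¹ • T) ^ r = 1 := by
  have hs0 : s ≠ 0 := by
    rintro rfl
    rw [zero_pow (by omega)] at hs1
    exact zero_ne_one hs1
  refine ⟨hs0, iso_smul hF hB hT (by rw [inv_pow, hs1, inv_one]), ?_⟩
  exact scale_pow hs hs0 hTr

theorem ns_scale {s : F} (hs : s ≠ 0) (hNS : ∀ z : F, T ≠ z • 1) (z : F) : s⁻¹ • T ≠ z • 1 := by
  intro h
  apply hNS (s * z)
  have h1 := congrArg (fun S : End F V => s • S) h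
  simp only [smul_smul, mul_inv_cancel₀ hs, one_smul] at h1
  exact h1

/-- In the case `r ∣ q + 1` roots automatically have norm one. -/
theorem norm_of_root (hF : Fintype.card F = q ^ 2) (hr : r.Prime) (hr2 : r ≠ 2) (hdvd : r ∣ q + 1)
    {z w : F} (hz : z ^ (q + 1) = 1) (hw : w ^ r = z) : w ^ (q + 1) = 1 := by
  have hq2 := two_le hF
  have hw0 : w ≠ 0 := by
    rintro rfl
    rw [zero_pow hr.ne_zero] at hw
    rw [← hw, zero_pow (by omega)] at hz
    exact zero_ne_one hz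
  have h1 : (w ^ (q + 1)) ^ r = 1 := by
    rw [← pow_mul, mul_comm, pow_mul, hw, hz]
  have h2 : (w ^ (q + 1)) ^ (q - 1) = 1 := by
    rw [← pow_mul]
    have h3 : (q + 1) * (q - 1) = Fintype.card F - 1 := by
      rw [hF]
      obtain ⟨t, rfl⟩ : ∃ t, q = t + 1 := ⟨q - 1, by omega⟩
      simp only [Nat.add_sub_cancel]
      have : (t + 1) ^ 2 = (t + 1 + 1) * t + 1 := by ring
      omega
    rw [h3]
    exact FiniteField.pow_card_sub_one_eq_one w hw0
  have hcop : Nat.Coprime r (q - 1) := by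
    rw [Nat.Prime.coprime_iff_not_dvd hr]
    intro h3
    have h4 : r ∣ (q + 1) - (q - 1) := Nat.dvd_sub hdvd h3
    have h5 : (q + 1) - (q - 1) = 2 := by omega
    rw [h5] at h4
    exact hr2 ((Nat.prime_dvd_prime_iff_eq hr Nat.prime_two).mp h4)
  exact one_of_coprime_pow hcop h1 h2

end conj

end Cfsg.Agent.Lib.ElusF.HzMat
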