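import Cfsg.Agent.Lib.ElusF.HzTI

/-!
# Models of unitary isometries: field pieces and hyperbolic pieces
-/

set_option autoImplicit false
set_option linter.unusedSectionVars false
set_option linter.style.haveILetI false
set_option linter.unusedVariables false

open Polynomial Module

universe u

namespace Cfsg.Agent.Lib.ElusF.HzModel

open Cfsg.Agent.Lib.ElusL.Basic Cfsg.Agent.Lib.ElusL.Flag Cfsg.Agent.Lib.ElusL.Cyc
  Cfsg.Agent.Lib.ElusL.Pos Cfsg.Agent.Lib.ElusF.Form Cfsg.Agent.Lib.ElusF.Step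
  Cfsg.Agent.Lib.ElusF.Split Cfsg.Agent.Lib.ElusF.SpModel Cfsg.Agent.Lib.ElusF.SpNeg
  Cfsg.Agent.Lib.HermCount.Field Cfsg.Agent.Lib.ElusF.HzBase Cfsg.Agent.Lib.ElusF.HzAdj
  Cfsg.Agent.Lib.ElusF.HzArith

variable {F : Type u} [Field F] [Fintype F] {q r : ℕ}

section Tau

variable {K : Type*} [Field K] [Algebra F K]

/-- The power maps of extensions. -/
theorem exists_tau (hF : Fintype.card F = q ^ 2) (e : ℕ) : ∃ τ : K →+* K, ∀ x, τ x = x ^ (q ^ e) := by
  classical
  obtain ⟨p, hp⟩ := CharP.exists F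
  obtain ⟨n, hpp, hcard⟩ := FiniteField.card F p
  have : Fact p.Prime := ⟨hpp⟩
  have hq : q ∣ p ^ (n : ℕ) := by
    rw [← hcard, hF]
    exact dvd_pow_self q two_ne_zero
  obtain ⟨j, -, rfl⟩ := (Nat.dvd_prime_pow hpp).mp hq
  haveI : CharP K p := charP_of_injective_algebraMap (algebraMap F K).injective p
  refine ⟨iterateFrobenius K p (j * e), fun x => ?_⟩
  rw [iterateFrobenius_def, pow_mul]

variable [Finite K]

theorem trace_sep (F K : Type*) [Field F] [Finite F] [Field K] [Algebra F K] [Finite K] {a : K}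
    (h : ∀ b, Algebra.trace F K (a * b) = 0) : a = 0 := by
  haveI : Fintype F := Fintype.ofFinite F
  haveI : FiniteDimensional F K := Module.Finite.of_finite
  exact (traceForm_nondegenerate F K).1 a (by simpa [Algebra.traceForm_apply] using h)

/-- The trace and the semilinear power map. -/
theorem trace_tau (hF : Fintype.card F = q ^ 2) {e : ℕ} (he : Odd e) {τ : K →+* K}
    (hτ : ∀ x, τ x = x ^ (q ^ e)) (w : K) :
    Algebra.trace F K (τ w) = frobHom hF (Algebra.trace F K w) := by
  apply (algebraMap F K).injective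
  have halg : ∀ a : F, τ (algebraMap F K a) = algebraMap F K (frobHom hF a) := by
    intro a
    rw [hτ, ← map_pow, odd_frob hF he]
    rfl
  rw [← halg, FiniteField.algebraMap_trace_eq_sum_pow, FiniteField.algebraMap_trace_eq_sum_pow, map_sum]
  apply Finset.sum_congr rfl
  intro i _
  rw [map_pow]

end Tau

section Line

variable {K : Type u} [Field K] [Algebra F K] [Finite K]

/-- The Hermitian trace form on an extension of odd degree. -/
theorem line_form (hF : Fintype.card F = q ^ 2) {e : ℕ} (he : Odd e) (hK : Nat.card K = q ^ (2 * e))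
    {τ : K →+* K} (hτ : ∀ x, τ x = x ^ (q ^ e)) :
    Fm (frobHom hF) 1 (fun x y : K => Algebra.trace F K (x * τ y)) := by
  have hττ : ∀ x, τ (τ x) = x := by
    intro x
    haveI : Fintype K := Fintype.ofFinite K
    rw [hτ, hτ, ← pow_mul, ← pow_add, ← two_mul]
    rw [Nat.card_eq_fintype_card] at hK
    rw [← hK]
    exact FiniteField.pow_card x
  refine ⟨fun u v w => ?_, fun c u v => ?_, fun u v => ?_, fun u hu => ?_, frob_frob hF, one_ne_zero⟩
  · rw [add_mul, map_add]
  · rw [smul_mul_assoc, map_smul, smul_eq_mul]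
  · rw [one_mul, ← trace_tau hF he hτ, map_mul τ, hττ, mul_comm]
  · apply trace_sep F K
    intro b
    have := hu (τ b)
    rwa [hττ] at this

theorem line_iso {τ : K →+* K} {ω : K} (hω : ω * τ ω = 1) :
    Iso (fun x y : K => Algebra.trace F K (x * τ y)) (Algebra.lmul F K ω : End F K) := by
  intro u v
  change Algebra.trace F K (ω * u * τ (ω * v)) = Algebra.trace F K (u * τ v)
  have h1 : ω * u * τ (ω * v) = (ω * τ ω) * (u * τ v) := by
    rw [map_mul]
    ring
  rw [h1, hω, one_mul]

end Line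

section Double

variable {K : Type u} [Field K] [Algebra F K] [Finite K]

/-- The form on the double of an extension. -/
noncomputable def dform (σ : F →+* F) (τ : K →+* K) (u v : K × K) : F :=
  Algebra.trace F K (u.1 * τ v.2) + σ (Algebra.trace F K (v.1 * τ u.2))

theorem double_form (hF : Fintype.card F = q ^ 2) {τ : K →+* K} (hτ : Function.Surjective τ)
    (hτa : ∀ a : F, τ (algebraMap F K a) = algebraMap F K (frobHom hF a)) :
    Fm (frobHom hF) 1 (dform (frobHom hF) τ) := by
  have hσσ : ∀ x, frobHom hF (frobHom hF x) = x := frob_frob hF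
  refine ⟨fun u v w => ?_, fun c u v => ?_, fun u v => ?_, fun u hu => ?_, frob_frob hF, one_ne_zero⟩
  · simp only [dform, Prod.fst_add, Prod.snd_add, add_mul, mul_add, map_add]
    ring
  · change Algebra.trace F K ((c • u.1) * τ v.2) + frobHom hF (Algebra.trace F K (v.1 * τ (c • u.2))) =
      c * (Algebra.trace F K (u.1 * τ v.2) + frobHom hF (Algebra.trace F K (v.1 * τ u.2)))
    have h1 : v.1 * τ (c • u.2) = (frobHom hF c) • (v.1 * τ u.2) := by
      rw [Algebra.smul_def, map_mul, hτa, Algebra.smul_def]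
      ring
    rw [h1, smul_mul_assoc, map_smul, map_smul, smul_eq_mul, smul_eq_mul, map_mul (frobHom hF), hσσ]
    ring
  · simp only [dform, map_add, one_mul]
    rw [hσσ, add_comm]
  · apply Prod.ext
    · apply trace_sep F K
      intro b
      obtain ⟨b', rfl⟩ := hτ b
      have := hu (0, b')
      have h0 : (frobHom hF) 0 = 0 := map_zero _
      simp only [dform, zero_mul, map_zero, add_zero] at this
      exact this
    · have h1 : τ u.2 = 0 := by
        apply trace_sep F K
        intro b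
        have := hu (b, 0)
        simp only [dform, map_zero, mul_zero, zero_add] at this
        have h3 : Algebra.trace F K (b * τ u.2) = 0 := by
          have h4 := congrArg (frobHom hF) this
          rwa [hσσ, map_zero] at h4
        rwa [mul_comm]
      exact (map_eq_zero τ).mp h1

theorem double_iso (σ : F →+* F) {τ : K →+* K} {ω ω' : K} (hω : ω * τ ω' = 1) :
    Iso (dform σ τ) (LinearMap.prodMap (Algebra.lmul F K ω) (Algebra.lmul F K ω') : End F (K × K)) := by
  intro u v
  change Algebra.trace F K (ω * u.1 * τ (ω' * v.2)) + σ (Algebra.trace F K (ω * v.1 * τ (ω' * u.2))) =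
    Algebra.trace F K (u.1 * τ v.2) + σ (Algebra.trace F K (v.1 * τ u.2))
  have h1 : ∀ a b : K, ω * a * τ (ω' * b) = a * τ b := by
    intro a b
    rw [map_mul]
    calc ω * a * (τ ω' * τ b) = (ω * τ ω') * (a * τ b) := by ring
      _ = a * τ b := by rw [hω, one_mul]
  rw [h1, h1]

end Double

section Triv

/-- The trivial piece. -/
theorem triv_fm (hF : Fintype.card F = q ^ 2) (a : ℕ) : Fm (frobHom hF) 1 (Cfsg.hermForm a F q) :=
  fm_std a hF

theorem triv_iso (a : ℕ) : Iso (Cfsg.hermForm a F q) (1 : End F (Fin a → F)) := fun _ _ => rfl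

end Triv

open scoped _root_.Classical in
/-- One self-dual field. -/
theorem exists_line (hF : Fintype.card F = q ^ 2) {g : F[X]} (hg : Irreducible g) {e : ℕ} (he : Odd e)
    (hdeg : g.natDegree = e) (hrq : (AdjoinRoot.root g) ^ (q ^ e + 1) = 1) :
    ∃ (V : Type u) (_ : AddCommGroup V) (_ : Module F V) (_ : FiniteDimensional F V)
      (B : V → V → F) (T : End F V), Fm (frobHom hF) 1 B ∧ Iso B T ∧ finrank F V = e ∧
      (∀ (r : ℕ) (c : F), g ∣ X ^ r - C c → T ^ r = c • 1) ∧
      (∀ P : F[X], Dk T P = if g ∣ P then e else 0) := by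
  classical
  haveI : Fact (Irreducible g) := ⟨hg⟩
  let K := AdjoinRoot g
  haveI : FiniteDimensional F K := (AdjoinRoot.powerBasis hg.ne_zero).finite
  haveI : Finite K := Module.finite_of_finite F
  have hfin : finrank F K = e := by
    rw [(AdjoinRoot.powerBasis hg.ne_zero).finrank, AdjoinRoot.powerBasis_dim, hdeg]
  have hcard : Nat.card K = q ^ (2 * e) := by
    rw [Module.natCard_eq_pow_finrank (K := F), hfin, Nat.card_eq_fintype_card, hF, ← pow_mul]
  obtain ⟨τ, hτ⟩ := exists_tau (K := K) hF e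
  let ω : K := AdjoinRoot.root g
  have hx : ω * τ ω = 1 := by
    rw [hτ]
    have : ω * ω ^ (q ^ e) = ω ^ (q ^ e + 1) := by
      rw [pow_succ, mul_comm]
    rw [this]
    exact hrq
  have hker : ∀ P : F[X], Polynomial.aeval ω P = 0 ↔ g ∣ P := by
    intro P
    rw [← AdjoinRoot.mk_eq_zero]
    have : Polynomial.aeval ω P = AdjoinRoot.mk g P := AdjoinRoot.aeval_eq P
    rw [this]
  refine ⟨K, inferInstance, inferInstance, inferInstance, _, Algebra.lmul F K ω,
    line_form hF he hcard hτ, line_iso hx, hfin, ?_, ?_⟩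
  · intro r c hc
    have h1 : AdjoinRoot.mk g (X ^ r - C c) = 0 := (AdjoinRoot.mk_eq_zero).mpr hc
    rw [map_sub, map_pow, AdjoinRoot.mk_X, AdjoinRoot.mk_C, sub_eq_zero] at h1
    rw [← map_pow, show ω ^ r = _ from h1]
    apply LinearMap.ext
    intro v
    change AdjoinRoot.of g c * v = c • v
    rw [Algebra.smul_def]
    rfl
  · intro P
    rw [Dk_lmul, hfin]
    by_cases h : g ∣ P
    · rw [if_pos ((hker P).mpr h), if_pos h]
    · rw [if_neg (fun h' => h ((hker P).mp h')), if_neg h]


theorem one_of_coprime_pow {M : Type*} [Monoid M] {z : M} {a b : ℕ} (hcop : Nat.Coprime a b)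
    (h1 : z ^ a = 1) (h2 : z ^ b = 1) : z = 1 := by
  have h3 := Nat.dvd_gcd (orderOf_dvd_of_pow_eq_one h1) (orderOf_dvd_of_pow_eq_one h2)
  rw [hcop.gcd_eq_one] at h3
  exact orderOf_eq_one_iff.mp (Nat.dvd_one.mp h3)

section NS

variable {V : Type*} [AddCommGroup V] [Module F V] [FiniteDimensional F V]

theorem eval_of_Dk {T : End F V} {g : F[X]} (hD : 0 < Dk T g) {z : F} (hz : T = z • 1) : g.eval z = 0 := by
  unfold Dk at hD
  obtain ⟨⟨v, hv⟩, hv0⟩ : ∃ v : LinearMap.ker (Polynomial.aeval T g), v ≠ 0 := by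
    haveI := Module.nontrivial_of_finrank_pos (R := F) hD
    exact exists_ne 0
  have hv0' : v ≠ 0 := fun h => hv0 (Subtype.ext h)
  have h1 : Polynomial.aeval (z • (1 : End F V)) g = algebraMap F (End F V) (g.eval z) := by
    have := Polynomial.aeval_algebraMap_apply_eq_algebraMap_eval (A := End F V) z g
    rw [← this]
    congr 1
  rw [hz, LinearMap.mem_ker, h1, Module.algebraMap_end_apply] at hv
  exact (smul_eq_zero.mp hv).resolve_right hv0'

theorem eq_of_Dk {T : End F V} {g : F[X]} (hg : Irreducible g) (hgm : g.Monic) (hD : 0 < Dk T g) {z : F}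
    (hz : T = z • 1) : g = X - C z := by
  have h1 : X - C z ∣ g := Polynomial.dvd_iff_isRoot.mpr (eval_of_Dk hD hz)
  exact (Polynomial.eq_of_monic_of_associated (monic_X_sub_C z) hgm
    ((irreducible_X_sub_C z).associated_of_dvd hg h1)).symm

/-- A factor of degree at least two forces a nonscalar operator. -/
theorem ns_of_deg {T : End F V} {g : F[X]} (hg : Irreducible g) (hgm : g.Monic) (hdeg : 2 ≤ g.natDegree)
    (hD : 0 < Dk T g) (z : F) : T ≠ z • 1 := by
  intro hz
  have h1 := eq_of_Dk hg hgm hD hz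
  rw [h1, natDegree_X_sub_C] at hdeg
  omega

/-- Two different factors force a nonscalar operator. -/
theorem ns_of_two {T : End F V} {g g' : F[X]} (hg : Irreducible g) (hgm : g.Monic) (hg' : Irreducible g')
    (hgm' : g'.Monic) (hne : g ≠ g') (hD : 0 < Dk T g) (hD' : 0 < Dk T g') (z : F) : T ≠ z • 1 := by
  intro hz
  exact hne ((eq_of_Dk hg hgm hD hz).trans (eq_of_Dk hg' hgm' hD' hz).symm)

end NS

/-- One double field. -/
theorem exists_double (hF : Fintype.card F = q ^ 2) (hr : r.Prime) {g : F[X]} (hg : Irreducible g)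
    (hgr : g ∣ X ^ r - 1) (hg1 : ¬ g ∣ X - 1) (hrq1 : ¬ r ∣ q + 1) :
    ∃ (V : Type u) (_ : AddCommGroup V) (_ : Module F V) (_ : FiniteDimensional F V)
      (B : V → V → F) (T : End F V), Fm (frobHom hF) 1 B ∧ Iso B T ∧ T ^ r = 1 ∧
      finrank F V = 2 * g.natDegree ∧ Dk T (X - 1 : F[X]) = 0 ∧ ∀ z : F, T ≠ z • 1 := by
  classical
  haveI : Fact (Irreducible g) := ⟨hg⟩
  let K := AdjoinRoot g
  haveI : FiniteDimensional F K := (AdjoinRoot.powerBasis hg.ne_zero).finite
  haveI : Finite K := Module.finite_of_finite F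
  have hfin : finrank F K = g.natDegree := by
    rw [(AdjoinRoot.powerBasis hg.ne_zero).finrank, AdjoinRoot.powerBasis_dim]
  let ω : K := AdjoinRoot.root g
  have hω : ω ^ r = 1 := by
    have h1 : AdjoinRoot.mk g (X ^ r - 1) = 0 := (AdjoinRoot.mk_eq_zero).mpr hgr
    rw [map_sub, map_pow, AdjoinRoot.mk_X, map_one, sub_eq_zero] at h1
    exact h1
  have hω0 : ω ≠ 0 := by
    intro h
    rw [h, zero_pow hr.ne_zero] at hω
    exact zero_ne_one hω
  have hω1 : ω ≠ 1 := by
    intro h
    apply hg1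
    rw [← AdjoinRoot.mk_eq_zero, map_sub, AdjoinRoot.mk_X, map_one, sub_eq_zero]
    exact h
  obtain ⟨τ, hτ⟩ := exists_tau (K := K) hF 1
  have hτi : Function.Injective τ := τ.injective
  have hτs : Function.Surjective τ := Finite.injective_iff_surjective.mp hτi
  have hτa : ∀ a : F, τ (algebraMap F K a) = algebraMap F K (frobHom hF a) := by
    intro a
    rw [hτ, pow_one, ← map_pow]
    rfl
  obtain ⟨ω', hω'⟩ := hτs ω⁻¹
  have hx : ω * τ ω' = 1 := by
    rw [hω']
    exact mul_inv_cancel₀ hω0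
  have hω'r : ω' ^ r = 1 := by
    apply hτi
    rw [map_pow, hω', inv_pow, hω, inv_one, map_one]
  have hω'1 : ω' ≠ 1 := by
    intro h
    rw [h, map_one] at hω'
    apply hω1
    rw [← inv_inj, ← hω', inv_one]
  have hDk : ∀ x : K, x ≠ 1 → Dk (Algebra.lmul F K x : End F K) (X - 1 : F[X]) = 0 := by
    intro x hx1
    rw [Dk_lmul, if_neg]
    simp only [map_sub, aeval_X, map_one]
    exact sub_ne_zero.mpr hx1
  refine ⟨K × K, inferInstance, inferInstance, inferInstance, _,
    LinearMap.prodMap (Algebra.lmul F K ω) (Algebra.lmul F K ω'),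
    double_form hF hτs hτa, double_iso _ hx, ?_, ?_, ?_, ?_⟩
  · rw [prodMap_pow, ← map_pow, ← map_pow, hω, hω'r, map_one, LinearMap.prodMap_one]
  · rw [Module.finrank_prod, hfin, two_mul]
  · rw [Dk_prod, hDk ω hω1, hDk ω' hω'1]
  · intro z hz
    have h1 := congrArg (fun S : End F (K × K) => S (1, 0)) hz
    have h2 := congrArg (fun S : End F (K × K) => S (0, 1)) hz
    have h3 : ω * 1 = z • (1 : K) := congrArg Prod.fst h1
    have h4 : ω' * 1 = z • (1 : K) := congrArg Prod.snd h2
    rw [mul_one, Algebra.smul_def, mul_one] at h3 h4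
    have hz1 : z ^ r = 1 := by
      apply (algebraMap F K).injective
      rw [map_pow, ← h3, hω, map_one]
    have hz2 : z ^ (q + 1) = 1 := by
      apply (algebraMap F K).injective
      rw [h3, h4, hτa] at hx
      rw [pow_succ, map_mul, map_one, mul_comm]
      exact hx
    have hz3 : z = 1 := one_of_coprime_pow ((Nat.Prime.coprime_iff_not_dvd hr).mpr hrq1) hz1 hz2
    apply hω1
    rw [h3, hz3, map_one]

/-- Models with a fixed space and several double fields. -/
theorem model_A (hF : Fintype.card F = q ^ 2) (hr : r.Prime) {g : F[X]} (hg : Irreducible g)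
    (hgr : g ∣ X ^ r - 1) (hg1 : ¬ g ∣ X - 1) (hrq1 : ¬ r ∣ q + 1) (a s : ℕ) :
    ∃ (V : Type u) (_ : AddCommGroup V) (_ : Module F V) (_ : FiniteDimensional F V)
      (B : V → V → F) (T : End F V), Fm (frobHom hF) 1 B ∧ Iso B T ∧ T ^ r = 1 ∧
      finrank F V = a + 2 * g.natDegree * s ∧ Dk T (X - 1 : F[X]) = a ∧
      (0 < s → ∀ z : F, T ≠ z • 1) := by
  induction s with
  | zero =>
    refine ⟨Fin a → F, inferInstance, inferInstance, inferInstance, _, 1, triv_fm hF a, triv_iso a,
      one_pow r, ?_, ?_, fun h => absurd h (lt_irrefl _)⟩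
    · simp
    · rw [Dk_one_sub]
      simp
  | succ s ih =>
    obtain ⟨V, _, _, _, B, T, h1, h2, h3, hf, hD, -⟩ := ih
    obtain ⟨V', _, _, _, B', T', h1', h2', h3', hf', hD', hNS'⟩ := exists_double hF hr hg hgr hg1 hrq1
    refine ⟨V × V', inferInstance, inferInstance, inferInstance, _, LinearMap.prodMap T T',
      Fm_prod h1 h1', Iso_prod h2 h2', ?_, ?_, ?_, fun _ => not_scalar_prod_right T hNS'⟩
    · rw [prodMap_pow, h3, h3', LinearMap.prodMap_one]
    · rw [Module.finrank_prod, hf, hf']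
      ring
    · rw [Dk_prod, hD, hD', add_zero]

open scoped _root_.Classical in
/-- Models with a fixed space and one self-dual field for every member of a list. -/
theorem model_B (hF : Fintype.card F = q ^ 2) {e : ℕ} (he : Odd e) (hrq : r ∣ q ^ e + 1) (a : ℕ)
    (l : List F[X])
    (hl : ∀ g ∈ l, Irreducible g ∧ g.Monic ∧ g ∣ X ^ r - 1 ∧ ¬ g ∣ X - 1 ∧ g.natDegree = e) :
    ∃ (V : Type u) (_ : AddCommGroup V) (_ : Module F V) (_ : FiniteDimensional F V)
      (B : V → V → F) (T : End F V), Fm (frobHom hF) 1 B ∧ Iso B T ∧ T ^ r = 1 ∧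
      finrank F V = a + e * l.length ∧ Dk T (X - 1 : F[X]) = a ∧
      (∀ h : F[X], h.Monic → Irreducible h → ¬ h ∣ X - 1 → Dk T h = e * l.count h) := by
  induction l with
  | nil =>
    refine ⟨Fin a → F, inferInstance, inferInstance, inferInstance, _, 1, triv_fm hF a, triv_iso a,
      one_pow r, ?_, ?_, ?_⟩
    · simp
    · rw [Dk_one_sub]
      simp
    · intro h hm hi h1
      rw [Dk_one]
      · simp
      · intro h0
        apply h1
        have h2 : X - C 1 ∣ h := Polynomial.dvd_iff_isRoot.mpr h0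
        have h3 := (Polynomial.irreducible_X_sub_C (1 : F)).dvd_symm hi h2
        simpa using h3
  | cons g l ih =>
    obtain ⟨hg, hgm, hgr, hg1, hgd⟩ := hl g (List.mem_cons_self)
    obtain ⟨V, _, _, _, B, T, h1, h2, h3, hf, hD, hDh⟩ := ih (fun g' hg' => hl g' (List.mem_cons_of_mem _ hg'))
    have hroot : (AdjoinRoot.root g) ^ (q ^ e + 1) = 1 := by
      have h5 : AdjoinRoot.mk g (X ^ r - 1) = 0 := (AdjoinRoot.mk_eq_zero).mpr hgr
      rw [map_sub, map_pow, AdjoinRoot.mk_X, map_one, sub_eq_zero] at h5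
      obtain ⟨c, hc⟩ := hrq
      rw [hc, pow_mul, h5, one_pow]
    obtain ⟨V', _, _, _, B', T', h1', h2', hf', hp', hD'⟩ := exists_line hF hg he hgd hroot
    have h3' : T' ^ r = 1 := by
      have := hp' r 1 (by simpa using hgr)
      rwa [one_smul] at this
    refine ⟨V × V', inferInstance, inferInstance, inferInstance, _, LinearMap.prodMap T T',
      Fm_prod h1 h1', Iso_prod h2 h2', ?_, ?_, ?_, ?_⟩
    · rw [prodMap_pow, h3, h3', LinearMap.prodMap_one]
    · rw [Module.finrank_prod, hf, hf', List.length_cons]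
      ring
    · rw [Dk_prod, hD, hD', if_neg hg1, add_zero]
    · intro k hkm hki hk1
      rw [Dk_prod, hDh k hkm hki hk1, hD', List.count_cons]
      by_cases hgk : g = k
      · subst hgk
        simp
        ring
      · have h4 : ¬ g ∣ k := by
          intro hdvd
          apply hgk
          exact Polynomial.eq_of_monic_of_associated hgm hkm (hg.associated_of_dvd hki hdvd)
        rw [if_neg h4]
        simp [hgk]

/-- Model: order not twice an odd number. -/
theorem exists_alpha_A (hF : Fintype.card F = q ^ 2) (hr : r.Prime) (hrF : (r : F) ≠ 0) (hrq : ¬ r ∣ q)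
    (hrq1 : ¬ r ∣ q + 1) (hr2 : r ≠ 2) {e n : ℕ} (hi : (haveI : Fact r.Prime := ⟨hr⟩; orderOf ((q ^ 2 : ℕ) : ZMod r)) = e)
    (he : 0 < e) (hbig : 2 * e ≤ n) :
    ∃ (V : Type u) (_ : AddCommGroup V) (_ : Module F V) (_ : FiniteDimensional F V)
      (B : V → V → F) (T : End F V), Fm (frobHom hF) 1 B ∧ Iso B T ∧ T ^ r = 1 ∧ finrank F V = n ∧
      Dk T (X - 1 : F[X]) = n % (2 * e) ∧ ∀ z : F, T ≠ z • 1 := by
  classical
  haveI : Fact r.Prime := ⟨hr⟩
  have hrQ : ¬ r ∣ q ^ 2 := fun h => hrq (hr.dvd_of_dvd_pow h)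
  obtain ⟨S, hS, hprod, hcard⟩ := exists_factors hF hr hrF hrQ
  rw [hi] at hS hcard
  have hrpos := hr.two_le
  have hSne : S.Nonempty := by
    rw [← Finset.card_pos]
    rcases Nat.eq_zero_or_pos S.card with h0 | h0
    · rw [h0, zero_mul] at hcard
      omega
    · exact h0
  obtain ⟨g, hg⟩ := hSne
  obtain ⟨hgi, -, hgr, hg1, hgd⟩ := hS g hg
  have hspos : 0 < n / (2 * e) := Nat.div_pos hbig (by omega)
  obtain ⟨V, i1, i2, i3, B, T, h1, h2, h3, hf, hD, hNS⟩ := model_A hF hr hgi hgr hg1 hrq1 (n % (2 * e)) (n / (2 * e))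
  refine ⟨V, i1, i2, i3, B, T, h1, h2, h3, ?_, hD, hNS hspos⟩
  rw [hf, hgd]
  exact Nat.mod_add_div _ _

/-- Model: self-dual case, residue. -/
theorem exists_alpha_B (hF : Fintype.card F = q ^ 2) (hr : r.Prime) (hrF : (r : F) ≠ 0) (hrq : ¬ r ∣ q)
    (hr2 : r ≠ 2) {e n : ℕ} (hi : (haveI : Fact r.Prime := ⟨hr⟩; orderOf ((q ^ 2 : ℕ) : ZMod r)) = e)
    (he : Odd e) (he1 : e ≠ 1) (hrq' : r ∣ q ^ e + 1) (hbig : e ≤ n) :
    ∃ (V : Type u) (_ : AddCommGroup V) (_ : Module F V) (_ : FiniteDimensional F V)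
      (B : V → V → F) (T : End F V), Fm (frobHom hF) 1 B ∧ Iso B T ∧ T ^ r = 1 ∧ finrank F V = n ∧
      Dk T (X - 1 : F[X]) = n % e ∧ ∀ z : F, T ≠ z • 1 := by
  classical
  haveI : Fact r.Prime := ⟨hr⟩
  have hrQ : ¬ r ∣ q ^ 2 := fun h => hrq (hr.dvd_of_dvd_pow h)
  obtain ⟨S, hS, hprod, hcard⟩ := exists_factors hF hr hrF hrQ
  rw [hi] at hS hcard
  have hrpos := hr.two_le
  have hSne : S.Nonempty := by
    rw [← Finset.card_pos]
    rcases Nat.eq_zero_or_pos S.card with h0 | h0
    · rw [h0, zero_mul] at hcard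
      omega
    · exact h0
  obtain ⟨g, hg⟩ := hSne
  have hepos := he.pos
  have hspos : 0 < n / e := Nat.div_pos hbig hepos
  obtain ⟨V, i1, i2, i3, B, T, h1, h2, h3, hf, hD, hDh⟩ := model_B hF he hrq' (n % e)
    (List.replicate (n / e) g) (by
      intro g' hg'
      rw [List.eq_of_mem_replicate hg']
      exact hS g hg)
  obtain ⟨hgi, hgm, hgr, hg1, hgd⟩ := hS g hg
  refine ⟨V, i1, i2, i3, B, T, h1, h2, h3, ?_, hD, ?_⟩
  · rw [hf, List.length_replicate]
    exact Nat.mod_add_div _ _
  · apply ns_of_deg hgi hgm (by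
      rw [hgd]
      obtain ⟨t, ht⟩ := he
      omega)
    rw [hDh g hgm hgi hg1, List.count_replicate_self]
    positivity

/-- Model: self-dual case, too many factors. -/
theorem exists_beta_B (hF : Fintype.card F = q ^ 2) (hr : r.Prime) (hrF : (r : F) ≠ 0) (hrq : ¬ r ∣ q)
    (hr2 : r ≠ 2) {e n m : ℕ} (hi : (haveI : Fact r.Prime := ⟨hr⟩; orderOf ((q ^ 2 : ℕ) : ZMod r)) = e)
    (he : Odd e) (he1 : e ≠ 1) (hrq' : r ∣ q ^ e + 1) (hm : e ≤ m) (hmn : 2 * m ≤ n)
    (hbig : n / e < (r - 1) / e + 2 * (m / e)) :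
    ∃ (V : Type u) (_ : AddCommGroup V) (_ : Module F V) (_ : FiniteDimensional F V)
      (B : V → V → F) (T : End F V), Fm (frobHom hF) 1 B ∧ Iso B T ∧ T ^ r = 1 ∧ finrank F V = n ∧
      (∀ z : F, T ≠ z • 1) ∧ ∀ W : Submodule F V, TI B W → Inv T W → finrank F W ≠ m := by
  classical
  haveI : Fact r.Prime := ⟨hr⟩
  have hrQ : ¬ r ∣ q ^ 2 := fun h => hrq (hr.dvd_of_dvd_pow h)
  obtain ⟨S, hS, hprod, hcard⟩ := exists_factors hF hr hrF hrQ
  rw [hi] at hS hcard
  have hrpos := hr.two_le
  have hepos : 0 < e := he.pos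
  have hSpos : 0 < S.card := by
    rcases Nat.eq_zero_or_pos S.card with h0 | h0
    · rw [h0, zero_mul] at hcard
      omega
    · exact h0
  obtain ⟨g₀, hg₀⟩ := Finset.card_pos.mp hSpos
  set t := S.card with ht
  have htdiv : (r - 1) / e = t := by
    rw [← hcard, Nat.mul_div_cancel _ hepos]
  rw [htdiv] at hbig
  set k := n % e with hk
  have hklt : k < e := Nat.mod_lt _ hepos
  set n₁ := n / e with hn₁
  have hdn : k + e * n₁ = n := Nat.mod_add_div _ _
  have hm1 : 1 ≤ m / e := (Nat.one_le_div_iff hepos).mpr hm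
  have hn2 : 2 ≤ n₁ := by
    rw [hn₁, Nat.le_div_iff_mul_le hepos]
    omega
  set u := (n₁ + t) % 2 with hu
  have hu1 : u ≤ 1 := by omega
  set N := n₁ - u with hN
  have hNpar : ∀ h : t ≤ N, Even (N - t) := by
    intro h
    rw [Nat.even_iff]
    omega
  let L := S.toList
  have hLnd : L.Nodup := S.nodup_toList
  have hLmem : ∀ g, g ∈ L ↔ g ∈ S := fun g => Finset.mem_toList
  have hLlen : L.length = t := Finset.length_toList S
  let l := L.take N ++ List.replicate (N - t) g₀
  have hllen : l.length = N := by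
    simp only [l, List.length_append, List.length_take, List.length_replicate, hLlen]
    omega
  have hlmem : ∀ g ∈ l, g ∈ S := by
    intro g hg
    rcases List.mem_append.mp hg with h1 | h1
    · exact (hLmem g).mp (List.mem_of_mem_take h1)
    · rw [List.eq_of_mem_replicate h1]
      exact hg₀
  obtain ⟨V, i1, i2, i3, B, T, hB, hT, hTr, hf, hD, hDh⟩ := model_B hF he hrq'
    (k + e * u) l (fun g hg => hS g (hlmem g hg))
  have hNpos : 0 < N := by omega
  refine ⟨V, i1, i2, i3, B, T, hB, hT, hTr, ?_, ?_, ?_⟩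
  · rw [hf, hllen, ← hdn]
    have : n₁ = u + N := by omega
    rw [this]
    ring
  · obtain ⟨g₁, hg₁⟩ : ∃ g₁, g₁ ∈ l := by
      apply List.exists_mem_of_ne_nil
      intro h0
      have := congrArg List.length h0
      rw [hllen] at this
      simp at this
      omega
    obtain ⟨hgi, hgm, hgr, hg1, hgd⟩ := hS g₁ (hlmem g₁ hg₁)
    apply ns_of_deg hgi hgm (by
      rw [hgd]
      obtain ⟨t, ht⟩ := he
      omega)
    rw [hDh g₁ hgm hgi hg1]
    have := List.count_pos_iff.mpr hg₁
    positivity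
  · intro W hTI hInv hWm
    obtain ⟨t₀, w, hW, h2, h3⟩ := bound_beta hF hB hT hTr hr hrF he hrq' hS hprod hTI hInv
    rw [hD] at h2
    have hsum := arith_unique hepos (hWm.symm.trans hW) h2 hklt hu1
    have hcount : ∀ g ∈ S, 2 * w g ≤ l.count g := by
      intro g hg
      have h4 := h3 g hg
      obtain ⟨hgi, hgm, hgr, hg1, hgd⟩ := hS g hg
      rw [hDh g hgm hgi hg1] at h4
      have h5 : e * (2 * w g) ≤ e * l.count g := by
        calc e * (2 * w g) = 2 * (e * w g) := by ring
          _ ≤ _ := h4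
      exact Nat.le_of_mul_le_mul_left h5 hepos
    have hcount1 : ∀ g ∈ S, g ≠ g₀ → w g = 0 := by
      intro g hg hne
      have h4 := hcount g hg
      have h5 : l.count g ≤ 1 := by
        simp only [l, List.count_append]
        have h6 : (L.take N).count g ≤ 1 :=
          List.nodup_iff_count_le_one.mp (hLnd.sublist (List.take_sublist _ _)) g
        have h7 : (List.replicate (N - t) g₀).count g = 0 := by
          rw [List.count_replicate]
          simp [Ne.symm hne]
        omega
      omega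
    have hcount0 : l.count g₀ ≤ 1 + (N - t) := by
      simp only [l, List.count_append]
      have h6 : (L.take N).count g₀ ≤ 1 :=
        List.nodup_iff_count_le_one.mp (hLnd.sublist (List.take_sublist _ _)) g₀
      have h7 : (List.replicate (N - t) g₀).count g₀ = N - t := by
        simp
      omega
    have hsum1 : ∑ g ∈ S, w g = w g₀ := Finset.sum_eq_single g₀
      (fun g hg hne => hcount1 g hg hne) (fun h => absurd hg₀ h)
    rw [hsum1] at hsum
    have h8 := hcount g₀ hg₀
    by_cases hle : t ≤ N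
    · have h9 := hNpar hle
      rw [Nat.even_iff] at h9
      omega
    · have : N - t = 0 := by omega
      omega

end Cfsg.Agent.Lib.ElusF.HzModel
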