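import Cfsg.Agent.Lib.ElusF.HzAdj
import Cfsg.Agent.Lib.ElusF.SpPos2

/-!
# Unitary isometries of prime order: minimal invariant subspaces, existence of invariant subspaces
-/

set_option autoImplicit false
set_option linter.unusedSectionVars false
set_option linter.style.haveILetI false
set_option linter.unusedVariables false

open Polynomial Module

universe u

namespace Cfsg.Agent.Lib.ElusF.HzTI

open Cfsg.Agent.Lib.ElusL.Basic Cfsg.Agent.Lib.ElusL.Flag Cfsg.Agent.Lib.ElusL.Cyc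
  Cfsg.Agent.Lib.ElusL.Pos Cfsg.Agent.Lib.ElusF.Form Cfsg.Agent.Lib.ElusF.Step
  Cfsg.Agent.Lib.ElusF.Split Cfsg.Agent.Lib.ElusF.SpModel Cfsg.Agent.Lib.ElusF.SpNeg
  Cfsg.Agent.Lib.HermCount.Field Cfsg.Agent.Lib.ElusF.HzBase Cfsg.Agent.Lib.ElusF.HzAdj
  Cfsg.Agent.Lib.ElusF.HzArith

variable {F : Type*} [Field F] [Fintype F] {q r : ℕ} {V : Type*} [AddCommGroup V] [Module F V]
  {B : V → V → F}

/-- Divisibility from the annihilator of a vector. -/
theorem dvd_of_vec {T : End F V} {g P : F[X]} (hg : Irreducible g) {v : V} (hv0 : v ≠ 0)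
    (hgv : Polynomial.aeval T g v = 0) (hPv : Polynomial.aeval T P v = 0) : g ∣ P := by
  by_contra hne
  obtain ⟨a, b, hab⟩ := hg.coprime_iff_not_dvd.mpr hne
  have h2 : Polynomial.aeval T (a * g + b * P) v = v := by
    rw [hab]
    simp
  rw [map_add, LinearMap.add_apply, map_mul, map_mul, Module.End.mul_apply, Module.End.mul_apply, hgv, hPv,
    map_zero, map_zero, add_zero] at h2
  exact hv0 h2.symm

/-- Self-duality of a factor forces `q ^ (2 j + 1) ≡ -1`. -/
theorem arith_of_selfdual (hF : Fintype.card F = q ^ 2) (hr : r.Prime) (hrF : (r : F) ≠ 0)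
    (hrq : ¬ r ∣ q) {g : F[X]} (hg : Irreducible g) (hgd : g ∣ Phi F r)
    (hself : g ∣ expand F (r - 1) (g.map (frobHom hF))) : ∃ j, r ∣ q ^ (2 * j + 1) + 1 := by
  classical
  haveI : Fact (Irreducible g) := ⟨hg⟩
  haveI : Fact r.Prime := ⟨hr⟩
  haveI := finiteDimensional_adjoin (F := F) hg
  let L := AdjoinRoot g
  haveI : Finite L := Module.finite_of_finite F
  haveI : Fintype L := Fintype.ofFinite L
  set θ : L := AdjoinRoot.root g with hθ
  have hgθ : Polynomial.aeval θ g = 0 := by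
    rw [hθ, AdjoinRoot.aeval_eq]
    exact AdjoinRoot.mk_self
  have hΦ : Polynomial.aeval θ (Phi F r) = 0 := by
    obtain ⟨A, hA⟩ := hgd
    rw [hA, map_mul, hgθ, zero_mul]
  have hθr : θ ^ r = 1 := by
    have h1 := congrArg (Polynomial.aeval θ) (Phi_mul (F := F) r)
    rw [map_mul, hΦ, mul_zero] at h1
    simp only [map_sub, map_pow, aeval_X, map_one] at h1
    exact (sub_eq_zero.mp h1.symm)
  have hθ1 : θ ≠ 1 := by
    intro h
    rw [h] at hΦ
    have h2 : Polynomial.aeval (1 : L) (Phi F r) = algebraMap F L ((Phi F r).eval 1) := by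
      rw [← Polynomial.aeval_algebraMap_apply_eq_algebraMap_eval]
      simp
    rw [h2, Phi_eval_one] at hΦ
    exact hrF ((map_eq_zero _).mp hΦ)
  have hord : orderOf θ = r := orderOf_eq_prime hθr hθ1
  have hprim : IsPrimitiveRoot θ r := hord ▸ IsPrimitiveRoot.orderOf θ
  have hmodeq : ∀ a b : ℕ, θ ^ a = θ ^ b → a ≡ b [MOD r] := by
    intro a b hab
    apply hprim.pow_inj (Nat.mod_lt _ hr.pos) (Nat.mod_lt _ hr.pos)
    rw [← hord, pow_mod_orderOf, pow_mod_orderOf]
    exact hab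
  -- the image of the polynomial
  have h1 : Polynomial.aeval (θ ^ (r - 1)) (g.map (frobHom hF)) = 0 := by
    obtain ⟨A, hA⟩ := hself
    have h2 := congrArg (Polynomial.aeval θ) hA
    rw [expand_aeval, map_mul, hgθ, zero_mul] at h2
    exact h2
  obtain ⟨e, he⟩ := exists_exp (r := r) hrq
  have h2 : (θ ^ e) ^ (q ^ 1) = θ ^ (r - 1) := by
    rw [← pow_mul, pow_one, ← he, ← hord, mul_comm, pow_mod_orderOf]
  have h3 : Polynomial.aeval (θ ^ e) g = 0 := by
    have h4 := aeval_frob hF odd_one (θ ^ e) g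
    rw [h2, h1] at h4
    exact pow_eq_zero_iff (by have := two_le hF; positivity) |>.mp h4
  -- the list of roots
  set Q := q ^ 2 with hQ
  have hrQ : ¬ r ∣ Q := by
    intro h
    exact hrq (hr.dvd_of_dvd_pow h)
  have hdeg : g.natDegree = orderOf (Q : ZMod r) := natDegree_factor hF hr hrF hrQ hg hgd
  have hroot : ∀ j, Polynomial.aeval (θ ^ (Q ^ j)) g = 0 := by
    intro j
    induction j with
    | zero => simpa using hgθ
    | succ j ih =>
      have h5 := FiniteField.expand_card (K := F) g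
      rw [hF] at h5
      have h6 : Polynomial.aeval (θ ^ (Q ^ j)) (expand F (q ^ 2) g) = 0 := by
        rw [h5, map_pow, ih, zero_pow (by have := two_le hF; positivity)]
      rw [expand_aeval, ← pow_mul, ← pow_succ] at h6
      exact h6
  set d := g.natDegree with hd
  have hdpos : 0 < d := hg.natDegree_pos
  let f : Fin d → L := fun j => θ ^ (Q ^ (j : ℕ))
  have hinj : Function.Injective f := by
    intro a b hab
    have h5 : Q ^ (a : ℕ) ≡ Q ^ (b : ℕ) [MOD r] := hmodeq _ _ hab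
    have h6 : ((Q : ZMod r)) ^ (a : ℕ) = (Q : ZMod r) ^ (b : ℕ) := by
      have := (ZMod.natCast_eq_natCast_iff _ _ _).mpr h5
      simpa using this
    have h7 := pow_injOn_Iio_orderOf (x := (Q : ZMod r)) (by
      simp only [Set.mem_Iio, ← hdeg]
      exact a.2) (by
      simp only [Set.mem_Iio, ← hdeg]
      exact b.2) h6
    exact Fin.ext h7
  have hsub : Finset.image f Finset.univ ⊆ (g.aroots L).toFinset := by
    intro x hx
    obtain ⟨j, -, rfl⟩ := Finset.mem_image.mp hx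
    rw [Multiset.mem_toFinset, mem_aroots]
    exact ⟨hg.ne_zero, hroot j⟩
  have hcard1 : (Finset.image f Finset.univ).card = d := by
    rw [Finset.card_image_of_injective _ hinj]
    simp
  have hcard2 : (g.aroots L).toFinset.card ≤ d := by
    refine (Multiset.toFinset_card_le _).trans ?_
    exact (card_roots' _).trans (natDegree_map_le)
  have heq : Finset.image f Finset.univ = (g.aroots L).toFinset :=
    Finset.eq_of_subset_of_card_le hsub (by omega)
  have hmem : θ ^ e ∈ Finset.image f Finset.univ := by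
    rw [heq, Multiset.mem_toFinset, mem_aroots]
    exact ⟨hg.ne_zero, h3⟩
  obtain ⟨j, -, hj⟩ := Finset.mem_image.mp hmem
  have hj' : Q ^ (j : ℕ) ≡ e [MOD r] := hmodeq _ _ hj
  refine ⟨j, ?_⟩
  have h5 : q * Q ^ (j : ℕ) ≡ q * e [MOD r] := Nat.ModEq.mul_left q hj'
  have h6 : q ^ (2 * (j : ℕ) + 1) = q * Q ^ (j : ℕ) := by
    rw [hQ, ← pow_mul, pow_succ, mul_comm]
  rw [h6]
  apply (Nat.modEq_zero_iff_dvd).mp
  have h7 : q * Q ^ (j : ℕ) + 1 ≡ (r - 1) + 1 [MOD r] := by
    apply Nat.ModEq.add_right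
    refine h5.trans ?_
    unfold Nat.ModEq
    rw [he, Nat.mod_eq_of_lt (by have := hr.pos; omega)]
  have h8 : r - 1 + 1 = r := Nat.sub_add_cancel hr.one_le
  rw [h8] at h7
  exact h7.trans (by simp [Nat.ModEq])

variable [FiniteDimensional F V]

/-- For order not twice an odd number, no minimal invariant subspace is nondegenerate. -/
theorem nd_min_false (hF : Fintype.card F = q ^ 2) (hB : Fm (frobHom hF) 1 B) {T : End F V} (hT : Iso B T)
    (hTr : T ^ r = 1) (hr : r.Prime) (hr2 : r ≠ 2) (hrF : (r : F) ≠ 0) (hrq : ¬ r ∣ q)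
    (hi : (haveI : Fact r.Prime := ⟨hr⟩; orderOf (q : ZMod r)) % 4 ≠ 2) {W : Submodule F V}
    (hW₁ : W ≤ LinearMap.ker (Polynomial.aeval T (Phi F r))) (hWi : Inv T W) (hW : Nd B W)
    (hWd : finrank F W = orderOf ((q ^ 2 : ℕ) : ZMod r)) (hpos : 0 < finrank F W) : False := by
  classical
  haveI : Fact r.Prime := ⟨hr⟩
  have hrQ : ¬ r ∣ q ^ 2 := fun h => hrq (hr.dvd_of_dvd_pow h)
  obtain ⟨S, hS, hprod, -⟩ := exists_factors hF hr hrF hrQ
  have hcop : ∀ g ∈ S, ∀ k ∈ S, g ≠ k → IsCoprime g k := by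
    intro g hg k hk hne
    obtain ⟨hgi, hgm, -⟩ := hS g hg
    obtain ⟨hki, hkm, -⟩ := hS k hk
    refine hgi.coprime_iff_not_dvd.mpr ?_
    intro hd
    exact hne (Polynomial.eq_of_monic_of_associated hgm hkm (hgi.associated_of_dvd hki hd))
  obtain ⟨g, hgS, hgpos⟩ := exists_fac hr hcop hprod hWi hW₁ hpos
  obtain ⟨hgi, -, hgr, hg1, hgd⟩ := hS g hgS
  have hgΦ : g ∣ Phi F r := by
    rw [← hprod]
    exact Finset.dvd_prod_of_mem _ hgS
  -- `W` is contained in the kernel of `g`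
  have hdvd := natDegree_dvd_inf hgi hWi
  have hle := Nat.le_of_dvd hgpos hdvd
  have hWg : W ⊓ LinearMap.ker (Polynomial.aeval T g) = W :=
    Submodule.eq_of_le_of_finrank_le inf_le_left (by rw [hWd, ← hgd]; exact hle)
  have hWg' : ∀ u ∈ W, Polynomial.aeval T g u = 0 := by
    intro u hu
    rw [← hWg] at hu
    exact LinearMap.mem_ker.mp hu.2
  obtain ⟨⟨v, hvW⟩, hv0⟩ : ∃ v : W, v ≠ 0 := by
    haveI := Module.nontrivial_of_finrank_pos (R := F) hpos
    exact exists_ne 0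
  have hv0' : v ≠ 0 := fun h => hv0 (Subtype.ext h)
  have hW' : Inv (T ^ (r - 1)) W := by
    have := hWi.aeval (X ^ (r - 1))
    intro x hx
    have h2 := this x hx
    simpa using h2
  have hzero : Polynomial.aeval (T ^ (r - 1)) (g.map (frobHom hF)) v = 0 := by
    apply hW _ (hW'.aeval _ v hvW)
    intro u hu
    rw [hB.eq_zero_comm, ← adj_aeval hB hT hTr hr.ne_zero, hWg' u hu]
    exact hB.zero_l v
  have hself : g ∣ expand F (r - 1) (g.map (frobHom hF)) := by
    apply dvd_of_vec hgi hv0' (hWg' v hvW)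
    rw [expand_aeval]
    exact hzero
  obtain ⟨j, hj⟩ := arith_of_selfdual hF hr hrF hrq hgi hgΦ hself
  exact hi (mod_four_of_dvd hr2 (l := 2 * j + 1) ⟨j, rfl⟩ hj).1

/-- For order not twice an odd number, minimal invariant subspaces are totally isotropic. -/
theorem ti_min (hF : Fintype.card F = q ^ 2) (hB : Fm (frobHom hF) 1 B) {T : End F V} (hT : Iso B T)
    (hTr : T ^ r = 1) (hr : r.Prime) (hr2 : r ≠ 2) (hrF : (r : F) ≠ 0) (hrq : ¬ r ∣ q)
    (hi : (haveI : Fact r.Prime := ⟨hr⟩; orderOf (q : ZMod r)) % 4 ≠ 2) {U : Submodule F V}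
    (hU₁ : U ≤ LinearMap.ker (Polynomial.aeval T (Phi F r))) (hUi : Inv T U) (hpos : 0 < finrank F U) :
    ∃ W : Submodule F V, W ≤ U ∧ TI B W ∧ Inv T W ∧ finrank F W = orderOf ((q ^ 2 : ℕ) : ZMod r) := by
  haveI : Fact r.Prime := ⟨hr⟩
  have hrQ : ¬ r ∣ q ^ 2 := fun h => hrq (hr.dvd_of_dvd_pow h)
  set d := orderOf ((q ^ 2 : ℕ) : ZMod r) with hd
  have hPhi0 := Phi_ne_zero (F := F) hr
  have hdeg : ∀ g, Irreducible g → g ∣ Phi F r → g.natDegree = d :=
    fun g hg hgd => natDegree_factor hF hr hrF hrQ hg hgd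
  have hinj : Function.Injective T :=
    inj_of_pow (c := 1) one_ne_zero hr.ne_zero (by rw [hTr, one_smul])
  obtain ⟨W, hWU, hWi, hWd⟩ := exists_sub hPhi0 hdeg hUi hU₁ hpos
  refine ⟨W, hWU, ?_, hWi, hWd⟩
  have hdpos : 0 < d := ord_pos hr hrQ
  set K := W ⊓ hB.orth W with hK
  have hKi : Inv T K := hB.inv_inf hWi (hB.inv_orth hT hinj hWi)
  have hKV : K ≤ LinearMap.ker (Polynomial.aeval T (Phi F r)) :=
    (inf_le_left.trans hWU).trans hU₁
  have hdvd : d ∣ finrank F K := by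
    have := dvd_finrank_inf hPhi0 hdeg hKi
    rwa [inf_eq_left.mpr hKV] at this
  have hle : finrank F K ≤ d := by
    rw [← hWd]
    exact Submodule.finrank_mono inf_le_left
  rcases Nat.eq_zero_or_pos (finrank F K) with h0 | h0
  · exfalso
    have hbot : K = ⊥ := Submodule.finrank_eq_zero.mp h0
    have hnd : Nd B W := by
      rw [hB.nd_iff_disjoint, disjoint_iff]
      exact hbot
    exact nd_min_false hF hB hT hTr hr hr2 hrF hrq hi (hWU.trans hU₁) hWi hnd hWd (by omega)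
  · have h1 : finrank F K = d := le_antisymm hle (Nat.le_of_dvd h0 hdvd)
    have h2 : K = W := Submodule.eq_of_le_of_finrank_eq inf_le_left (by rw [h1, hWd])
    rw [hB.ti_iff_le_orth]
    rw [← h2]
    exact inf_le_right.trans (by rw [h2])

/-- Nondegenerate pieces of twice the degree. -/
theorem step_A (hF : Fintype.card F = q ^ 2) (hB : Fm (frobHom hF) 1 B) {T : End F V} (hT : Iso B T)
    (hTr : T ^ r = 1) (hr : r.Prime) (hr2 : r ≠ 2) (hrF : (r : F) ≠ 0) (hrq : ¬ r ∣ q)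
    (hi : (haveI : Fact r.Prime := ⟨hr⟩; orderOf (q : ZMod r)) % 4 ≠ 2) {U : Submodule F V}
    (hU₁ : U ≤ LinearMap.ker (Polynomial.aeval T (Phi F r))) (hU : Nd B U) (hUi : Inv T U)
    (hpos : 0 < finrank F U) :
    ∃ C : Submodule F V, C ≤ U ∧ Nd B C ∧ Inv T C ∧ finrank F C = 2 * orderOf ((q ^ 2 : ℕ) : ZMod r) := by
  have hinj : Function.Injective T :=
    inj_of_pow (c := 1) one_ne_zero hr.ne_zero (by rw [hTr, one_smul])
  have hss : SS T := ss_of_pow hrF one_ne_zero (by rw [hTr, one_smul])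
  obtain ⟨W, h1, h2, h3, h4⟩ := ti_min hF hB hT hTr hr hr2 hrF hrq hi hU₁ hUi hpos
  obtain ⟨C, -, h6, h7, h8, h9⟩ := hyp_piece hB hT hinj hss hU hUi h1 h2 h3
  exact ⟨C, h6, h7, h8, by rw [h9, h4]⟩

/-- Fixed-point-free nondegenerate parts have dimension divisible by twice the degree. -/
theorem two_mul_dvd (hF : Fintype.card F = q ^ 2) (hB : Fm (frobHom hF) 1 B) {T : End F V} (hT : Iso B T)
    (hTr : T ^ r = 1) (hr : r.Prime) (hr2 : r ≠ 2) (hrF : (r : F) ≠ 0) (hrq : ¬ r ∣ q)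
    (hi : (haveI : Fact r.Prime := ⟨hr⟩; orderOf (q : ZMod r)) % 4 ≠ 2) :
    ∀ (k : ℕ) (U : Submodule F V), finrank F U = k →
      U ≤ LinearMap.ker (Polynomial.aeval T (Phi F r)) → Nd B U → Inv T U →
      2 * orderOf ((q ^ 2 : ℕ) : ZMod r) ∣ k := by
  haveI : Fact r.Prime := ⟨hr⟩
  have hrQ : ¬ r ∣ q ^ 2 := fun h => hrq (hr.dvd_of_dvd_pow h)
  have hdpos : 0 < orderOf ((q ^ 2 : ℕ) : ZMod r) := ord_pos hr hrQ
  intro k
  induction k using Nat.strong_induction_on with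
  | _ k ih =>
    intro U hk hU₁ hU hUi
    rcases Nat.eq_zero_or_pos k with rfl | hpos
    · exact dvd_zero _
    · have hinj : Function.Injective T :=
        inj_of_pow (c := 1) one_ne_zero hr.ne_zero (by rw [hTr, one_smul])
      have hss : SS T := ss_of_pow hrF one_ne_zero (by rw [hTr, one_smul])
      obtain ⟨W, hWU, hW, hWi, hWd⟩ := ti_min hF hB hT hTr hr hr2 hrF hrq hi hU₁ hUi (by omega)
      obtain ⟨U', hU'U, -, hU', hU'i, -, hdim⟩ := step hB hT hinj hss hU hUi hWU hW hWi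
      rw [hWd] at hdim
      have h1 := ih _ (by omega) U' rfl (hU'U.trans hU₁) hU' hU'i
      have h2 : k = finrank F U' + 2 * orderOf ((q ^ 2 : ℕ) : ZMod r) := by omega
      rw [h2]
      exact Dvd.dvd.add h1 dvd_rfl

/-- Invariant isotropic subspaces when the order is not twice an odd number. -/
theorem pos_A (hF : Fintype.card F = q ^ 2) (hB : Fm (frobHom hF) 1 B) {T : End F V} (hT : Iso B T)
    (hTr : T ^ r = 1) (hr : r.Prime) (hr2 : r ≠ 2) (hrF : (r : F) ≠ 0) (hrq : ¬ r ∣ q)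
    (hi : (haveI : Fact r.Prime := ⟨hr⟩; orderOf (q : ZMod r)) % 4 ≠ 2) {m : ℕ} (hm : 2 * m ≤ finrank F V)
    (hmod : 2 * (m % orderOf ((q ^ 2 : ℕ) : ZMod r)) ≤
      finrank F V % (2 * orderOf ((q ^ 2 : ℕ) : ZMod r))) :
    ∃ W : Submodule F V, TI B W ∧ Inv T W ∧ finrank F W = m := by
  haveI : Fact r.Prime := ⟨hr⟩
  have hrQ : ¬ r ∣ q ^ 2 := fun h => hrq (hr.dvd_of_dvd_pow h)
  have hipos : 0 < orderOf ((q ^ 2 : ℕ) : ZMod r) := ord_pos hr hrQ
  set i := orderOf ((q ^ 2 : ℕ) : ZMod r) with hidef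
  have hinj : Function.Injective T :=
    inj_of_pow (c := 1) one_ne_zero hr.ne_zero (by rw [hTr, one_smul])
  have hss : SS T := ss_of_pow hrF one_ne_zero (by rw [hTr, one_smul])
  set K₀ := LinearMap.ker (Polynomial.aeval T (X - 1 : F[X])) with hK₀
  set K₁ := LinearMap.ker (Polynomial.aeval T (Phi F r)) with hK₁
  have hnd0 : Nd B K₀ := by
    have := nd0 hB hT hrF hTr hB.nd_top (U := ⊤) (fun v _ => trivial)
    rwa [top_inf_eq] at this
  have hnd1 : Nd B K₁ := by
    have := nd1 hB hT hrF hTr hB.nd_top (U := ⊤) (fun v _ => trivial)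
    rwa [top_inf_eq] at this
  have hsum : finrank F V = finrank F K₀ + finrank F K₁ := by
    have := (split01 hrF hTr (U := ⊤) (fun v _ => trivial)).2
    rwa [top_inf_eq, top_inf_eq, finrank_top] at this
  obtain ⟨s₁, hs₁⟩ := two_mul_dvd hF hB hT hTr hr hr2 hrF hrq hi _ K₁ rfl le_rfl hnd1 (inv_ker T _)
  rw [← hidef] at hs₁
  have hmodk : finrank F V % (2 * i) = finrank F K₀ % (2 * i) := by
    rw [hsum, hs₁, Nat.add_mul_mod_self_left]
  have hkle : finrank F V % (2 * i) ≤ finrank F K₀ := by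
    rw [hmodk]
    exact Nat.mod_le _ _
  have hm' := Nat.div_add_mod m i
  set m' := m / i with hm'def
  set l := m % i with hldef
  set s := min m' s₁ with hs
  have hsm : s ≤ m' := min_le_left _ _
  have hss₁ : s ≤ s₁ := min_le_right _ _
  have hle : i * s ≤ i * m' := Nat.mul_le_mul_left i hsm
  have hle₁ : i * s ≤ i * s₁ := Nat.mul_le_mul_left i hss₁
  have hb : finrank F K₁ = 2 * (i * s₁) := by
    rw [hs₁]
    ring
  obtain ⟨W₁, h1, h2, h3, h4⟩ := cap hB hT hinj hss (e := 0) (d := i) (U₀ := K₁)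
    (fun U hU _ hUi hpos => ti_min hF hB hT hTr hr hr2 hrF hrq hi hU hUi hpos) s K₁ le_rfl hnd1
    (inv_ker T _) (by
      rcases Nat.eq_zero_or_pos s with h0 | h0
      · exact Or.inl h0
      · right
        have h5 : i * (s - 1) < i * s₁ := Nat.mul_lt_mul_of_pos_left (by omega) hipos
        have h6 : 2 * i * (s - 1) = 2 * (i * (s - 1)) := by ring
        omega)
  have ht0 : 2 * (m - i * s) ≤ finrank F K₀ := by
    by_cases hc : m' ≤ s₁
    · have h5 : s = m' := min_eq_left hc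
      rw [h5]
      omega
    · have h5 : s = s₁ := min_eq_right (by omega)
      rw [h5]
      omega
  obtain ⟨W₀, h5, h6, h7, h8⟩ := ti0_cap hF hB hT hinj hss le_rfl hnd0 ht0
  obtain ⟨h9, h10, h11⟩ := combine_ti hB hT hrF h5 h1 h6 h2 h7 h3
  refine ⟨W₀ ⊔ W₁, h9, h10, ?_⟩
  rw [h11, h8, h4]
  omega

/-- Invariant isotropic subspaces in the self-dual case. -/
theorem pos_B (hF : Fintype.card F = q ^ 2) (hB : Fm (frobHom hF) 1 B) {T : End F V} (hT : Iso B T)
    (hTr : T ^ r = 1) (hr : r.Prime) (hrF : (r : F) ≠ 0) (hrq : ¬ r ∣ q)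
    {m : ℕ} (hm : 2 * m ≤ finrank F V)
    (hmod : 2 * (m % orderOf ((q ^ 2 : ℕ) : ZMod r)) ≤ finrank F V % orderOf ((q ^ 2 : ℕ) : ZMod r))
    (hbig : (r - 1) / orderOf ((q ^ 2 : ℕ) : ZMod r) + 2 * (m / orderOf ((q ^ 2 : ℕ) : ZMod r)) ≤
      finrank F V / orderOf ((q ^ 2 : ℕ) : ZMod r)) :
    ∃ W : Submodule F V, TI B W ∧ Inv T W ∧ finrank F W = m := by
  classical
  haveI : Fact r.Prime := ⟨hr⟩
  have hrQ : ¬ r ∣ q ^ 2 := fun h => hrq (hr.dvd_of_dvd_pow h)
  have hipos : 0 < orderOf ((q ^ 2 : ℕ) : ZMod r) := ord_pos hr hrQ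
  obtain ⟨S, hS, hprod, hcard⟩ := exists_factors hF hr hrF hrQ
  set i := orderOf ((q ^ 2 : ℕ) : ZMod r) with hidef
  have hinj : Function.Injective T :=
    inj_of_pow (c := 1) one_ne_zero hr.ne_zero (by rw [hTr, one_smul])
  have hss : SS T := ss_of_pow hrF one_ne_zero (by rw [hTr, one_smul])
  have hPhi0 := Phi_ne_zero (F := F) hr
  have hdeg : ∀ g, Irreducible g → g ∣ Phi F r → g.natDegree = i :=
    fun g hg hgd => natDegree_factor hF hr hrF hrQ hg hgd
  set K₀ := LinearMap.ker (Polynomial.aeval T (X - 1 : F[X])) with hK₀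
  set K₁ := LinearMap.ker (Polynomial.aeval T (Phi F r)) with hK₁
  have hnd0 : Nd B K₀ := by
    have := nd0 hB hT hrF hTr hB.nd_top (U := ⊤) (fun v _ => trivial)
    rwa [top_inf_eq] at this
  have hnd1 : Nd B K₁ := by
    have := nd1 hB hT hrF hTr hB.nd_top (U := ⊤) (fun v _ => trivial)
    rwa [top_inf_eq] at this
  have hsum : finrank F V = finrank F K₀ + finrank F K₁ := by
    have := (split01 hrF hTr (U := ⊤) (fun v _ => trivial)).2
    rwa [top_inf_eq, top_inf_eq, finrank_top] at this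
  obtain ⟨n₁, hn₁⟩ : i ∣ finrank F K₁ := by
    have := dvd_finrank_inf hPhi0 hdeg (T := T) (W := ⊤) (fun v _ => trivial)
    rwa [top_inf_eq] at this
  have ht : r - 1 = i * S.card := by
    rw [← hcard, mul_comm]
  set t := S.card with htdef
  have ht' : (r - 1) / i = t := by
    rw [ht]
    exact Nat.mul_div_cancel_left t hipos
  have hk₀ := Nat.div_add_mod (finrank F K₀) i
  set u := finrank F K₀ / i with hu
  set k := finrank F K₀ % i with hk
  have hklt : k < i := Nat.mod_lt _ hipos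
  have hn : finrank F V = i * (u + n₁) + k := by
    rw [hsum, hn₁, ← hk₀]
    ring
  have hnmod : finrank F V % i = k := by
    rw [hn, Nat.mul_add_mod, Nat.mod_eq_of_lt hklt]
  have hndiv : finrank F V / i = u + n₁ := by
    rw [hn, Nat.mul_add_div hipos, Nat.div_eq_of_lt hklt, add_zero]
  rw [hnmod] at hmod
  rw [ht', hndiv] at hbig
  have hm' := Nat.div_add_mod m i
  set m' := m / i with hm'def
  set l := m % i with hldef
  obtain ⟨ha1, ha2, ha3⟩ := Cfsg.Agent.Lib.ElusF.SpPos2.arith_even hipos hmod hbig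
  set s := min m' ((n₁ + 1 - t) / 2) with hs
  rw [← ht, ← hn₁] at ha1
  obtain ⟨W₁, h1, h2, h3, h4⟩ := cap hB hT hinj hss (e := r - 1) (d := i) (U₀ := K₁)
    (fun U hU _ hUi hpos => ti_large hF hB hT hTr hr hrF hS hprod hU hUi hpos) s K₁ le_rfl hnd1
    (inv_ker T _) ha1
  rw [hm', hk₀] at ha2
  rw [hm'] at ha3
  obtain ⟨W₀, h5, h6, h7, h8⟩ := ti0_cap hF hB hT hinj hss le_rfl hnd0 ha2
  obtain ⟨h9, h10, h11⟩ := combine_ti hB hT hrF h5 h1 h6 h2 h7 h3
  refine ⟨W₀ ⊔ W₁, h9, h10, ?_⟩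
  rw [h11, h8, h4]
  omega

/-- Invariant nondegenerate subspaces: the general statement. -/
theorem pos_nd (hF : Fintype.card F = q ^ 2) (hB : Fm (frobHom hF) 1 B) {T : End F V} (hT : Iso B T)
    (hTr : T ^ r = 1) (hr : r.Prime) (hrF : (r : F) ≠ 0) {c : ℕ} (hc0 : 0 < c)
    (hdvd : c ∣ finrank F (LinearMap.ker (Polynomial.aeval T (Phi F r))))
    (hstep : ∀ U : Submodule F V, U ≤ LinearMap.ker (Polynomial.aeval T (Phi F r)) → Nd B U →
      Inv T U → 0 < finrank F U → ∃ C : Submodule F V, C ≤ U ∧ Nd B C ∧ Inv T C ∧ finrank F C = c)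
    {m : ℕ} (hm : m ≤ finrank F V) (hmod : m % c ≤ finrank F V % c) :
    ∃ W : Submodule F V, Nd B W ∧ Inv T W ∧ finrank F W = m := by
  have hinj : Function.Injective T :=
    inj_of_pow (c := 1) one_ne_zero hr.ne_zero (by rw [hTr, one_smul])
  set K₀ := LinearMap.ker (Polynomial.aeval T (X - 1 : F[X])) with hK₀
  set K₁ := LinearMap.ker (Polynomial.aeval T (Phi F r)) with hK₁
  have hnd0 : Nd B K₀ := by
    have := nd0 hB hT hrF hTr hB.nd_top (U := ⊤) (fun v _ => trivial)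
    rwa [top_inf_eq] at this
  have hnd1 : Nd B K₁ := by
    have := nd1 hB hT hrF hTr hB.nd_top (U := ⊤) (fun v _ => trivial)
    rwa [top_inf_eq] at this
  have hsum : finrank F V = finrank F K₀ + finrank F K₁ := by
    have := (split01 hrF hTr (U := ⊤) (fun v _ => trivial)).2
    rwa [top_inf_eq, top_inf_eq, finrank_top] at this
  obtain ⟨s₁, hs₁⟩ := hdvd
  have hmodk : finrank F V % c = finrank F K₀ % c := by
    rw [hsum, hs₁, Nat.add_mul_mod_self_left]
  have hkle : finrank F V % c ≤ finrank F K₀ := by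
    rw [hmodk]
    exact Nat.mod_le _ _
  have hm' := Nat.div_add_mod m c
  set s := min (m / c) s₁ with hs
  have hsm : s ≤ m / c := min_le_left _ _
  have hss₁ : s ≤ s₁ := min_le_right _ _
  have hle : c * s ≤ c * (m / c) := Nat.mul_le_mul_left c hsm
  have hle₁ : c * s ≤ c * s₁ := Nat.mul_le_mul_left c hss₁
  obtain ⟨W₁, h1, h2, h3, h4⟩ := ndcap hB hT hinj hc0 (U₀ := K₁)
    (fun U hU hUn hUi hpos => hstep U hU hUn hUi hpos) s K₁ le_rfl hnd1 (inv_ker T _) (by
      rw [hs₁]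
      exact hle₁)
  have ht0 : m - c * s ≤ finrank F K₀ := by
    by_cases hcc : m / c ≤ s₁
    · have h5 : s = m / c := min_eq_left hcc
      rw [h5]
      omega
    · have h5 : s = s₁ := min_eq_right (by omega)
      rw [h5]
      omega
  obtain ⟨W₀, h5, h6, h7, h8⟩ := nd0_cap hF hB hT hinj le_rfl hnd0 ht0
  obtain ⟨h9, h10, h11⟩ := combine_nd' hB hT hrF h5 h1 h6 h2 h7 h3
  refine ⟨W₀ ⊔ W₁, h9, h10, ?_⟩
  rw [h11, h8, h4]
  omega

end Cfsg.Agent.Lib.ElusF.HzTI
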