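import Cfsg.Agent.Lib.ElusF.HzI2

/-!
# Involutions in the unitary groups (`r = 2`, odd characteristic)
-/

set_option autoImplicit false
set_option linter.unusedSectionVars false
set_option linter.style.haveILetI false
set_option linter.unusedVariables false

open Polynomial Module

universe u

namespace Cfsg.Agent.Lib.ElusF.HzTwo

open Cfsg.Agent.Lib.ElusL.Basic Cfsg.Agent.Lib.ElusL.Flag Cfsg.Agent.Lib.ElusL.Cyc
  Cfsg.Agent.Lib.ElusL.Pos Cfsg.Agent.Lib.ElusF.Form Cfsg.Agent.Lib.ElusF.Step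
  Cfsg.Agent.Lib.ElusF.Split Cfsg.Agent.Lib.ElusF.SpModel Cfsg.Agent.Lib.ElusF.SpNeg
  Cfsg.Agent.Lib.HermCount.Field Cfsg.Agent.Lib.ElusF.HzBase Cfsg.Agent.Lib.ElusF.HzAdj
  Cfsg.Agent.Lib.ElusF.HzArith Cfsg.Agent.Lib.ElusF.HzModel Cfsg.Agent.Lib.ElusF.HzMat
  Cfsg.Agent.Lib.ElusL.Arith Cfsg.Agent.Lib.ElusF.HzList Cfsg.Agent.Lib.ElusF.HzI2

section Generic

variable {F : Type*} [Field F] {V : Type*} [AddCommGroup V] [Module F V] {T : End F V}

/-- Eigenspaces. -/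
abbrev Eg (T : End F V) (c : F) : Submodule F V := Module.End.eigenspace T c

theorem mem_Eg {c : F} {v : V} : v ∈ Eg T c ↔ T v = c • v := Module.End.mem_eigenspace_iff

theorem exists_le_dim [FiniteDimensional F V] (E : Submodule F V) {t : ℕ} (ht : t ≤ finrank F E) :
    ∃ W : Submodule F V, W ≤ E ∧ finrank F W = t := by
  classical
  let b := Module.finBasis F E
  let g : Fin t → V := fun i => (b (Fin.castLE ht i) : V)
  have hli : LinearIndependent F g := by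
    have h1 : LinearIndependent F (fun i : Fin t => b (Fin.castLE ht i)) :=
      b.linearIndependent.comp _ (Fin.castLE_injective ht)
    exact h1.map' E.subtype E.ker_subtype
  refine ⟨Submodule.span F (Set.range g), ?_, ?_⟩
  · rw [Submodule.span_le]
    rintro _ ⟨i, rfl⟩
    exact (b _).2
  · rw [finrank_span_eq_card hli]
    simp

theorem inv_of_eig {c : F} {W : Submodule F V} (hW : W ≤ Eg T c) : Inv T W := by
  intro v hv
  rw [mem_Eg.mp (hW hv)]
  exact W.smul_mem _ hv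

theorem sq_apply {s : F} (hT2 : T ^ 2 = s ^ 2 • 1) (v : V) : T (T v) = s ^ 2 • v := by
  have := LinearMap.congr_fun hT2 v
  rwa [pow_two T, Module.End.mul_apply, LinearMap.smul_apply, Module.End.one_apply] at this

theorem disjoint_eig (h2 : (2 : F) ≠ 0) {s : F} (hs : s ≠ 0) : Disjoint (Eg T s) (Eg T (-s)) := by
  rw [Submodule.disjoint_def]
  intro x hx hy
  have h1 := mem_Eg.mp hx
  have h3 := mem_Eg.mp hy
  have h4 : (2 * s) • x = 0 := by
    have : s • x = (-s) • x := h1.symm.trans h3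
    have h5 : (2 * s) • x = s • x - (-s) • x := by module
    rw [h5, this, sub_self]
  exact (smul_eq_zero.mp h4).resolve_left (mul_ne_zero h2 hs)

theorem split_eig [FiniteDimensional F V] (h2 : (2 : F) ≠ 0) {s : F} (hs : s ≠ 0)
    (hT2 : T ^ 2 = s ^ 2 • 1) {U : Submodule F V} (hU : Inv T U) :
    (U ⊓ Eg T s) ⊔ (U ⊓ Eg T (-s)) = U ∧
    finrank F U = finrank F (U ⊓ Eg T s : Submodule F V) + finrank F (U ⊓ Eg T (-s) : Submodule F V) := by
  have hsup : (U ⊓ Eg T s) ⊔ (U ⊓ Eg T (-s)) = U := by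
    apply le_antisymm
    · exact sup_le inf_le_left inf_le_left
    · intro v hv
      have h2s : (2 * s) ≠ 0 := mul_ne_zero h2 hs
      have hp : (2 * s)⁻¹ • (T v + s • v) ∈ U ⊓ Eg T s := by
        refine ⟨U.smul_mem _ (U.add_mem (hU v hv) (U.smul_mem _ hv)), ?_⟩
        change _ ∈ Eg T s
        rw [mem_Eg, map_smul, map_add, map_smul, sq_apply hT2]
        module
      have hm : (2 * s)⁻¹ • (s • v - T v) ∈ U ⊓ Eg T (-s) := by
        refine ⟨U.smul_mem _ (U.sub_mem (U.smul_mem _ hv) (hU v hv)), ?_⟩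
        change _ ∈ Eg T (-s)
        rw [mem_Eg, map_smul, map_sub, map_smul, sq_apply hT2]
        module
      have hv' : v = (2 * s)⁻¹ • (T v + s • v) + (2 * s)⁻¹ • (s • v - T v) := by
        rw [← smul_add]
        have : T v + s • v + (s • v - T v) = (2 * s) • v := by module
        rw [this, inv_smul_smul₀ h2s]
      rw [hv']
      exact Submodule.add_mem_sup hp hm
  refine ⟨hsup, ?_⟩
  have hd : Disjoint (U ⊓ Eg T s) (U ⊓ Eg T (-s)) :=
    (disjoint_eig h2 hs).mono inf_le_right inf_le_right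
  have := finrank_sup_of_disjoint hd
  rw [hsup] at this
  exact this

theorem inv_top : Inv T (⊤ : Submodule F V) := fun _ _ => trivial

theorem eig_sup [FiniteDimensional F V] (h2 : (2 : F) ≠ 0) {s : F} (hs : s ≠ 0)
    (hT2 : T ^ 2 = s ^ 2 • 1) : Eg T s ⊔ Eg T (-s) = ⊤ := by
  have := (split_eig h2 hs hT2 (inv_top (T := T))).1
  simpa only [top_inf_eq] using this

theorem eig_finrank [FiniteDimensional F V] (h2 : (2 : F) ≠ 0) {s : F} (hs : s ≠ 0)
    (hT2 : T ^ 2 = s ^ 2 • 1) :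
    finrank F V = finrank F (Eg T s) + finrank F (Eg T (-s)) := by
  have := (split_eig h2 hs hT2 (inv_top (T := T))).2
  rw [top_inf_eq, top_inf_eq, finrank_top] at this
  exact this

theorem det_split [FiniteDimensional F V] (h2 : (2 : F) ≠ 0) {s : F} (hs : s ≠ 0)
    (hT2 : T ^ 2 = s ^ 2 • 1) :
    LinearMap.det T = s ^ finrank F (Eg T s) * (-s) ^ finrank F (Eg T (-s)) := by
  have hc : IsCompl (Eg T s) (Eg T (-s)) := ⟨disjoint_eig h2 hs, codisjoint_iff.mpr (eig_sup h2 hs hT2)⟩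
  let e := Submodule.prodEquivOfIsCompl (Eg T s) (Eg T (-s)) hc
  let f : End F (Eg T s × Eg T (-s)) :=
    LinearMap.prodMap (s • LinearMap.id) ((-s) • LinearMap.id)
  have hf : LinearMap.det f = s ^ finrank F (Eg T s) * (-s) ^ finrank F (Eg T (-s)) := by
    simp only [f]
    rw [LinearMap.det_prodMap, LinearMap.det_smul, LinearMap.det_smul, LinearMap.det_id,
      LinearMap.det_id, mul_one, mul_one]
  rw [← hf, ← LinearMap.det_conj f e]
  congr 1
  apply LinearMap.ext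
  intro v
  obtain ⟨w, rfl⟩ := e.surjective v
  simp only [LinearMap.comp_apply, LinearEquiv.coe_coe, LinearEquiv.symm_apply_apply]
  obtain ⟨w₁, w₂⟩ := w
  change T ((w₁ : V) + (w₂ : V)) = (s • w₁ : Eg T s) + ((-s) • w₂ : Eg T (-s))
  rw [map_add, mem_Eg.mp w₁.2, mem_Eg.mp w₂.2]
  rfl

end Generic

section Finite

variable {F : Type u} [Field F] [Fintype F] {q : ℕ} {V : Type*} [AddCommGroup V] [Module F V]
  {B : V → V → F} {T : End F V}

theorem eig_pair (hF : Fintype.card F = q ^ 2) (hB : Fm (frobHom hF) 1 B) (hT : Iso B T) {c d : F}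
    {u v : V} (hu : u ∈ Eg T c) (hv : v ∈ Eg T d) : c * d ^ q * B u v = B u v := by
  have h := hT u v
  rw [mem_Eg.mp hu, mem_Eg.mp hv, hB.smul_l, hB.smul_r, frobHom_apply] at h
  rw [mul_assoc]
  exact h

theorem zero_of_neg (hF : Fintype.card F = q ^ 2) (hB : Fm (frobHom hF) 1 B) (hT : Iso B T)
    (h2 : (2 : F) ≠ 0) {c d : F} (hcd : c * d ^ q = -1)
    {u v : V} (hu : u ∈ Eg T c) (hv : v ∈ Eg T d) : B u v = 0 := by
  have h := eig_pair hF hB hT hu hv
  rw [hcd] at h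
  have h3 : 2 * B u v = 0 := by linear_combination -h
  exact (mul_eq_zero.mp h3).resolve_left h2

theorem ti_in [FiniteDimensional F V] (hF : Fintype.card F = q ^ 2) (hB : Fm (frobHom hF) 1 B)
    {K : Submodule F V} (hK : Nd B K) {t : ℕ} (ht : 2 * t ≤ finrank F K) :
    ∃ W : Submodule F V, W ≤ K ∧ TI B W ∧ finrank F W = t := by
  have hss : SS (1 : End F V) := ss_of_pow (r := 1) (c := 1) (by simp) one_ne_zero (by simp)
  obtain ⟨W, h1, h2, -, h3⟩ := ti0_cap hF hB (T := 1) (fun _ _ => rfl) Function.injective_id hss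
    (K := K) (by intro v _; simp [LinearMap.mem_ker]) hK ht
  exact ⟨W, h1, h2, h3⟩

theorem nd_in [FiniteDimensional F V] (hF : Fintype.card F = q ^ 2) (hB : Fm (frobHom hF) 1 B)
    {K : Submodule F V} (hK : Nd B K) {t : ℕ} (ht : t ≤ finrank F K) :
    ∃ W : Submodule F V, W ≤ K ∧ Nd B W ∧ finrank F W = t := by
  obtain ⟨W, h1, h2, -, h3⟩ := nd0_cap hF hB (T := 1) (fun _ _ => rfl) Function.injective_id
    (K := K) (by intro v _; simp [LinearMap.mem_ker]) hK ht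
  exact ⟨W, h1, h2, h3⟩

variable [FiniteDimensional F V]

/-! ### The case `s ^ (q + 1) = 1` -/

section CaseA

variable (hF : Fintype.card F = q ^ 2) (hB : Fm (frobHom hF) 1 B) (hT : Iso B T)
  (h2 : (2 : F) ≠ 0) (hqo : Odd q) {s : F} (hs : s ≠ 0) (hT2 : T ^ 2 = s ^ 2 • 1)
  (hs1 : s ^ (q + 1) = 1)

include hF hB hT h2 hqo hs hT2 hs1

theorem A_orth {u v : V} (hu : u ∈ Eg T s) (hv : v ∈ Eg T (-s)) : B u v = 0 :=
  zero_of_neg hF hB hT h2 (by rw [hqo.neg_pow, mul_neg, ← pow_succ', hs1]) hu hv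

theorem A_orth' {u v : V} (hu : u ∈ Eg T (-s)) (hv : v ∈ Eg T s) : B u v = 0 :=
  zero_of_neg hF hB hT h2 (by rw [neg_mul, ← pow_succ', hs1]) hu hv

theorem A_nd : Nd B (Eg T s) :=
  hB.nd_of_orth_sum hB.nd_top (eig_sup h2 hs hT2) (fun _ hx _ hy => A_orth hF hB hT h2 hqo hs hT2 hs1 hx hy)

theorem A_nd' : Nd B (Eg T (-s)) :=
  hB.nd_of_orth_sum hB.nd_top (by rw [sup_comm]; exact eig_sup h2 hs hT2)
    (fun _ hx _ hy => A_orth' hF hB hT h2 hqo hs hT2 hs1 hx hy)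

theorem posA_ti {m : ℕ} (hm : 2 * m ≤ finrank F V)
    (hodd : ¬ (2 * m = finrank F V ∧ Odd (finrank F (Eg T s)))) :
    ∃ W : Submodule F V, TI B W ∧ Inv T W ∧ finrank F W = m := by
  have hn := eig_finrank h2 hs hT2
  have ha := A_nd hF hB hT h2 hqo hs hT2 hs1
  have hc := A_nd' hF hB hT h2 hqo hs hT2 hs1
  set a := finrank F (Eg T s) with hadef
  set c := finrank F (Eg T (-s)) with hcdef
  have hmcases : 2 * (min m (a / 2)) ≤ a ∧ 2 * (m - min m (a / 2)) ≤ c := by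
    rw [Nat.odd_iff] at hodd
    omega
  obtain ⟨W₀, h1, h3, h4⟩ := ti_in hF hB ha hmcases.1
  obtain ⟨W₁, h5, h6, h7⟩ := ti_in hF hB hc hmcases.2
  refine ⟨W₀ ⊔ W₁, ti_sup hB h3 h6 ?_, inv_sup (inv_of_eig h1) (inv_of_eig h5), ?_⟩
  · intro y hy
    rw [hB.mem_orth]
    intro x hx
    exact A_orth hF hB hT h2 hqo hs hT2 hs1 (h1 hx) (h5 hy)
  · rw [finrank_sup_of_disjoint ((disjoint_eig h2 hs).mono h1 h5), h4, h7]
    omega

theorem posA_nd {m : ℕ} (hm : m ≤ finrank F V) :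
    ∃ W : Submodule F V, Nd B W ∧ Inv T W ∧ finrank F W = m := by
  have hn := eig_finrank h2 hs hT2
  have ha := A_nd hF hB hT h2 hqo hs hT2 hs1
  have hc := A_nd' hF hB hT h2 hqo hs hT2 hs1
  set a := finrank F (Eg T s) with hadef
  set c := finrank F (Eg T (-s)) with hcdef
  have hmcases : min m a ≤ a ∧ m - min m a ≤ c := by omega
  obtain ⟨W₀, h1, h3, h4⟩ := nd_in hF hB ha hmcases.1
  obtain ⟨W₁, h5, h6, h7⟩ := nd_in hF hB hc hmcases.2
  refine ⟨W₀ ⊔ W₁, nd_sup hB h3 h6 ?_, inv_sup (inv_of_eig h1) (inv_of_eig h5), ?_⟩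
  · intro y hy
    rw [hB.mem_orth]
    intro x hx
    exact A_orth hF hB hT h2 hqo hs hT2 hs1 (h1 hx) (h5 hy)
  · rw [finrank_sup_of_disjoint ((disjoint_eig h2 hs).mono h1 h5), h4, h7]
    omega

end CaseA

/-! ### The case `s ^ (q + 1) = -1` -/

section CaseB

variable (hF : Fintype.card F = q ^ 2) (hB : Fm (frobHom hF) 1 B) (hT : Iso B T)
  (h2 : (2 : F) ≠ 0) (hqo : Odd q) {s : F} (hs : s ≠ 0) (hT2 : T ^ 2 = s ^ 2 • 1)
  (hs1 : s ^ (q + 1) = -1)

include hF hB hT h2 hqo hs hT2 hs1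

theorem B_ti : TI B (Eg T s) := fun _ hx _ hy =>
  zero_of_neg hF hB hT h2 (by rw [← pow_succ', hs1]) hx hy

theorem B_ti' : TI B (Eg T (-s)) := fun _ hx _ hy =>
  zero_of_neg hF hB hT h2 (by rw [hqo.neg_pow, neg_mul, mul_neg, neg_neg, ← pow_succ', hs1]) hx hy

theorem B_dims : finrank F V = 2 * finrank F (Eg T s) ∧ finrank F (Eg T (-s)) = finrank F (Eg T s) := by
  have h1 := hB.two_mul_finrank_le hB.nd_top le_top (B_ti hF hB hT h2 hqo hs hT2 hs1)
  have h3 := hB.two_mul_finrank_le hB.nd_top le_top (B_ti' hF hB hT h2 hqo hs hT2 hs1)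
  have h4 := eig_finrank h2 hs hT2
  rw [finrank_top] at h1 h3
  omega

theorem posB_ti {m : ℕ} (hm : 2 * m ≤ finrank F V) :
    ∃ W : Submodule F V, TI B W ∧ Inv T W ∧ finrank F W = m := by
  obtain ⟨h1, -⟩ := B_dims hF hB hT h2 hqo hs hT2 hs1
  obtain ⟨W, hW, hWm⟩ := exists_le_dim (Eg T s) (t := m) (by omega)
  exact ⟨W, fun x hx y hy => B_ti hF hB hT h2 hqo hs hT2 hs1 x (hW hx) y (hW hy), inv_of_eig hW, hWm⟩

theorem even_of_B {W : Submodule F V} (hW : Nd B W) (hWi : Inv T W) : Even (finrank F W) := by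
  obtain ⟨-, h1⟩ := split_eig h2 hs hT2 hWi
  have h3 := hB.two_mul_finrank_le hW (W := W ⊓ Eg T s) inf_le_left
    (fun x hx y hy => B_ti hF hB hT h2 hqo hs hT2 hs1 x hx.2 y hy.2)
  have h4 := hB.two_mul_finrank_le hW (W := W ⊓ Eg T (-s)) inf_le_left
    (fun x hx y hy => B_ti' hF hB hT h2 hqo hs hT2 hs1 x hx.2 y hy.2)
  rw [Nat.even_iff]
  omega

end CaseB

theorem plane_herm (hF : Fintype.card F = q ^ 2) (hB : Fm (frobHom hF) 1 B) {u v : V}
    (huu : B u u = 0) (hvv : B v v = 0) (huv : B u v ≠ 0) :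
    Nd B (Submodule.span F {u, v}) ∧ finrank F (Submodule.span F {u, v}) = 2 := by
  have hvu : B v u ≠ 0 := fun h => huv ((hB.eq_zero_comm v u).mp h)
  have key : ∀ a b : F, B (a • u + b • v) u = 0 → B (a • u + b • v) v = 0 → a = 0 ∧ b = 0 := by
    intro a b h1 h3
    rw [hB.add_l, hB.smul_l, hB.smul_l, huu, mul_zero, zero_add] at h1
    rw [hB.add_l, hB.smul_l, hB.smul_l, hvv, mul_zero, add_zero] at h3
    exact ⟨(mul_eq_zero.mp h3).resolve_right huv, (mul_eq_zero.mp h1).resolve_right hvu⟩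
  have hind : LinearIndependent F ![u, v] := by
    rw [LinearIndependent.pair_iff]
    intro a b hab
    apply key a b
    · rw [hab, hB.zero_l]
    · rw [hab, hB.zero_l]
  constructor
  · intro w hw h
    obtain ⟨a, b, rfl⟩ := Submodule.mem_span_pair.mp hw
    obtain ⟨ha, hb⟩ := key a b (h u (Submodule.subset_span (by simp))) (h v (Submodule.subset_span (by simp)))
    rw [ha, hb]
    simp
  · have := finrank_span_eq_card hind
    simp only [Fintype.card_fin] at this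
    have h3 : Set.range ![u, v] = {u, v} := by
      ext x
      simp only [Matrix.range_cons, Matrix.range_empty, Set.union_empty, Set.mem_union,
        Set.mem_singleton_iff, Set.mem_insert_iff]
    rwa [h3] at this

theorem stepB_aux (hF : Fintype.card F = q ^ 2) (hB : Fm (frobHom hF) 1 B) (hT : Iso B T)
    (h2 : (2 : F) ≠ 0) (hqo : Odd q) {s : F} (hs : s ≠ 0) (hT2 : T ^ 2 = s ^ 2 • 1)
    (hs1 : s ^ (q + 1) = -1) {U : Submodule F V} (hU : Nd B U) (hUi : Inv T U) {u : V}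
    (huU : u ∈ U) (hue : u ∈ Eg T s) (hu0 : u ≠ 0) :
    ∃ C : Submodule F V, C ≤ U ∧ Nd B C ∧ Inv T C ∧ finrank F C = 2 := by
  obtain ⟨w, hwU, hw⟩ : ∃ w ∈ U, B u w ≠ 0 := by
    by_contra hcon
    push Not at hcon
    exact hu0 (hU u huU hcon)
  have hsup := (split_eig h2 hs hT2 hUi).1
  rw [← hsup] at hwU
  obtain ⟨w₁, hw₁, w₂, hw₂, rfl⟩ := Submodule.mem_sup.mp hwU
  have h1 : B u w₁ = 0 := B_ti hF hB hT h2 hqo hs hT2 hs1 u hue w₁ hw₁.2
  rw [hB.add_r, h1, zero_add] at hw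
  obtain ⟨h3, h4⟩ := plane_herm hF hB (B_ti hF hB hT h2 hqo hs hT2 hs1 u hue u hue)
    (B_ti' hF hB hT h2 hqo hs hT2 hs1 w₂ hw₂.2 w₂ hw₂.2) hw
  refine ⟨_, ?_, h3, ?_, h4⟩
  · rw [Submodule.span_le]
    intro x hx
    rcases hx with rfl | hx
    · exact huU
    · rw [Set.mem_singleton_iff.mp hx]
      exact hw₂.1
  · intro x hx
    obtain ⟨a, b, rfl⟩ := Submodule.mem_span_pair.mp hx
    rw [map_add, map_smul, map_smul, mem_Eg.mp hue, mem_Eg.mp hw₂.2]
    apply Submodule.mem_span_pair.mpr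
    exact ⟨a * s, b * (-s), by simp only [smul_smul]⟩

theorem stepB (hF : Fintype.card F = q ^ 2) (hB : Fm (frobHom hF) 1 B) (hT : Iso B T)
    (h2 : (2 : F) ≠ 0) (hqo : Odd q) {s : F} (hs : s ≠ 0) (hT2 : T ^ 2 = s ^ 2 • 1)
    (hs1 : s ^ (q + 1) = -1) {U : Submodule F V} (hU : Nd B U) (hUi : Inv T U)
    (hpos : 0 < finrank F U) :
    ∃ C : Submodule F V, C ≤ U ∧ Nd B C ∧ Inv T C ∧ finrank F C = 2 := by
  have hf := (split_eig h2 hs hT2 hUi).2
  by_cases h1 : 0 < finrank F (U ⊓ Eg T s : Submodule F V)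
  · haveI := Module.nontrivial_of_finrank_pos (R := F) h1
    obtain ⟨⟨u, hu⟩, hu0⟩ := exists_ne (0 : (U ⊓ Eg T s : Submodule F V))
    exact stepB_aux hF hB hT h2 hqo hs hT2 hs1 hU hUi hu.1 hu.2 (fun h => hu0 (Subtype.ext h))
  · have h3 : 0 < finrank F (U ⊓ Eg T (-s) : Submodule F V) := by omega
    haveI := Module.nontrivial_of_finrank_pos (R := F) h3
    obtain ⟨⟨u, hu⟩, hu0⟩ := exists_ne (0 : (U ⊓ Eg T (-s) : Submodule F V))
    refine stepB_aux hF hB hT h2 hqo (neg_ne_zero.mpr hs) (by rw [neg_sq]; exact hT2) ?_ hU hUi hu.1 hu.2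
      (fun h => hu0 (Subtype.ext h))
    rw [(hqo.add_one).neg_pow, hs1]

theorem posB_nd (hF : Fintype.card F = q ^ 2) (hB : Fm (frobHom hF) 1 B) (hT : Iso B T)
    (h2 : (2 : F) ≠ 0) (hqo : Odd q) {s : F} (hs : s ≠ 0) (hT2 : T ^ 2 = s ^ 2 • 1)
    (hs1 : s ^ (q + 1) = -1) {m : ℕ} (hm : m ≤ finrank F V) (hme : Even m) :
    ∃ W : Submodule F V, Nd B W ∧ Inv T W ∧ finrank F W = m := by
  have hz : s ^ 2 ≠ 0 := pow_ne_zero _ hs
  have hinj : Function.Injective T := inj_of_pow (r := 2) hz two_ne_zero hT2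
  obtain ⟨k, rfl⟩ := hme
  obtain ⟨W, -, h1, h3, h4⟩ := ndcap hB hT hinj (d := 2) two_pos (U₀ := ⊤)
    (fun U _ hU hUi hpos => stepB hF hB hT h2 hqo hs hT2 hs1 hU hUi hpos) k ⊤ le_top hB.nd_top inv_top
    (by rw [finrank_top]; omega)
  exact ⟨W, h1, h3, by omega⟩

theorem nonscalar_B (hF : Fintype.card F = q ^ 2) (hB : Fm (frobHom hF) 1 B) (hT : Iso B T)
    (h2 : (2 : F) ≠ 0) (hqo : Odd q) {s : F} (hT2 : T ^ 2 = s ^ 2 • 1)
    (hs1 : s ^ (q + 1) = -1) (hpos : 0 < finrank F V) (z : F) : T ≠ z • 1 := by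
  intro hz
  have h1 : z ^ (q + 1) = 1 := scalar_norm (r := 1) hF hB hT (by rw [pow_one]; exact hz) hpos
  haveI := Module.nontrivial_of_finrank_pos (R := F) hpos
  obtain ⟨v, hv⟩ := exists_ne (0 : V)
  have h3 : z ^ 2 = s ^ 2 := by
    have := sq_apply hT2 v
    rw [hz] at this
    simp only [LinearMap.smul_apply, Module.End.one_apply, smul_smul] at this
    have h4 : (z * z) = s ^ 2 := smul_left_injective F hv this
    rw [← h4, pow_two]
  obtain ⟨k, hk⟩ := hqo.add_one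
  have h4 : z ^ (q + 1) = s ^ (q + 1) := by
    rw [hk, ← two_mul, pow_mul, pow_mul, h3]
  rw [h1, hs1] at h4
  apply h2
  linear_combination h4

/-! ### Square roots of scalars -/

theorem exists_sqrt (hF : Fintype.card F = q ^ 2) (h2 : (2 : F) ≠ 0) (hqo : Odd q) {z : F}
    (hz : z ^ (q + 1) = 1) : ∃ s : F, s ≠ 0 ∧ s ^ 2 = z ∧ (s ^ (q + 1) = 1 ∨ s ^ (q + 1) = -1) := by
  have hz0 : z ≠ 0 := by
    rintro rfl
    rw [zero_pow (by omega)] at hz
    exact zero_ne_one hz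
  have hch : ringChar F ≠ 2 := by
    intro h
    apply h2
    have := ringChar.Nat.cast_ringChar (R := F)
    rw [h] at this
    exact_mod_cast this
  obtain ⟨k, rfl⟩ := hqo
  have hsq : IsSquare z := by
    rw [FiniteField.isSquare_iff hch hz0, hF]
    have h1 : (2 * k + 1) ^ 2 / 2 = (2 * k + 1 + 1) * k := by
      have : (2 * k + 1) ^ 2 = 2 * ((2 * k + 1 + 1) * k) + 1 := by ring
      omega
    rw [h1, pow_mul, hz, one_pow]
  obtain ⟨s, rfl⟩ := hsq
  refine ⟨s, fun h => hz0 (by rw [h, mul_zero]), by rw [pow_two], ?_⟩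
  have h3 : s ^ (2 * k + 1 + 1) * s ^ (2 * k + 1 + 1) = 1 := by
    rw [← mul_pow]
    exact hz
  exact mul_self_eq_one_iff.mp h3

/-! ### Arithmetic contradictions -/

theorem two_val {n : ℕ} (hn : n ≠ 0) : ∃ n', Odd n' ∧ n = 2 ^ padicValNat 2 n * n' := by
  obtain ⟨k, m, hm, rfl⟩ := Nat.exists_eq_two_pow_mul_odd hn
  refine ⟨m, hm, ?_⟩
  have hm0 : m ≠ 0 := by
    rintro rfl
    simp at hn
  rw [padicValNat.mul (by positivity) hm0, padicValNat.prime_pow,
    padicValNat.eq_zero_of_not_dvd (fun h => by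
      rcases hm with ⟨t, rfl⟩
      omega), add_zero]

theorem arith_A (h2 : (2 : F) ≠ 0) {s : F} {n : ℕ} (hn : n ≠ 0) (hv : padicValNat 2 (q + 1) ≤ padicValNat 2 n)
    (hsn : s ^ n = -1) (hs1 : s ^ (q + 1) = 1) : False := by
  obtain ⟨u, hu, hqu⟩ := two_val (n := q + 1) (by omega)
  set f := padicValNat 2 (q + 1) with hf
  have hd : 2 ^ f ∣ n := by
    apply (padicValNat_dvd_iff_le hn).mpr hv
  obtain ⟨n', hn'⟩ := hd
  have h1 : s ^ (n * u) = 1 := by
    have : n * u = (q + 1) * n' := by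
      rw [hn', hqu]
      ring
    rw [this, pow_mul, hs1, one_pow]
  rw [pow_mul, hsn, hu.neg_one_pow] at h1
  apply h2
  linear_combination -h1

theorem arith_B (h2 : (2 : F) ≠ 0) {s : F} {h : ℕ} (hh : h ≠ 0) (hq4 : q % 4 = 3)
    (hv : padicValNat 2 (2 * h) ≤ padicValNat 2 (q + 1))
    (hsn : s ^ (2 * h) = (-1) ^ h) (hs1 : s ^ (q + 1) = -1) : False := by
  have hn : 2 * h ≠ 0 := by omega
  obtain ⟨n', hn', hnn⟩ := two_val hn
  set e := padicValNat 2 (2 * h) with he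
  have hd : 2 ^ e ∣ q + 1 := (padicValNat_dvd_iff_le (by omega)).mpr hv
  obtain ⟨w, hw⟩ := hd
  obtain ⟨k, hk⟩ : ∃ k, q + 1 = 4 * k := ⟨(q + 1) / 4, by omega⟩
  have h3 : 2 * h * w = n' * (q + 1) := by
    rw [hnn, hw]
    ring
  have h4 : h * w = n' * (2 * k) := by
    rw [hk] at h3
    nlinarith
  have h5 : s ^ (2 * h * w) = (-1) ^ n' := by
    rw [h3, mul_comm, pow_mul, hs1]
  have h6 : s ^ (2 * h * w) = 1 := by
    rw [pow_mul, hsn, ← pow_mul, h4, ← mul_assoc, mul_comm n' 2, mul_assoc, pow_mul]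
    simp
  rw [h6, hn'.neg_one_pow] at h5
  apply h2
  linear_combination h5

theorem exists_two_root (hF : Fintype.card F = q ^ 2) (h2 : (2 : F) ≠ 0) {t : ℕ}
    (ht : 2 ^ (t + 1) ∣ q ^ 2 - 1) : ∃ s : F, s ^ (2 ^ t) = -1 := by
  obtain ⟨γ, hγo, hγ⟩ := exists_gen (F := F) rfl
  have hq1 : 1 < Fintype.card F := Fintype.one_lt_card
  have hd : 2 ^ (t + 1) ∣ orderOf γ := by
    rw [hγo, hF]
    exact ht
  have h1 : orderOf (γ ^ (orderOf γ / 2 ^ (t + 1))) = 2 ^ (t + 1) :=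
    orderOf_pow_orderOf_div (by rw [hγo]; omega) hd
  set u := γ ^ (orderOf γ / 2 ^ (t + 1)) with hu
  have h3 : ((u : F) ^ 2 ^ t) * ((u : F) ^ 2 ^ t) = 1 := by
    rw [← pow_add, ← two_mul, ← pow_succ', ← Units.val_pow_eq_pow_val, ← h1, pow_orderOf_eq_one]
    rfl
  refine ⟨(u : F), (mul_self_eq_one_iff.mp h3).resolve_left ?_⟩
  intro h4
  have h5 : u ^ 2 ^ t = 1 := by
    apply Units.ext
    rw [Units.val_pow_eq_pow_val]
    exact h4
  have h6 := orderOf_dvd_of_pow_eq_one h5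
  rw [h1] at h6
  have := Nat.le_of_dvd (by positivity) h6
  rw [pow_succ] at this
  have hp : 0 < 2 ^ t := by positivity
  omega

end Finite

end Cfsg.Agent.Lib.ElusF.HzTwo
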