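import Cfsg.Agent.Lib.ElusF.SpNd
import Cfsg.Agent.Lib.Classical.AltCount

/-!
# Counting nondegenerate subspaces through partial symplectic frames
-/

set_option autoImplicit false
set_option linter.unusedSectionVars false
set_option linter.style.haveILetI false
set_option linter.unusedVariables false

open Module

universe u v

namespace Cfsg.Agent.Lib.ElusF.SpCount

open Cfsg.Agent.Lib.Classical.AltCount Cfsg.Agent.Lib.Classical.Alt

variable {F : Type u} [Field F] [Finite F]

/-- The number of partial frames. -/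
theorem card_partial {q : ℕ} (hq : Nat.card F = q) : ∀ (k d : ℕ) (V : Type v) [AddCommGroup V]
    [Module F V] [Finite V] [FiniteDimensional F V] (B : LinearMap.BilinForm F V),
    B.IsAlt → B.Nondegenerate → Nat.card V = q ^ (2 * d) → k ≤ d →
    Nat.card {b : Fin k → V × V // IsFrame B k b} =
      ∏ i ∈ Finset.range k, ((q ^ (2 * (d - i)) - 1) * q ^ (2 * (d - i) - 1)) := by
  intro k
  induction k with
  | zero =>
    intro d V _ _ _ _ B _ _ _ _
    have : Unique {b : Fin 0 → V × V // IsFrame B 0 b} :=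
      { default := ⟨fun i => i.elim0, fun i => i.elim0⟩
        uniq := fun b => Subtype.ext (funext fun i => i.elim0) }
    simp
  | succ k ih =>
    intro d V _ _ _ _ B hB hN hV hk
    classical
    obtain ⟨d', rfl⟩ : ∃ d', d = d' + 1 := ⟨d - 1, by omega⟩
    have : Finite {p : V × V // B p.1 p.2 = 1} := inferInstance
    have : Fintype {p : V × V // B p.1 p.2 = 1} := Fintype.ofFinite _
    have hq0 : 0 < q := by
      rw [← hq]; exact Nat.card_pos
    have hVW : ∀ p : {p : V × V // B p.1 p.2 = 1},
        Nat.card (perpPair B p.1.1 p.1.2) = q ^ (2 * d') := by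
      intro p
      have h := card_perpPair hB p.2
      rw [hV, hq] at h
      have h2 : q ^ (2 * (d' + 1)) = q * (q * q ^ (2 * d')) := by ring
      rw [h2] at h
      exact (Nat.eq_of_mul_eq_mul_left hq0 (Nat.eq_of_mul_eq_mul_left hq0 h)).symm
    let π : {b : Fin (k + 1) → V × V // IsFrame B (k + 1) b} → {p : V × V // B p.1 p.2 = 1} :=
      fun b => ⟨b.1 0, by
        have := (b.2 0 0).2.2
        simpa using this⟩
    have hfib : ∀ p : {p : V × V // B p.1 p.2 = 1}, Nat.card {b // π b = p} =
        ∏ i ∈ Finset.range k, ((q ^ (2 * (d' - i)) - 1) * q ^ (2 * (d' - i) - 1)) := by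
      intro p
      rw [Nat.card_congr (fiberEquiv hB p)]
      exact ih d' _ _ (restrict_isAlt hB _) (restrict_perpPair_nondegenerate hB hN p.2) (hVW p) (by omega)
    rw [← Nat.card_congr (Equiv.sigmaFiberEquiv π), Nat.card_sigma]
    simp_rw [hfib]
    rw [Finset.sum_const, Finset.card_univ, ← Nat.card_eq_fintype_card]
    have hV' : Nat.card V = q ^ (2 * d' + 1 + 1) := by rw [hV]; ring_nf
    rw [card_hyperbolicPairs hB hN hq hV', smul_eq_mul, Finset.prod_range_succ']
    have e2 : 2 * d' + 1 + 1 = 2 * (d' + 1) := by ring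
    rw [e2, Nat.sub_zero]
    have e3 : 2 * (d' + 1) - 1 = 2 * d' + 1 := by omega
    rw [e3, mul_comm]
    congr 1
    apply Finset.prod_congr rfl
    intro i hi
    have : d' + 1 - (i + 1) = d' - i := by omega
    rw [this]

variable {V : Type v} [AddCommGroup V] [Module F V]

/-- The vectors of a frame. -/
def fr {k : ℕ} (b : Fin k → V × V) : Fin k ⊕ Fin k → V := Sum.elim (fun i => (b i).1) (fun i => (b i).2)

theorem fr_pair {B : LinearMap.BilinForm F V} (hB : B.IsAlt) {k : ℕ} {b : Fin k → V × V}
    (hb : IsFrame B k b) (c : Fin k ⊕ Fin k → F) (j : Fin k) :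
    B (∑ s, c s • fr b s) (b j).2 = c (Sum.inl j) ∧
      B (∑ s, c s • fr b s) (b j).1 = - c (Sum.inr j) := by
  classical
  rw [Fintype.sum_sum_type]
  simp only [fr, Sum.elim_inl, Sum.elim_inr, map_add, map_sum, map_smul, LinearMap.add_apply,
    LinearMap.sum_apply, LinearMap.smul_apply, smul_eq_mul]
  constructor
  · have h1 : ∀ i, B (b i).1 (b j).2 = if i = j then 1 else 0 := fun i => (hb i j).2.2
    have h2 : ∀ i, B (b i).2 (b j).2 = 0 := fun i => (hb i j).2.1
    simp [h1, h2]
  · have h1 : ∀ i, B (b i).1 (b j).1 = 0 := fun i => (hb i j).1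
    have h2 : ∀ i, B (b i).2 (b j).1 = - (if i = j then 1 else 0) := by
      intro i
      rw [alt_neg hB, (hb j i).2.2]
      by_cases h : i = j
      · simp [h]
      · simp [h, Ne.symm h]
    simp [h1, h2]

theorem fr_li {B : LinearMap.BilinForm F V} (hB : B.IsAlt) {k : ℕ} {b : Fin k → V × V}
    (hb : IsFrame B k b) : LinearIndependent F (fr b) := by
  rw [Fintype.linearIndependent_iff]
  intro c hc s
  rcases s with j | j
  · have := (fr_pair hB hb c j).1
    rw [hc] at this
    simpa using this.symm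
  · have := (fr_pair hB hb c j).2
    rw [hc] at this
    simpa using this.symm

theorem fr_nd {B : LinearMap.BilinForm F V} (hB : B.IsAlt) {k : ℕ} {b : Fin k → V × V}
    (hb : IsFrame B k b) {u : V} (hu : u ∈ Submodule.span F (Set.range (fr b)))
    (h : ∀ v ∈ Submodule.span F (Set.range (fr b)), B u v = 0) : u = 0 := by
  obtain ⟨c, rfl⟩ := (Submodule.mem_span_range_iff_exists_fun F).mp hu
  have hc : c = 0 := by
    funext s
    rcases s with j | j
    · have h1 := (fr_pair hB hb c j).1
      have h2 : B (∑ s, c s • fr b s) (b j).2 = 0 := h _ (Submodule.subset_span ⟨Sum.inr j, rfl⟩)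
      rw [h2] at h1
      simpa using h1.symm
    · have h1 := (fr_pair hB hb c j).2
      have h2 : B (∑ s, c s • fr b s) (b j).1 = 0 := h _ (Submodule.subset_span ⟨Sum.inl j, rfl⟩)
      rw [h2] at h1
      simpa using h1.symm
  simp [hc]

/-- Counting nondegenerate subspaces. -/
theorem nd_count [FiniteDimensional F V] {q d k : ℕ} (hq : Nat.card F = q) {B : LinearMap.BilinForm F V}
    (hB : B.IsAlt) (hN : B.Nondegenerate) (hV : Nat.card V = q ^ (2 * d)) (hk : k ≤ d) :
    Nat.card {W : Submodule F V // finrank F W = 2 * k ∧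
        ∀ u ∈ W, (∀ v ∈ W, B u v = 0) → u = 0} *
      (q ^ (k ^ 2) * ∏ i ∈ Finset.range k, (q ^ (2 * (i + 1)) - 1)) =
      ∏ i ∈ Finset.range k, ((q ^ (2 * (d - i)) - 1) * q ^ (2 * (d - i) - 1)) := by
  classical
  haveI : Finite V := Module.finite_of_finite F
  have hpart := card_partial hq k d V B hB hN hV hk
  rw [← hpart]
  set NW := {W : Submodule F V // finrank F W = 2 * k ∧ ∀ u ∈ W, (∀ v ∈ W, B u v = 0) → u = 0}
  haveI : Fintype NW := Fintype.ofFinite _
  let π : {b : Fin k → V × V // IsFrame B k b} → NW := fun b =>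
    ⟨Submodule.span F (Set.range (fr b.1)), by
      rw [finrank_span_eq_card (fr_li hB b.2)]
      simp [two_mul], fun u hu h => fr_nd hB b.2 hu h⟩
  have hmemfr : ∀ (W : Submodule F V) (b : Fin k → V × V),
      Submodule.span F (Set.range (fr b)) = W → ∀ i, (b i).1 ∈ W ∧ (b i).2 ∈ W := by
    intro W b h i
    rw [← h]
    exact ⟨Submodule.subset_span ⟨Sum.inl i, rfl⟩, Submodule.subset_span ⟨Sum.inr i, rfl⟩⟩
  have hfib : ∀ W : NW, Nat.card {b // π b = W} =
      q ^ (k ^ 2) * ∏ i ∈ Finset.range k, (q ^ (2 * (i + 1)) - 1) := by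
    intro W
    have e : {b // π b = W} ≃ {b : Fin k → W.1 × W.1 // IsFrame (B.restrict W.1) k b} :=
      { toFun := fun b => ⟨fun i => (⟨(b.1.1 i).1, (hmemfr W.1 b.1.1 (congrArg Subtype.val b.2) i).1⟩,
            ⟨(b.1.1 i).2, (hmemfr W.1 b.1.1 (congrArg Subtype.val b.2) i).2⟩),
            fun i j => b.1.2 i j⟩
        invFun := fun b' => ⟨⟨fun i => (((b'.1 i).1 : V), ((b'.1 i).2 : V)), fun i j => b'.2 i j⟩, by
          apply Subtype.ext
          change Submodule.span F (Set.range (fr fun i => (((b'.1 i).1 : V), ((b'.1 i).2 : V)))) = W.1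
          have hfr : IsFrame B k (fun i => (((b'.1 i).1 : V), ((b'.1 i).2 : V))) := fun i j => b'.2 i j
          apply Submodule.eq_of_le_of_finrank_eq
          · rw [Submodule.span_le]
            rintro _ ⟨s, rfl⟩
            rcases s with j | j
            · exact (b'.1 j).1.2
            · exact (b'.1 j).2.2
          · rw [finrank_span_eq_card (fr_li hB hfr), W.2.1]
            simp [two_mul]⟩
        left_inv := fun b => rfl
        right_inv := fun b => rfl }
    rw [Nat.card_congr e]
    apply card_frames hq k W.1 (B.restrict W.1) (restrict_isAlt hB _)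
    · have hrefl : (B.restrict W.1).IsRefl := (restrict_isAlt hB _).isRefl
      refine (LinearMap.IsRefl.nondegenerate_iff_separatingLeft hrefl).2 ?_
      intro x hx
      apply Subtype.ext
      exact W.2.2 x.1 x.2 (fun v hv => hx ⟨v, hv⟩)
    · rw [Module.natCard_eq_pow_finrank (K := F), W.2.1, hq]
  rw [Nat.card_congr (Equiv.sigmaFiberEquiv π).symm, Nat.card_sigma]
  simp only [hfib, Finset.sum_const, smul_eq_mul, Finset.card_univ, Nat.card_eq_fintype_card]

end Cfsg.Agent.Lib.ElusF.SpCount
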