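import Cfsg.Agent.Lib.ElusF.SpTwo
import Cfsg.Agent.Lib.ElusF.CountP
import Cfsg.Agent.Lib.Classical.SympParabolic

/-!
# Matrices, counting, and the symplectic criterion for totally isotropic subspaces
-/

set_option autoImplicit false
set_option linter.unusedSectionVars false
set_option linter.style.haveILetI false
set_option linter.unusedVariables false

open Polynomial Module Matrix

universe u

namespace Cfsg.Agent.Lib.ElusF.SpMain

open Cfsg Cfsg.Agent.Lib.ElusL.Basic Cfsg.Agent.Lib.ElusL.Cyc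
  Cfsg.Agent.Lib.ElusL.Pos Cfsg.Agent.Lib.ElusF.Form Cfsg.Agent.Lib.ElusF.Step
  Cfsg.Agent.Lib.ElusF.Split Cfsg.Agent.Lib.ElusF.SpModel Cfsg.Agent.Lib.ElusF.SpNeg
  Cfsg.Agent.Lib.ElusF.SpPos Cfsg.Agent.Lib.ElusF.SpPos2 Cfsg.Agent.Lib.ElusF.SpTwo
  Cfsg.Agent.Lib.Classical.SympForm Cfsg.Agent.Lib.SylowLarge.SpForm

variable {F : Type u} [Field F] [Fintype F] {d : ℕ}

theorem fm_std : Fm (RingHom.id F) (-1) (fun u v : Fin d ⊕ Fin d → F => sympForm d F u v) :=
  Rz.fm (Rz.triv (F := F) d 1)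

theorem alt_std (u : Fin d ⊕ Fin d → F) : sympForm d F u u = 0 :=
  sympBilin_isAlt u

theorem iso_std (x : Matrix.symplecticGroup (Fin d) F) :
    Iso (fun u v : Fin d ⊕ Fin d → F => sympForm d F u v)
      (Matrix.toLin' (x : Matrix (Fin d ⊕ Fin d) (Fin d ⊕ Fin d) F)) := by
  intro u v
  rw [Matrix.toLin'_apply, Matrix.toLin'_apply]
  exact (mem_symplecticGroup_iff _).mp x.2 u v

theorem toLin_pow' (A : Matrix (Fin d ⊕ Fin d) (Fin d ⊕ Fin d) F) (r : ℕ) :
    (Matrix.toLin' A : End F (Fin d ⊕ Fin d → F)) ^ r = Matrix.toLin' (A ^ r) := by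
  have := map_pow (Matrix.toLinAlgEquiv' (R := F) (n := Fin d ⊕ Fin d)) A r
  simp

theorem pow_std {x : Matrix.symplecticGroup (Fin d) F} {z : F} {r : ℕ}
    (hx : ((x ^ r : Matrix.symplecticGroup (Fin d) F) : Matrix (Fin d ⊕ Fin d) (Fin d ⊕ Fin d) F) =
      z • (1 : Matrix (Fin d ⊕ Fin d) (Fin d ⊕ Fin d) F)) :
    (Matrix.toLin' (x : Matrix (Fin d ⊕ Fin d) (Fin d ⊕ Fin d) F) :
      End F (Fin d ⊕ Fin d → F)) ^ r = z • 1 := by
  rw [toLin_pow', ← SubmonoidClass.coe_pow, hx, map_smul, Matrix.toLin'_one]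
  rfl

theorem inv_iff (A : Matrix (Fin d ⊕ Fin d) (Fin d ⊕ Fin d) F) (W : Submodule F (Fin d ⊕ Fin d → F)) :
    W.map (Matrix.toLin' A) ≤ W ↔ Inv (Matrix.toLin' A) W := by
  constructor
  · intro h v hv
    exact h (Submodule.mem_map_of_mem hv)
  · rintro h _ ⟨v, hv, rfl⟩
    exact h v hv

theorem ns_std {x : Matrix.symplecticGroup (Fin d) F}
    (hx : ∀ z : F, (x : Matrix (Fin d ⊕ Fin d) (Fin d ⊕ Fin d) F) ≠
      z • (1 : Matrix (Fin d ⊕ Fin d) (Fin d ⊕ Fin d) F)) (z : F) :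
    (Matrix.toLin' (x : Matrix (Fin d ⊕ Fin d) (Fin d ⊕ Fin d) F) :
      End F (Fin d ⊕ Fin d → F)) ≠ z • 1 := by
  intro h
  apply hx z
  apply (Matrix.toLin' (R := F) (m := Fin d ⊕ Fin d) (n := Fin d ⊕ Fin d)).injective
  rw [h, map_smul, Matrix.toLin'_one]
  rfl

section conj

variable {V : Type*} [AddCommGroup V] [Module F V] [FiniteDimensional F V]
  {B : LinearMap.BilinForm F V} {T : End F V} {r : ℕ}

/-- A model with the right dimension is a symplectic matrix. -/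
theorem exists_conj (h : Rz B T r) (hdim : finrank F V = 2 * d) :
    ∃ (e : (Fin d ⊕ Fin d → F) ≃ₗ[F] V) (x : Matrix.symplecticGroup (Fin d) F),
      (∀ u v, B (e u) (e v) = sympForm d F u v) ∧
      (∀ v, e ((x : Matrix (Fin d ⊕ Fin d) (Fin d ⊕ Fin d) F) *ᵥ v) = T (e v)) ∧
      ((x ^ r : Matrix.symplecticGroup (Fin d) F) : Matrix (Fin d ⊕ Fin d) (Fin d ⊕ Fin d) F) =
        (1 : F) • (1 : Matrix (Fin d ⊕ Fin d) (Fin d ⊕ Fin d) F) := by
  classical
  haveI : Finite V := Module.finite_of_finite F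
  have hcard : Nat.card V = (Nat.card F) ^ (2 * d) := by
    rw [Module.natCard_eq_pow_finrank (K := F), hdim]
  obtain ⟨e, he⟩ := exists_form_equiv rfl B h.alt h.nondeg d hcard
  let Y : (Fin d ⊕ Fin d → F) →ₗ[F] (Fin d ⊕ Fin d → F) :=
    e.symm.toLinearMap ∘ₗ T ∘ₗ e.toLinearMap
  let A : Matrix (Fin d ⊕ Fin d) (Fin d ⊕ Fin d) F := LinearMap.toMatrix' Y
  have hA : ∀ v, A *ᵥ v = e.symm (T (e v)) := by
    intro v
    simp [A, Y, LinearMap.toMatrix'_mulVec]
  have hmem : A ∈ Matrix.symplecticGroup (Fin d) F := by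
    rw [mem_symplecticGroup_iff]
    intro u v
    rw [← he, ← he, hA, hA, LinearEquiv.apply_symm_apply, LinearEquiv.apply_symm_apply, h.iso]
  let x : Matrix.symplecticGroup (Fin d) F := ⟨A, hmem⟩
  have hpow : ∀ (k : ℕ) (v : Fin d ⊕ Fin d → F), (A ^ k) *ᵥ v = e.symm ((T ^ k) (e v)) := by
    intro k
    induction k with
    | zero => intro v; simp
    | succ k ih =>
      intro v
      rw [pow_succ, ← Matrix.mulVec_mulVec, hA, ih, LinearEquiv.apply_symm_apply, pow_succ]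
      rfl
  refine ⟨e, x, he, ?_, ?_⟩
  · intro v
    change e (A *ᵥ v) = T (e v)
    rw [hA, LinearEquiv.apply_symm_apply]
  · rw [SubmonoidClass.coe_pow, one_smul]
    change A ^ r = 1
    apply Matrix.toLin'.injective
    apply LinearMap.ext
    intro v
    rw [Matrix.toLin'_apply, hpow, h.pow, Matrix.toLin'_one]
    simp

end conj

section count

variable {q : ℕ}

theorem span_ti {m : ℕ} (s : Fin m → (Fin d ⊕ Fin d → F)) :
    (∀ u ∈ Submodule.span F (Set.range s), ∀ v ∈ Submodule.span F (Set.range s),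
      sympForm d F u v = 0) ↔ ∀ i j, sympBilin d F (s i) (s j) = 0 := by
  constructor
  · intro h i j
    exact h _ (Submodule.subset_span ⟨i, rfl⟩) _ (Submodule.subset_span ⟨j, rfl⟩)
  · intro h u hu v hv
    have h1 : ∀ i, Submodule.span F (Set.range s) ≤ LinearMap.ker (sympBilin d F (s i)) := by
      intro i
      rw [Submodule.span_le]
      rintro _ ⟨j, rfl⟩
      exact h i j
    have h2 : Submodule.span F (Set.range s) ≤ LinearMap.ker ((sympBilin d F).flip v) := by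
      rw [Submodule.span_le]
      rintro _ ⟨i, rfl⟩
      exact h1 i hv
    exact h2 hu

/-- Counting totally isotropic subspaces. -/
theorem ti_count (hq : Fintype.card F = q) {m : ℕ} (hm : m ≤ d) :
    Nat.card {W : Submodule F (Fin d ⊕ Fin d → F) // finrank F W = m ∧
      (∀ u ∈ W, ∀ v ∈ W, sympForm d F u v = 0)} * ∏ j : Fin m, (q ^ (m - j) - 1) =
      ∏ j : Fin m, (q ^ (2 * (d - j)) - 1) := by
  have hq0 : 0 < q := by
    rw [← hq]
    exact Fintype.card_pos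
  have h1 := Cfsg.Agent.Lib.ElusF.CountP.card_pred_mul (V := Fin d ⊕ Fin d → F) hq (k := m)
    (fun W => ∀ u ∈ W, ∀ v ∈ W, sympForm d F u v = 0)
  have h2 : Nat.card {s : Fin m → (Fin d ⊕ Fin d → F) // LinearIndependent F s ∧
      ∀ u ∈ Submodule.span F (Set.range s), ∀ v ∈ Submodule.span F (Set.range s),
        sympForm d F u v = 0} = Nat.card (Cfsg.Agent.Lib.Classical.SympParabolic.TIF (sympBilin d F) m) := by
    apply Nat.card_congr
    apply Equiv.subtypeEquivRight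
    intro s
    rw [span_ti]
    rfl
  rw [h2, Cfsg.Agent.Lib.Classical.SympParabolic.card_TIF sympBilin_isAlt sympBilin_nondegenerate
    (q := q) (by rw [Nat.card_eq_fintype_card, hq]) (finrank_triv d) m, ← Fin.prod_univ_eq_prod_range
    (fun i => q ^ (2 * d - i) - q ^ i)] at h1
  have hfac : ∀ (a : ℕ) (j : Fin m), j.1 ≤ a → q ^ a - q ^ (j : ℕ) = q ^ (j : ℕ) * (q ^ (a - j) - 1) := by
    intro a j hj
    rw [Nat.mul_sub, mul_one, ← pow_add, Nat.add_sub_cancel' hj]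
  have h3 : ∀ j : Fin m, q ^ (2 * d - j) - q ^ (j : ℕ) = q ^ (j : ℕ) * (q ^ (2 * (d - j)) - 1) := by
    intro j
    rw [hfac (2 * d - j) j (by have := j.2; omega)]
    congr 3
    have := j.2
    omega
  rw [Finset.prod_congr rfl (fun j _ => hfac m j (le_of_lt j.2)),
    Finset.prod_congr rfl (fun j _ => h3 j), Finset.prod_mul_distrib, Finset.prod_mul_distrib,
    mul_left_comm] at h1
  exact Nat.eq_of_mul_eq_mul_left (Finset.prod_pos (fun j _ => pow_pos hq0 _)) h1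

theorem ti_dvd (hq : Fintype.card F = q) {m r : ℕ} (hm : m ≤ d) (hr : r.Prime)
    (h : r ∣ Nat.card {W : Submodule F (Fin d ⊕ Fin d → F) // finrank F W = m ∧
      (∀ u ∈ W, ∀ v ∈ W, sympForm d F u v = 0)}) :
    ∃ j, j < m ∧ r ∣ q ^ (2 * (d - j)) - 1 := by
  have h1 : r ∣ ∏ j : Fin m, (q ^ (2 * (d - j)) - 1) := by
    rw [← ti_count hq hm]
    exact h.mul_right _
  obtain ⟨j, -, hj⟩ := (hr.prime.dvd_finsetProd_iff _).mp h1
  exact ⟨j, j.2, hj⟩

end count

end Cfsg.Agent.Lib.ElusF.SpMain
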