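import Cfsg.Agent.Lib.ElusF.SpThm

/-!
# Invariant nondegenerate subspaces of symplectic spaces, prime different from the characteristic
-/

set_option autoImplicit false
set_option linter.unusedSectionVars false
set_option linter.style.haveILetI false
set_option linter.unusedVariables false

open Polynomial Module Matrix

universe u

namespace Cfsg.Agent.Lib.ElusF.SpNd

open Cfsg Cfsg.Agent.Lib.ElusL.Basic Cfsg.Agent.Lib.ElusL.Flag Cfsg.Agent.Lib.ElusL.Cyc
  Cfsg.Agent.Lib.ElusL.Pos Cfsg.Agent.Lib.ElusF.Form Cfsg.Agent.Lib.ElusF.Step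
  Cfsg.Agent.Lib.ElusF.Split Cfsg.Agent.Lib.ElusF.SpModel Cfsg.Agent.Lib.ElusF.SpNeg
  Cfsg.Agent.Lib.ElusF.SpPos Cfsg.Agent.Lib.ElusF.SpPos2 Cfsg.Agent.Lib.ElusF.SpTwo
  Cfsg.Agent.Lib.ElusF.SpMain Cfsg.Agent.Lib.Classical.SympForm

variable {F : Type u} [Field F] [Fintype F] {q r : ℕ} {V : Type*} [AddCommGroup V] [Module F V]
  [FiniteDimensional F V] {B : V → V → F}

/-- The sum of orthogonal pieces in the fixed and the moved parts. -/
theorem combine_nd (hB : Fm (RingHom.id F) (-1) B) {T : End F V} (hT : Iso B T) (hrF : (r : F) ≠ 0)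
    {W₀ W₁ : Submodule F V} (h0 : W₀ ≤ LinearMap.ker (Polynomial.aeval T (X - 1 : F[X])))
    (h1 : W₁ ≤ LinearMap.ker (Polynomial.aeval T (Phi F r))) (hn0 : Nd B W₀) (hn1 : Nd B W₁)
    (hi0 : Inv T W₀) (hi1 : Inv T W₁) :
    Nd B (W₀ ⊔ W₁) ∧ Inv T (W₀ ⊔ W₁) ∧
      finrank F (W₀ ⊔ W₁ : Submodule F V) = finrank F W₀ + finrank F W₁ := by
  have hle : W₁ ≤ hB.orth W₀ := by
    intro v hv w hw
    exact orth01 hB hT hrF (mem_fix.mp (h0 hw)) (h1 hv)
  exact ⟨nd_sup hB hn0 hn1 hle, inv_sup hi0 hi1,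
    finrank_sup_of_disjoint (disjoint_of_orth hB hn0 hle)⟩

/-- Nondegenerate subspaces of the fixed space. -/
theorem nd0_cap (hB : Fm (RingHom.id F) (-1) B) (hA : ∀ u, B u u = 0) {T : End F V} (hT : Iso B T)
    (hTr : T ^ r = 1) (hr : r.Prime) (hrF : (r : F) ≠ 0) {t : ℕ}
    (ht : 2 * t ≤ finrank F (LinearMap.ker (Polynomial.aeval T (X - 1 : F[X])))) :
    ∃ W : Submodule F V, W ≤ LinearMap.ker (Polynomial.aeval T (X - 1 : F[X])) ∧ Nd B W ∧ Inv T W ∧
      finrank F W = 2 * t := by
  have hinj : Function.Injective T :=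
    inj_of_pow (c := 1) one_ne_zero hr.ne_zero (by rw [hTr, one_smul])
  set K := LinearMap.ker (Polynomial.aeval T (X - 1 : F[X])) with hK
  have hnd0 : Nd B K := by
    have := nd0 hB hT hrF hTr hB.nd_top (U := ⊤) (fun v _ => trivial)
    rwa [top_inf_eq] at this
  have hKi : Inv T K := inv_ker T _
  have hinvsub : ∀ C : Submodule F V, C ≤ K → Inv T C := by
    intro C hC v hv
    rw [mem_fix.mp (hC hv)]
    exact hv
  obtain ⟨W, h1, h2, h3, h4⟩ := ndcap hB hT hinj (d := 2) (by norm_num) (U₀ := K)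
    (fun U hU _ hUi hpos => by
      obtain ⟨C, h1, h2, h3⟩ := exists_plane hB hA (W := U) ‹_› hpos
      exact ⟨C, h1, h2, hinvsub C (h1.trans hU), h3⟩) t K le_rfl hnd0 hKi ht
  exact ⟨W, h1, h2, h3, h4⟩

/-- The general positive statement. -/
theorem pos_gen (hB : Fm (RingHom.id F) (-1) B) (hA : ∀ u, B u u = 0) {T : End F V} (hT : Iso B T)
    (hTr : T ^ r = 1) (hr : r.Prime) (hrF : (r : F) ≠ 0) {c : ℕ} (hc0 : 0 < c) (hce : Even c)
    (hdvd : c ∣ finrank F (LinearMap.ker (Polynomial.aeval T (Phi F r))))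
    (hstep : ∀ U : Submodule F V, U ≤ LinearMap.ker (Polynomial.aeval T (Phi F r)) → Nd B U →
      Inv T U → 0 < finrank F U → ∃ C : Submodule F V, C ≤ U ∧ Nd B C ∧ Inv T C ∧ finrank F C = c)
    {m : ℕ} (hme : Even m) (hm : m ≤ finrank F V) (hmod : m % c ≤ finrank F V % c) :
    ∃ W : Submodule F V, Nd B W ∧ Inv T W ∧ finrank F W = m := by
  have hinj : Function.Injective T :=
    inj_of_pow (c := 1) one_ne_zero hr.ne_zero (by rw [hTr, one_smul])
  set K₀ := LinearMap.ker (Polynomial.aeval T (X - 1 : F[X])) with hK₀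
  set K₁ := LinearMap.ker (Polynomial.aeval T (Phi F r)) with hK₁
  have hnd1 : Nd B K₁ := by
    have := nd1 hB hT hrF hTr hB.nd_top (U := ⊤) (fun v _ => trivial)
    rwa [top_inf_eq] at this
  have hsum : finrank F V = finrank F K₀ + finrank F K₁ := by
    have := (split01 hrF hTr (U := ⊤) (fun v _ => trivial)).2
    rwa [top_inf_eq, top_inf_eq, finrank_top] at this
  obtain ⟨s₁, hs₁⟩ := hdvd
  have hmodk : finrank F V % c = finrank F K₀ % c := by
    rw [hsum, hs₁, Nat.add_mul_mod_self_left]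
  have hkle : finrank F V % c ≤ finrank F K₀ := by
    rw [hmodk]
    exact Nat.mod_le _ _
  have hm' := Nat.div_add_mod m c
  set s := min (m / c) s₁ with hs
  have hsm : s ≤ m / c := min_le_left _ _
  have hss₁ : s ≤ s₁ := min_le_right _ _
  have hle : c * s ≤ c * (m / c) := Nat.mul_le_mul_left c hsm
  have hle₁ : c * s ≤ c * s₁ := Nat.mul_le_mul_left c hss₁
  obtain ⟨W₁, h1, h2, h3, h4⟩ := ndcap hB hT hinj hc0 (U₀ := K₁)
    (fun U hU _ hUi hpos => hstep U hU ‹_› hUi hpos) s K₁ le_rfl hnd1 (inv_ker T _) (by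
      rw [hs₁]
      exact hle₁)
  have ht0 : m - c * s ≤ finrank F K₀ := by
    by_cases hcc : m / c ≤ s₁
    · have h5 : s = m / c := min_eq_left hcc
      rw [h5]
      omega
    · have h5 : s = s₁ := min_eq_right (by omega)
      rw [h5]
      omega
  have hev : Even (m - c * s) := by
    have h5 : Even (c * s) := hce.mul_right s
    exact (Nat.even_sub (by omega)).mpr (by simp [hme, h5])
  obtain ⟨t, ht⟩ := hev
  have ht2 : 2 * t ≤ finrank F K₀ := by omega
  obtain ⟨W₀, h5, h6, h7, h8⟩ := nd0_cap hB hA hT hTr hr hrF (t := t) ht2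
  obtain ⟨h9, h10, h11⟩ := combine_nd hB hT hrF h5 h1 h6 h2 h7 h3
  refine ⟨W₀ ⊔ W₁, h9, h10, ?_⟩
  rw [h11, h8, h4]
  omega

/-- The step for odd order. -/
theorem step_odd (hB : Fm (RingHom.id F) (-1) B) (hA : ∀ u, B u u = 0) {T : End F V} (hT : Iso B T)
    (hTr : T ^ r = 1) (hq : Fintype.card F = q) (hr : r.Prime) (hrF : (r : F) ≠ 0) (hrq : ¬ r ∣ q)
    (hi : Odd (orderOf (q : ZMod r))) {U : Submodule F V}
    (hU₁ : U ≤ LinearMap.ker (Polynomial.aeval T (Phi F r))) (hU : Nd B U) (hUi : Inv T U)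
    (hpos : 0 < finrank F U) :
    ∃ C : Submodule F V, C ≤ U ∧ Nd B C ∧ Inv T C ∧ finrank F C = 2 * orderOf (q : ZMod r) := by
  have hinj : Function.Injective T :=
    inj_of_pow (c := 1) one_ne_zero hr.ne_zero (by rw [hTr, one_smul])
  have hss : SS T := ss_of_pow hrF one_ne_zero (by rw [hTr, one_smul])
  obtain ⟨W, h1, h2, h3, h4⟩ := ti_odd hB hA hT hTr hq hr hrF hrq hi hU₁ hUi hpos
  obtain ⟨C, -, h6, h7, h8, h9⟩ := hyp_piece hB hT hinj hss hU hUi h1 h2 h3
  exact ⟨C, h6, h7, h8, by rw [h9, h4]⟩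

/-- A cyclic subspace for an irreducible factor is nondegenerate unless totally isotropic. -/
theorem cyc_nd (hB : Fm (RingHom.id F) (-1) B) {T : End F V} (hT : Iso B T)
    (hinj : Function.Injective T) {g : F[X]} (hg : Irreducible g) {u : V} (hu0 : u ≠ 0)
    (hu : Polynomial.aeval T g u = 0) (hne : ¬ TI B (cyc T u)) : Nd B (cyc T u) := by
  rw [hB.nd_iff_disjoint, disjoint_iff]
  set C := cyc T u with hC
  have hCi : Inv T C := cyc_inv T u
  set R := C ⊓ hB.orth C with hR
  have hRi : Inv T R := hB.inv_inf hCi (hB.inv_orth hT hinj hCi)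
  have hCg : C ≤ LinearMap.ker (Polynomial.aeval T g) := by
    rintro _ ⟨P, rfl⟩
    rw [LinearMap.mem_ker, hcomm, mul_comm, ← hcomm, hu, map_zero]
  by_contra hbot
  have hRpos : 0 < finrank F R := by
    rw [Module.finrank_pos_iff_exists_ne_zero]
    obtain ⟨x, hx, hx0⟩ := Submodule.exists_mem_ne_zero_of_ne_bot hbot
    exact ⟨⟨x, hx⟩, fun h => hx0 (congrArg Subtype.val h)⟩
  have hdvd := natDegree_dvd_inf hg hRi
  rw [inf_eq_left.mpr ((inf_le_left : R ≤ C).trans hCg)] at hdvd
  have hle := Nat.le_of_dvd hRpos hdvd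
  have hfin := cyc_finrank hg hu0 hu
  have hRC : R = C := Submodule.eq_of_le_of_finrank_le inf_le_left (by
    rw [hfin]
    exact hle)
  apply hne
  rw [hB.ti_iff_le_orth]
  calc C = R := hRC.symm
    _ ≤ hB.orth C := inf_le_right

/-- The step for even order. -/
theorem step_even {Bf : LinearMap.BilinForm F V} {T : End F V} (h : Rz Bf T r)
    (hq : Fintype.card F = q) (hr : r.Prime) (hr2 : r ≠ 2) (hrF : (r : F) ≠ 0) (hrq : ¬ r ∣ q) {e : ℕ}
    (hi : orderOf (q : ZMod r) = 2 * e) (he : 0 < e) {U : Submodule F V}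
    (hU₁ : U ≤ LinearMap.ker (Polynomial.aeval T (Phi F r))) (hU : Nd (fun u v => Bf u v) U)
    (hUi : Inv T U) (hpos : 0 < finrank F U) :
    ∃ C : Submodule F V, C ≤ U ∧ Nd (fun u v => Bf u v) C ∧ Inv T C ∧ finrank F C = 2 * e := by
  classical
  have hB := Rz.fm h
  have hinj : Function.Injective T :=
    inj_of_pow (c := 1) one_ne_zero hr.ne_zero (by rw [h.pow, one_smul])
  obtain ⟨S, hS, hprod, -⟩ := exists_factors hq hr hrF hrq
  rw [hi] at hS
  have hcop : ∀ g ∈ S, ∀ k ∈ S, g ≠ k → IsCoprime g k := by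
    intro g hg k hk hne
    obtain ⟨hgi, hgm, -⟩ := hS g hg
    obtain ⟨hki, hkm, -⟩ := hS k hk
    refine hgi.coprime_iff_not_dvd.mpr ?_
    intro hd
    exact hne (Polynomial.eq_of_monic_of_associated hgm hkm (hgi.associated_of_dvd hki hd))
  have h3 := finrank_sum_factors hUi S hcop
  rw [hprod, inf_eq_left.mpr hU₁] at h3
  obtain ⟨g, hgS, hgpos⟩ : ∃ g ∈ S,
      0 < finrank F (U ⊓ LinearMap.ker (Polynomial.aeval T g) : Submodule F V) := by
    by_contra hcon
    push Not at hcon
    have h4 : ∑ g ∈ S, finrank F (U ⊓ LinearMap.ker (Polynomial.aeval T g) : Submodule F V) = 0 :=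
      Finset.sum_eq_zero (fun g hg => by have := hcon g hg; omega)
    omega
  obtain ⟨hgi, hgm, hgr, hg1, hgd⟩ := hS g hgS
  have hrq' := dvd_pow_add_one (q := q) hr hi he
  obtain ⟨b, hb⟩ := hgr
  have hsep : (X ^ r - 1 : F[X]).Separable := by
    have := separable_X_pow_sub_C (1 : F) hrF one_ne_zero
    simpa using this
  have hcopb : IsCoprime g b := by
    rw [hb] at hsep
    exact hsep.isCoprime
  set E := U ⊓ LinearMap.ker (Polynomial.aeval T g) with hE
  have hEi : Inv T E := hB.inv_inf hUi (inv_ker T g)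
  have hsup := (sup_ker hcopb hUi (fun w _ => by
    rw [← hb]
    simp [h.pow])).1
  have hEnd : Nd (fun u v => Bf u v) E := hB.nd_of_orth_sum hU hsup (fun x hx y hy =>
    orth_fac h hq hr.ne_zero hrq' hcopb hx.2 hy.2)
  by_cases hex : ∃ u ∈ E, Bf u (T u) ≠ 0
  · obtain ⟨u, huE, hu⟩ := hex
    have hu0 : u ≠ 0 := by
      rintro rfl
      simp at hu
    have hgu : Polynomial.aeval T g u = 0 := LinearMap.mem_ker.mp huE.2
    refine ⟨cyc T u, (cyc_le hEi huE).trans inf_le_left, ?_, cyc_inv T u, ?_⟩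
    · apply cyc_nd hB h.iso hinj hgi hu0 hgu
      intro hTI
      exact hu (hTI u (self_mem_cyc T u) (T u) (cyc_inv T u u (self_mem_cyc T u)))
    · rw [cyc_finrank hgi hu0 hgu, hgd]
  · exfalso
    push Not at hex
    obtain ⟨⟨v, hvE⟩, hv0⟩ : ∃ v : E, v ≠ 0 := by
      haveI := Module.nontrivial_of_finrank_pos (R := F) hgpos
      exact exists_ne 0
    have hv0' : v ≠ 0 := fun h => hv0 (Subtype.ext h)
    have hTinv : ∀ x, T ((T ^ (r - 1)) x) = x := by
      intro x
      have h1 : T * T ^ (r - 1) = 1 := by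
        rw [← pow_succ', Nat.sub_add_cancel hr.one_le, h.pow]
      have h2 := congrArg (fun S : End F V => S x) h1
      simpa using h2
    have hTpow : ∀ x ∈ E, (T ^ (r - 1)) x ∈ E := fun x hx => by
      have := hEi.aeval (X ^ (r - 1)) x hx
      simpa using this
    have hkey : ∀ x ∈ E, Bf x (T v - (T ^ (r - 1)) v) = 0 := by
      intro x hx
      have h1 := hex (x + v) (E.add_mem hx hvE)
      have h2 := hex x hx
      have h3' := hex v hvE
      have e1 : Bf (x + v) (T (x + v)) = Bf x (T x) + Bf x (T v) + (Bf v (T x) + Bf v (T v)) := by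
        simp only [map_add, LinearMap.add_apply]
        ring
      rw [e1, h2, h3', add_zero, zero_add] at h1
      have h4 : Bf v (T x) = - Bf x ((T ^ (r - 1)) v) := by
        have h5 := h.iso ((T ^ (r - 1)) v) x
        rw [hTinv] at h5
        rw [h5]
        exact (h.alt.neg_eq _ _).symm
      rw [h4] at h1
      rw [map_sub]
      rw [sub_eq_add_neg]
      exact h1
    have h5 : T v - (T ^ (r - 1)) v = 0 := by
      apply hEnd _ (E.sub_mem (hEi v hvE) (hTpow v hvE))
      intro x hx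
      have := hkey x hx
      change Bf (T v - (T ^ (r - 1)) v) x = 0
      rw [← h.alt.neg_eq, this, neg_zero]
    have h6 : T (T v) = v := by
      have h7 : T v = (T ^ (r - 1)) v := sub_eq_zero.mp h5
      rw [h7, hTinv]
    have h7 : T v = v := by
      obtain ⟨a, ha⟩ := hr.odd_of_ne_two hr2
      have h8 : ∀ n : ℕ, (T ^ (2 * n)) v = v := by
        intro n
        induction n with
        | zero => simp
        | succ n ih =>
          have : 2 * (n + 1) = 2 * n + 2 := by ring
          rw [this, pow_add, Module.End.mul_apply, pow_two, Module.End.mul_apply, h6, ih]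
      have h9 : (T ^ r) v = T v := by
        rw [ha, pow_succ', Module.End.mul_apply, h8]
      rw [h.pow] at h9
      exact h9.symm
    have h8 : v ∈ LinearMap.ker (Polynomial.aeval T (Phi F r)) := hU₁ hvE.1
    obtain ⟨a', b', hab⟩ := isCoprime_Phi (F := F) hrF
    have h9 : Polynomial.aeval T (a' * (X - 1) + b' * Phi F r) v = v := by
      rw [hab]
      simp
    rw [map_add, map_mul, map_mul, LinearMap.add_apply, Module.End.mul_apply, Module.End.mul_apply,
      LinearMap.mem_ker.mp h8, map_zero, add_zero] at h9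
    have h10 : Polynomial.aeval T (X - 1 : F[X]) v = 0 := mem_fix.mpr h7
    rw [h10, map_zero] at h9
    exact hv0' h9.symm

/-- A hyperbolic pair spans a nondegenerate plane. -/
theorem plane_of_pair (hB : Fm (RingHom.id F) (-1) B) (hA : ∀ u, B u u = 0) {u v : V}
    (huv : B u v ≠ 0) : Nd B (Submodule.span F {u, v}) ∧ finrank F (Submodule.span F {u, v}) = 2 := by
  have hu0' : u ≠ 0 := by
    rintro rfl
    rw [hB.zero_l] at huv
    exact huv rfl
  have hvu : B v u = - B u v := by
    rw [hB.herm u v]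
    simp
  have hind : LinearIndependent F ![u, v] := by
    rw [LinearIndependent.pair_iff]
    intro a b hab
    have h1 : B u (a • u + b • v) = 0 := by
      rw [hab]
      exact hB.zero_r u
    rw [hB.add_r, smul_r' hB, smul_r' hB, hA, mul_zero, zero_add] at h1
    have hb : b = 0 := (mul_eq_zero.mp h1).resolve_right huv
    subst hb
    rw [zero_smul, add_zero] at hab
    exact ⟨(smul_eq_zero.mp hab).resolve_right hu0', rfl⟩
  constructor
  · intro w hw h
    obtain ⟨a, b, rfl⟩ := Submodule.mem_span_pair.mp hw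
    have h1 := h u (Submodule.subset_span (by simp))
    have h2 := h v (Submodule.subset_span (by simp))
    rw [hB.add_l, hB.smul_l, hB.smul_l, hA, mul_zero, zero_add, hvu] at h1
    rw [hB.add_l, hB.smul_l, hB.smul_l, hA, mul_zero, add_zero] at h2
    have ha : a = 0 := (mul_eq_zero.mp h2).resolve_right huv
    have hb : b = 0 := (mul_eq_zero.mp h1).resolve_right (neg_ne_zero.mpr huv)
    rw [ha, hb]
    simp
  · have := finrank_span_eq_card hind
    simp only [Fintype.card_fin] at this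
    have h3 : Set.range ![u, v] = {u, v} := by
      ext x
      simp only [Matrix.range_cons, Matrix.range_empty, Set.union_empty, Set.mem_union,
        Set.mem_singleton_iff, Set.mem_insert_iff]
    rwa [h3] at this

/-- The step for `T ^ 2 = -1`. -/
theorem step_minus (hB : Fm (RingHom.id F) (-1) B) (hA : ∀ u, B u u = 0) {T : End F V} (hT : Iso B T)
    (hF2 : (2 : F) ≠ 0) (hTr : T ^ 2 = (-1 : F) • 1) {U : Submodule F V} (hU : Nd B U)
    (hUi : Inv T U) (hpos : 0 < finrank F U) :
    ∃ C : Submodule F V, C ≤ U ∧ Nd B C ∧ Inv T C ∧ finrank F C = 2 := by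
  have hTT : ∀ v, T (T v) = - v := by
    intro v
    have := congrArg (fun S : End F V => S v) hTr
    simpa [sq] using this
  obtain ⟨⟨v₀, hv₀⟩, hv0⟩ : ∃ v : U, v ≠ 0 := by
    haveI := Module.nontrivial_of_finrank_pos (R := F) hpos
    exact exists_ne 0
  have hv0' : v₀ ≠ 0 := fun h => hv0 (Subtype.ext h)
  have hneg : ∀ x y, B x y = - B y x := by
    intro x y
    rw [hB.herm y x]
    simp
  by_cases hex : ∃ u ∈ U, B u (T u) ≠ 0
  · obtain ⟨u, huU, hu⟩ := hex
    obtain ⟨h1, h2⟩ := plane_of_pair hB hA hu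
    refine ⟨Submodule.span F {u, T u}, ?_, h1, ?_, h2⟩
    · rw [Submodule.span_le]
      rintro x (rfl | rfl)
      · exact huU
      · exact hUi _ huU
    · intro w hw
      obtain ⟨a, b, rfl⟩ := Submodule.mem_span_pair.mp hw
      rw [map_add, map_smul, map_smul, hTT]
      apply Submodule.add_mem
      · exact Submodule.smul_mem _ _ (Submodule.subset_span (by simp))
      · exact Submodule.smul_mem _ _ (Submodule.neg_mem _ (Submodule.subset_span (by simp)))
  · exfalso
    push Not at hex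
    have hkey : ∀ x ∈ U, B (T v₀) x = 0 := by
      intro x hx
      have h1 := hex (x + v₀) (U.add_mem hx hv₀)
      have h2 := hex x hx
      have h3 := hex v₀ hv₀
      rw [map_add, hB.add_l, hB.add_r, hB.add_r, h2, h3, add_zero, zero_add] at h1
      have h4 : B v₀ (T x) = - B (T v₀) x := by
        rw [← hT v₀ (T x), hTT, hB.neg_r]
      have h5 : B x (T v₀) = - B (T v₀) x := hneg _ _
      rw [h4, h5] at h1
      have h6 : (2 : F) * B (T v₀) x = 0 := by
        have : (2 : F) * B (T v₀) x = - (- B (T v₀) x + - B (T v₀) x) := by ring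
        rw [this, h1, neg_zero]
      exact (mul_eq_zero.mp h6).resolve_left hF2
    have h5 : T v₀ = 0 := hU _ (hUi _ hv₀) hkey
    apply hv0'
    have h6 := hTT v₀
    rw [h5, map_zero] at h6
    exact neg_eq_zero.mp h6.symm

end Cfsg.Agent.Lib.ElusF.SpNd
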