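import Cfsg.Agent.Lib.ElusF.SpMain

/-!
# The symplectic criterion for totally isotropic subspaces
-/

set_option autoImplicit false
set_option linter.unusedSectionVars false
set_option linter.style.haveILetI false
set_option linter.unusedVariables false

open Polynomial Module Matrix

universe u

namespace Cfsg.Agent.Lib.ElusF.SpThm

open Cfsg Cfsg.Agent.Lib.ElusL.Basic Cfsg.Agent.Lib.ElusL.Cyc
  Cfsg.Agent.Lib.ElusL.Pos Cfsg.Agent.Lib.ElusF.Form Cfsg.Agent.Lib.ElusF.Step
  Cfsg.Agent.Lib.ElusF.Split Cfsg.Agent.Lib.ElusF.SpModel Cfsg.Agent.Lib.ElusF.SpNeg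
  Cfsg.Agent.Lib.ElusF.SpPos Cfsg.Agent.Lib.ElusF.SpPos2 Cfsg.Agent.Lib.ElusF.SpTwo
  Cfsg.Agent.Lib.ElusF.SpMain Cfsg.Agent.Lib.Classical.SympForm

variable {F : Type u} [Field F] [Fintype F] {d : ℕ}

/-- A model without invariant totally isotropic `m`-spaces contradicts the left-hand side. -/
theorem false_of_model {V : Type*} [AddCommGroup V] [Module F V] [FiniteDimensional F V]
    {B : LinearMap.BilinForm F V} {T : End F V} {r m : ℕ} (h : Rz B T r) (hdim : finrank F V = 2 * d)
    (hNS : ∀ z : F, T ≠ z • 1)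
    (hno : ∀ W : Submodule F V, TI (fun u v => B u v) W → Inv T W → finrank F W ≠ m)
    (hL : ∀ x : ↥(Matrix.symplecticGroup (Fin d) F),
      (∃ z : F, ((x ^ r : ↥(Matrix.symplecticGroup (Fin d) F)) : Matrix (Fin d ⊕ Fin d) (Fin d ⊕ Fin d) F) = z • (1 : Matrix (Fin d ⊕ Fin d) (Fin d ⊕ Fin d) F)) →
      (∀ z : F, (x : Matrix (Fin d ⊕ Fin d) (Fin d ⊕ Fin d) F) ≠ z • (1 : Matrix (Fin d ⊕ Fin d) (Fin d ⊕ Fin d) F)) →
      ∃ W : Submodule F (Fin d ⊕ Fin d → F), Module.finrank F ↥W = m ∧ (∀ u ∈ W, ∀ v ∈ W, Cfsg.sympForm d F u v = 0) ∧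
        W.map (Matrix.toLin' (x : Matrix (Fin d ⊕ Fin d) (Fin d ⊕ Fin d) F)) ≤ W) : False := by
  obtain ⟨e, x, he, hx, hpow⟩ := exists_conj (d := d) h hdim
  obtain ⟨W', hW'm, hW'TI, hW'map⟩ := hL x ⟨1, hpow⟩ (by
    intro z hz
    apply hNS z
    apply LinearMap.ext
    intro v
    obtain ⟨w, rfl⟩ := e.surjective v
    rw [← hx, hz, Matrix.smul_mulVec, Matrix.one_mulVec, map_smul]
    rfl)
  apply hno (W'.map e.toLinearMap)
  · rintro _ ⟨u, hu, rfl⟩ _ ⟨v, hv, rfl⟩
    change B (e u) (e v) = 0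
    rw [he]
    exact hW'TI u hu v hv
  · rintro _ ⟨u, hu, rfl⟩
    refine ⟨(x : Matrix (Fin d ⊕ Fin d) (Fin d ⊕ Fin d) F) *ᵥ u, hW'map ?_, hx u⟩
    exact ⟨u, hu, rfl⟩
  · rw [LinearEquiv.finrank_map_eq, hW'm]

theorem main {p : ℕ} [Fact p.Prime] [CharP F p] {q : ℕ} (hq : Fintype.card F = q)
    (d m : ℕ) (hd : 2 ≤ d) (hm : 1 ≤ m) (hmd : m ≤ d)
    (r : ℕ) [Fact r.Prime]
    (hrΩ : r ∣ Nat.card {W : Submodule F (Fin d ⊕ Fin d → F) // Module.finrank F ↥W = m ∧ (∀ u ∈ W, ∀ v ∈ W, Cfsg.sympForm d F u v = 0)})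
    (i c : ℕ) (hi : i = orderOf (q : ZMod r)) (hc : c = if Even i then i else 2 * i) :
    (∀ x : ↥(Matrix.symplecticGroup (Fin d) F),
      (∃ z : F, ((x ^ r : ↥(Matrix.symplecticGroup (Fin d) F)) : Matrix (Fin d ⊕ Fin d) (Fin d ⊕ Fin d) F) = z • (1 : Matrix (Fin d ⊕ Fin d) (Fin d ⊕ Fin d) F)) →
      (∀ z : F, (x : Matrix (Fin d ⊕ Fin d) (Fin d ⊕ Fin d) F) ≠ z • (1 : Matrix (Fin d ⊕ Fin d) (Fin d ⊕ Fin d) F)) →
      ∃ W : Submodule F (Fin d ⊕ Fin d → F), Module.finrank F ↥W = m ∧ (∀ u ∈ W, ∀ v ∈ W, Cfsg.sympForm d F u v = 0) ∧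
        W.map (Matrix.toLin' (x : Matrix (Fin d ⊕ Fin d) (Fin d ⊕ Fin d) F)) ≤ W) ↔
    ((r = 2 ∧ p ≠ 2 ∧ (Even m ∨ q % 4 = 1)) ∨
     (r ≠ p ∧ 2 < r ∧ i ≤ m ∧ 2 * (m % i) ≤ (2 * d) % c ∧ (Odd i ∨ (r - 1) / i + 2 * (m / i) ≤ (2 * d) / i))) := by
  have hr : r.Prime := Fact.out
  have hq1 : 1 ≤ q := by
    rw [← hq]
    exact Fintype.card_pos
  have hfin : finrank F (Fin d ⊕ Fin d → F) = 2 * d := finrank_triv d
  constructor
  · intro hL
    by_contra hR
    push Not at hR
    obtain ⟨hR1, hR2⟩ := hR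
    obtain ⟨j, hj, hjd⟩ := ti_dvd hq hmd hr hrΩ
    have hrp : r ≠ p := by
      rintro rfl
      exact Cfsg.Agent.Lib.ElusL.Bridge.char_not_dvd hq (by omega) hjd
    obtain ⟨hrF, hrq⟩ := Cfsg.Agent.Lib.ElusL.Bridge.r_facts hq hr hrp
    have hipos : 0 < i := by
      rw [hi]
      exact ord_pos hr hrq
    have hidvd : i ∣ 2 * (d - j) := by
      rw [hi]
      exact (ord_dvd_iff hq1 _).mpr hjd
    by_cases hr2 : r = 2
    · subst hr2
      have hp2 : p ≠ 2 := fun h => hrp h.symm
      obtain ⟨hm1, hm2⟩ := hR1 rfl hp2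
      have h2q : ¬ 2 ∣ q := hrq
      have hq3 : ¬ IsSquare (-1 : F) := by
        rw [FiniteField.isSquare_neg_one_iff, hq]
        omega
      have h3 : ∀ c : F, c * c ≠ -1 := fun c hc => hq3 ⟨c, hc.symm⟩
      have hJJ : Matrix.J (Fin d) F * Matrix.J (Fin d) F = (-1 : F) • (1 : Matrix (Fin d ⊕ Fin d) (Fin d ⊕ Fin d) F) := by
        rw [Matrix.J_squared]
        simp
      obtain ⟨W, hWm, -, hWi⟩ := hL ⟨Matrix.J (Fin d) F, SymplecticGroup.J_mem _ _⟩
        ⟨-1, by
          rw [SubmonoidClass.coe_pow]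
          change Matrix.J (Fin d) F ^ 2 = _
          rw [sq, hJJ]⟩
        (by
          intro z hz
          have h1 := congrFun (congrFun hz (Sum.inl ⟨0, by omega⟩)) (Sum.inr ⟨0, by omega⟩)
          simp [Matrix.J] at h1)
      have hT2 : (Matrix.toLin' (Matrix.J (Fin d) F) : End F (Fin d ⊕ Fin d → F)) ^ 2 = (-1 : F) • 1 := by
        rw [toLin_pow', sq, hJJ, map_smul, Matrix.toLin'_one]
        rfl
      have h0 : Polynomial.aeval (Matrix.toLin' (Matrix.J (Fin d) F) : End F (Fin d ⊕ Fin d → F))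
          (X ^ 2 + 1 : F[X]) = 0 := by
        rw [map_add, map_pow, aeval_X, map_one, hT2]
        apply LinearMap.ext
        intro v
        simp
      have h2 := natDegree_dvd (irr_sq h3) h0 ((inv_iff _ W).mp hWi)
      have h4 : (X ^ 2 + 1 : F[X]).natDegree = 2 := by
        have := natDegree_X_pow_add_C (n := 2) (r := (1 : F))
        simpa using this
      rw [h4, hWm] at h2
      exact hm1 (even_iff_two_dvd.mpr h2)
    · have hrodd : Odd r := hr.odd_of_ne_two hr2
      have hr3 : 2 < r := by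
        have := hr.two_le
        omega
      have hR3 := hR2 hrp hr3
      by_cases hev : Even i
      · -- even order
        obtain ⟨e, he⟩ : ∃ e, i = 2 * e := by
          obtain ⟨e, he⟩ := hev
          exact ⟨e, by omega⟩
        have hepos : 0 < e := by omega
        have hci : c = i := by rw [hc, if_pos hev]
        have hord : orderOf (q : ZMod r) = 2 * e := by rw [← hi, he]
        have hbig : 2 * e ≤ 2 * d := by
          rw [← he]
          exact (Nat.le_of_dvd (by omega) hidvd).trans (by omega)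
        by_cases hA : (2 * d) % i < 2 * (m % i)
        · obtain ⟨V, i1, i2, i3, B, T, hRz, hf, hD, hNS⟩ := exists_alpha_even (d := d) hq hr hr2 hrF hrq hord hepos hbig
          refine false_of_model hRz hf hNS ?_ hL
          intro W hTI hInv hWm
          have h1 := bound_tail (Rz.fm hRz) hRz.iso hrF hRz.pow hr (d := i)
            (fun g hg hgd => by rw [hi]; exact natDegree_factor hq hr hrF hrq hg hgd) hTI hInv
          rw [hD, hWm, ← he] at h1
          omega
        · push Not at hA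
          have hkm : i ≤ m := by
            by_contra hlt
            push Not at hlt
            rw [Nat.mod_eq_of_lt hlt] at hA
            have h1 : (2 * d) % i = (2 * j) % i := by
              have h2 : 2 * d = 2 * (d - j) + 2 * j := by omega
              rw [h2, Nat.add_mod, Nat.mod_eq_zero_of_dvd hidvd, zero_add, Nat.mod_mod]
            have h3 := Nat.mod_le (2 * j) i
            omega
          have hnot := hR3 hkm (by rw [hci]; exact hA)
          have hbeta : (2 * d) / i < (r - 1) / i + 2 * (m / i) := hnot.2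
          rw [he] at hbeta hkm
          obtain ⟨V, i1, i2, i3, B, T, hRz, hf, hNS, hno⟩ := exists_beta (d := d) (m := m) hq hr hr2 hrF hrq hord hepos hmd hkm hbeta
          exact false_of_model hRz hf hNS hno hL
      · -- odd order
        have hodd : Odd i := Nat.not_even_iff_odd.mp hev
        have hci : c = 2 * i := by rw [hc, if_neg hev]
        have hcop : Nat.Coprime i 2 := hodd.coprime_two_right
        have hdvd' : i ∣ d - j := hcop.dvd_of_dvd_mul_left hidvd
        have hbig : 2 * i ≤ 2 * d := by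
          have := Nat.le_of_dvd (by omega) hdvd'
          omega
        obtain ⟨V, i1, i2, i3, B, T, hRz, hf, hD, hNS⟩ := exists_alpha_odd (d := d) hq hr hr2 hrF hrq hi.symm hipos hbig
        refine false_of_model hRz hf hNS ?_ hL
        intro W hTI hInv hWm
        have h1 := bound_tail (Rz.fm hRz) hRz.iso hrF hRz.pow hr (d := i)
          (fun g hg hgd => by rw [hi]; exact natDegree_factor hq hr hrF hrq hg hgd) hTI hInv
        rw [hD, hWm] at h1
        by_cases hkm : i ≤ m
        · have hnot := hR3 hkm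
          rw [hci] at hnot
          have h2 := hnot h1
          exact (Nat.not_even_iff_odd.mpr hodd) (Nat.not_odd_iff_even.mp h2.1)
        · push Not at hkm
          rw [Nat.mod_eq_of_lt hkm] at h1
          have h3 : (2 * d) % (2 * i) = 2 * j := by
            rw [Nat.mul_mod_mul_left]
            have h4 : d = (d - j) + j := by omega
            have h5 : d % i = j := by
              rw [h4, Nat.add_mod, Nat.mod_eq_zero_of_dvd hdvd', zero_add, Nat.mod_mod,
                Nat.mod_eq_of_lt (by omega)]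
            rw [h5]
          omega
  · intro hR x ⟨z, hz⟩ hns
    have hB := fm_std (F := F) (d := d)
    have hA := alt_std (F := F) (d := d)
    have hT := iso_std x
    have hTr := pow_std hz
    have hz2 : z ^ 2 = 1 := scalar_sq hB hT hTr (by rw [hfin]; omega)
    suffices hW : ∃ W : Submodule F (Fin d ⊕ Fin d → F),
        TI (fun u v : Fin d ⊕ Fin d → F => sympForm d F u v) W ∧
        Inv (Matrix.toLin' (x : Matrix (Fin d ⊕ Fin d) (Fin d ⊕ Fin d) F)) W ∧ finrank F W = m by
      obtain ⟨W, h1, h2, h3⟩ := hW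
      exact ⟨W, h3, h1, (inv_iff _ W).mpr h2⟩
    rcases hR with ⟨rfl, hp2, hcond⟩ | ⟨hrp, hr3, hle, hmod, hbig⟩
    · obtain ⟨hrF, hrq⟩ := Cfsg.Agent.Lib.ElusL.Bridge.r_facts hq hr (fun h => hp2 h.symm)
      exact pos_two hB hA hT hq hrF hrq hz2 hTr (by rw [hfin]; omega) hcond
    · obtain ⟨hrF, hrq⟩ := Cfsg.Agent.Lib.ElusL.Bridge.r_facts hq hr hrp
      have hrodd : Odd r := hr.odd_of_ne_two (by omega)
      have hS := scaled hB hT hz2
      have hSr := scaled_pow hrodd hz2 hTr
      have hz0 := z_ne_zero hz2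
      by_cases hev : Even i
      · have hci : c = i := by rw [hc, if_pos hev]
        rw [hci] at hmod
        have hb : (r - 1) / i + 2 * (m / i) ≤ (2 * d) / i := by
          rcases hbig with h | h
          · exact absurd hev (Nat.not_even_iff_odd.mpr h)
          · exact h
        subst hi
        obtain ⟨W, h1, h2, h3⟩ := pos_even hB hA hS hSr hq hr hrF hrq (m := m) (by rw [hfin]; omega)
          (by rw [hfin]; exact hmod) (by rw [hfin]; exact hb)
        exact ⟨W, h1, (inv_smul_iff hz0).mp h2, h3⟩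
      · have hci : c = 2 * i := by rw [hc, if_neg hev]
        rw [hci] at hmod
        subst hi
        obtain ⟨W, h1, h2, h3⟩ := pos_odd hB hA hS hSr hq hr hrF hrq (Nat.not_even_iff_odd.mp hev) (m := m)
          (by rw [hfin]; omega) (by rw [hfin]; exact hmod)
        exact ⟨W, h1, (inv_smul_iff hz0).mp h2, h3⟩

end Cfsg.Agent.Lib.ElusF.SpThm
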