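import Cfsg.Agent.Lib.ElusF.SpNeg

/-!
# Scaling and the prime two for symplectic isometries
-/

set_option autoImplicit false
set_option linter.unusedSectionVars false
set_option linter.style.haveILetI false
set_option linter.unusedVariables false

open Polynomial Module

namespace Cfsg.Agent.Lib.ElusF.SpTwo

open Cfsg.Agent.Lib.ElusL.Basic Cfsg.Agent.Lib.ElusL.Flag Cfsg.Agent.Lib.ElusL.Cyc
  Cfsg.Agent.Lib.ElusL.Pos Cfsg.Agent.Lib.ElusF.Form Cfsg.Agent.Lib.ElusF.Step
  Cfsg.Agent.Lib.ElusF.Split Cfsg.Agent.Lib.ElusF.SpPos Cfsg.Agent.Lib.ElusF.SpPos2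

variable {F : Type*} [Field F] {q r : ℕ} {V : Type*} [AddCommGroup V] [Module F V]
  [FiniteDimensional F V] {B : V → V → F}

theorem scalar_sq (hB : Fm (RingHom.id F) (-1) B) {T : End F V} (hT : Iso B T) {z : F}
    (hTr : T ^ r = z • 1) (hV : 0 < finrank F V) : z ^ 2 = 1 := by
  haveI := Module.nontrivial_of_finrank_pos (R := F) hV
  obtain ⟨u, hu⟩ := exists_ne (0 : V)
  obtain ⟨v, hv⟩ : ∃ v, B u v ≠ 0 := by
    by_contra hc
    push Not at hc
    exact hu (hB.nd u hc)
  have h1 := iso_pow hT r u v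
  rw [hTr] at h1
  simp only [LinearMap.smul_apply, Module.End.one_apply] at h1
  rw [hB.smul_l, smul_r' hB] at h1
  have h2 : (z ^ 2 - 1) * B u v = 0 := by
    have h3 : (z ^ 2 - 1) * B u v = z * (z * B u v) - B u v := by ring
    rw [h3, h1, sub_self]
  exact sub_eq_zero.mp ((mul_eq_zero.mp h2).resolve_right hv)

theorem scaled (hB : Fm (RingHom.id F) (-1) B) {T : End F V} (hT : Iso B T) {z : F} (hz : z ^ 2 = 1) :
    Iso B (z • T) := by
  intro u v
  simp only [LinearMap.smul_apply]
  rw [hB.smul_l, smul_r' hB, hT, ← mul_assoc, ← sq, hz, one_mul]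

theorem scaled_pow (hr : Odd r) {T : End F V} {z : F} (hz : z ^ 2 = 1) (hTr : T ^ r = z • 1) :
    (z • T) ^ r = 1 := by
  rw [_root_.smul_pow, hTr, smul_smul]
  obtain ⟨a, rfl⟩ := hr
  have : z ^ (2 * a + 1) * z = (z ^ 2) ^ (a + 1) := by ring
  rw [this, hz, one_pow, one_smul]

theorem z_ne_zero {z : F} (hz : z ^ 2 = 1) : z ≠ 0 := by
  rintro rfl
  simp at hz

/-- If `-1` is a square and `T ^ 2 = -1`, the two eigenspaces are totally isotropic. -/
theorem pos_split (hB : Fm (RingHom.id F) (-1) B) {T : End F V} (hT : Iso B T)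
    (hF2 : (2 : F) ≠ 0) {s : F} (hs : s * s = -1) (hTr : T ^ 2 = (-1 : F) • 1) {m : ℕ}
    (hm : 2 * m ≤ finrank F V) :
    ∃ W : Submodule F V, TI B W ∧ Inv T W ∧ finrank F W = m := by
  have hs0 : s ≠ 0 := by
    rintro rfl
    have : (1 : F) = 0 := by
      have h := hs
      simp at h
    exact one_ne_zero this
  let A : End F V := T - s • 1
  let C : End F V := T + s • 1
  have hTT : ∀ v, T (T v) = - v := by
    intro v
    have := congrArg (fun S : End F V => S v) hTr
    simpa [sq] using this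
  have hAC : ∀ v, A (C v) = 0 := by
    intro v
    change T (T v + s • v) - s • (T v + s • v) = 0
    rw [map_add, map_smul, hTT, smul_add, smul_smul, hs]
    module
  have hCA : ∀ v, C (A v) = 0 := by
    intro v
    change T (T v - s • v) + s • (T v - s • v) = 0
    rw [map_sub, map_smul, hTT, smul_sub, smul_smul, hs]
    module
  have hmemA : ∀ {v}, v ∈ LinearMap.ker A ↔ T v = s • v := by
    intro v
    simp [A, sub_eq_zero]
  have hmemC : ∀ {v}, v ∈ LinearMap.ker C ↔ T v = (-s) • v := by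
    intro v
    simp [C, add_eq_zero_iff_eq_neg]
  have hTIgen : ∀ c : F, c * c = -1 → ∀ u v, T u = c • u → T v = c • v → B u v = 0 := by
    intro c hc u v hu hv
    have h1 := hT u v
    rw [hu, hv, hB.smul_l, smul_r' hB, ← mul_assoc, hc] at h1
    have h2 : (2 : F) * B u v = 0 := by
      have : (2 : F) * B u v = B u v - (-1 * B u v) := by ring
      rw [this, h1, sub_self]
    exact (mul_eq_zero.mp h2).resolve_left hF2
  have hTIA : TI B (LinearMap.ker A) := fun u hu v hv =>
    hTIgen s hs u v (hmemA.mp hu) (hmemA.mp hv)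
  have hTIC : TI B (LinearMap.ker C) := fun u hu v hv =>
    hTIgen (-s) (by rw [neg_mul_neg, hs]) u v (hmemC.mp hu) (hmemC.mp hv)
  have hsup : LinearMap.ker A ⊔ LinearMap.ker C = ⊤ := by
    rw [eq_top_iff]
    intro v _
    have h2s : (2 : F) * s ≠ 0 := mul_ne_zero hF2 hs0
    have h1 : C v - A v = (2 * s) • v := by
      change (T v + s • v) - (T v - s • v) = (2 * s) • v
      module
    have h2 : v = (2 * s)⁻¹ • (C v - A v) := by
      rw [h1, smul_smul, inv_mul_cancel₀ h2s, one_smul]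
    rw [h2]
    apply Submodule.smul_mem
    apply Submodule.sub_mem
    · exact Submodule.mem_sup_left (LinearMap.mem_ker.mpr (hAC v))
    · exact Submodule.mem_sup_right (LinearMap.mem_ker.mpr (hCA v))
  have hA2 := hB.two_mul_finrank_le hB.nd_top le_top hTIA
  have hC2 := hB.two_mul_finrank_le hB.nd_top le_top hTIC
  have hle := Submodule.finrank_add_le_finrank_add_finrank (LinearMap.ker A) (LinearMap.ker C)
  rw [finrank_top] at hA2 hC2
  rw [hsup, finrank_top] at hle
  obtain ⟨W₀, hW₀⟩ := exists_submodule (F := F) (V := LinearMap.ker A) m (by omega)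
  refine ⟨W₀.map (LinearMap.ker A).subtype, ?_, ?_, ?_⟩
  · rintro _ ⟨u, -, rfl⟩ _ ⟨v, -, rfl⟩
    exact hTIA _ u.2 _ v.2
  · rintro _ ⟨u, hu, rfl⟩
    refine ⟨s • u, W₀.smul_mem s hu, ?_⟩
    simpa using (hmemA.mp u.2).symm
  · rw [Submodule.finrank_map_subtype_eq, hW₀]

/-- The polynomial `X ^ 2 + 1` when `-1` is not a square. -/
theorem irr_sq (h3 : ∀ c : F, c * c ≠ -1) : Irreducible (X ^ 2 + 1 : F[X]) := by
  have hm : (X ^ 2 + 1 : F[X]).Monic := by
    have := monic_X_pow_add_C (1 : F) (n := 2) (by norm_num)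
    simpa using this
  have hd : (X ^ 2 + 1 : F[X]).natDegree = 2 := by
    have := natDegree_X_pow_add_C (n := 2) (r := (1 : F))
    simpa using this
  rw [hm.irreducible_iff_roots_eq_zero_of_degree_le_three (by omega) (by omega)]
  rw [Multiset.eq_zero_iff_forall_notMem]
  intro c hc
  rw [mem_roots hm.ne_zero, IsRoot.def] at hc
  simp only [eval_add, eval_pow, eval_X, eval_one] at hc
  apply h3 c
  rw [← sq]
  exact eq_neg_of_add_eq_zero_left hc

variable [Fintype F]

/-- If `-1` is not a square, `T ^ 2 = -1`: invariant totally isotropic spaces of even dimension. -/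
theorem pos_cap (hB : Fm (RingHom.id F) (-1) B) (hA : ∀ u, B u u = 0) {T : End F V} (hT : Iso B T)
    (hF2 : (2 : F) ≠ 0) (h3 : ∀ c : F, c * c ≠ -1) (hTr : T ^ 2 = (-1 : F) • 1) {m : ℕ}
    (hm : 2 * m ≤ finrank F V) (hme : Even m) :
    ∃ W : Submodule F V, TI B W ∧ Inv T W ∧ finrank F W = m := by
  have hn1 : (-1 : F) ≠ 0 := neg_ne_zero.mpr one_ne_zero
  have hinj : Function.Injective T := inj_of_pow hn1 (by norm_num) hTr
  have hss : SS T := ss_of_pow (r := 2) (by exact_mod_cast hF2) hn1 hTr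
  have hTT : ∀ v, T (T v) = - v := by
    intro v
    have := congrArg (fun S : End F V => S v) hTr
    simpa [sq] using this
  have hg := irr_sq h3
  have hstep : ∀ U : Submodule F V, U ≤ ⊤ → Nd B U → Inv T U → 2 < finrank F U →
      ∃ W : Submodule F V, W ≤ U ∧ TI B W ∧ Inv T W ∧ finrank F W = 2 := by
    intro U _ hU hUi hU2
    let S : Unit → (U →ₗ[F] U →ₗ[F] F) := fun _ =>
      LinearMap.mk₂ F (fun x y => B x (T y))
        (fun a b c => hB.add_l _ _ _)
        (fun c a b => hB.smul_l _ _ _)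
        (fun a b c => by
          simp only [Submodule.coe_add, map_add]
          exact hB.add_r _ _ _)
        (fun c a b => by
          simp only [Submodule.coe_smul, map_smul, smul_eq_mul]
          exact smul_r' hB _ _ _)
    obtain ⟨⟨u, huU⟩, hu0, hu⟩ := Cfsg.Agent.Lib.ElusF.CW.exists_ne_zero_quad S (by
      simpa using hU2)
    have hu0' : u ≠ 0 := fun h => hu0 (Subtype.ext h)
    have hu1 : B u (T u) = 0 := hu ()
    have hgu : Polynomial.aeval T (X ^ 2 + 1 : F[X]) u = 0 := by
      simp only [map_add, map_pow, aeval_X, map_one, LinearMap.add_apply, Module.End.one_apply, hTr]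
      simp
    refine ⟨cyc T u, cyc_le hUi huU, ?_, cyc_inv T u, ?_⟩
    · rintro _ ⟨P, rfl⟩ _ ⟨Q, rfl⟩
      have hd : (X ^ 2 + 1 : F[X]).natDegree = 2 := by
        have := natDegree_X_pow_add_C (n := 2) (r := (1 : F))
        simpa using this
      obtain ⟨c, hc⟩ := exists_expand hg.ne_zero (by omega) hgu P
      obtain ⟨d, hd'⟩ := exists_expand hg.ne_zero (by omega) hgu Q
      rw [hc, hd', hd]
      simp only [Finset.sum_range_succ, Finset.sum_range_zero, zero_add, pow_zero, pow_one,
        Module.End.one_apply]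
      have h1 : B (T u) u = 0 := by
        rw [hB.herm u (T u), hu1]
        simp
      simp only [hB.add_l, hB.add_r, hB.smul_l, smul_r' hB, hA, hu1, h1]
      ring
    · rw [cyc_finrank hg hu0' hgu]
      have := natDegree_X_pow_add_C (n := 2) (r := (1 : F))
      simpa using this
  obtain ⟨s, rfl⟩ : ∃ s, m = 2 * s := by
    obtain ⟨s, hs⟩ := hme
    exact ⟨s, by omega⟩
  obtain ⟨W, -, hW1, hW2, hW3⟩ := cap hB hT hinj hss hstep s ⊤ le_rfl hB.nd_top
    (fun v _ => Submodule.mem_top) (by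
      rw [finrank_top]
      rcases Nat.eq_zero_or_pos s with h0 | h0
      · exact Or.inl h0
      · right
        have : 2 * 2 * (s - 1) + 2 < 4 * s := by
          obtain ⟨t, rfl⟩ : ∃ t, s = t + 1 := ⟨s - 1, by omega⟩
          simp only [Nat.add_sub_cancel]
          omega
        omega)
  exact ⟨W, hW1, hW2, hW3⟩

/-- The prime two. -/
theorem pos_two (hB : Fm (RingHom.id F) (-1) B) (hA : ∀ u, B u u = 0) {T : End F V} (hT : Iso B T)
    (hq : Fintype.card F = q) (hF2 : ((2 : ℕ) : F) ≠ 0) (h2q : ¬ 2 ∣ q) {z : F} (hz : z ^ 2 = 1)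
    (hTr : T ^ 2 = z • 1) {m : ℕ} (hm : 2 * m ≤ finrank F V) (hcond : Even m ∨ q % 4 = 1) :
    ∃ W : Submodule F V, TI B W ∧ Inv T W ∧ finrank F W = m := by
  have hF2' : (2 : F) ≠ 0 := by exact_mod_cast hF2
  have hz' : z = 1 ∨ z = -1 := mul_self_eq_one_iff.mp (by rw [← sq]; exact hz)
  have hq3 : q % 2 = 1 := by omega
  rcases hz' with rfl | rfl
  · have hq1 : (q : ZMod 2) = 1 := by
      have h1 : q = 2 * (q / 2) + 1 := by omega
      rw [h1]
      push_cast
      have : (2 : ZMod 2) = 0 := rfl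
      rw [this, zero_mul, zero_add]
    have hord : orderOf (q : ZMod 2) = 1 := by rw [hq1, orderOf_one]
    apply pos_odd hB hA hT (r := 2) (by rw [hTr, one_smul]) hq Nat.prime_two hF2 h2q
    · rw [hord]
      exact odd_one
    · exact hm
    · rw [hord, Nat.mod_one, mul_zero]
      exact Nat.zero_le _
  · by_cases hq1 : q % 4 = 1
    · have h1 : IsSquare (-1 : F) := by
        rw [FiniteField.isSquare_neg_one_iff, hq]
        omega
      obtain ⟨s, hs⟩ := h1
      exact pos_split hB hT hF2' hs.symm hTr hm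
    · have h1 : ¬ IsSquare (-1 : F) := by
        rw [FiniteField.isSquare_neg_one_iff, hq]
        omega
      have h3 : ∀ c : F, c * c ≠ -1 := fun c hc => h1 ⟨c, hc.symm⟩
      exact pos_cap hB hA hT hF2' h3 hTr hm (hcond.resolve_right hq1)

end Cfsg.Agent.Lib.ElusF.SpTwo
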