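import Cfsg.Agent.Lib.ElusF.Decomp

/-!
# Unipotent elements of symplectic groups, odd characteristic
-/

set_option autoImplicit false
set_option linter.unusedSectionVars false
set_option linter.style.haveILetI false
set_option linter.unusedVariables false

open Polynomial Module

universe u

namespace Cfsg.Agent.Lib.ElusF.SpUni

open Cfsg.Agent.Lib.ElusL.Basic Cfsg.Agent.Lib.ElusL.Dec3 Cfsg.Agent.Lib.ElusF.Form
  Cfsg.Agent.Lib.ElusF.Step Cfsg.Agent.Lib.ElusF.Uni Cfsg.Agent.Lib.ElusF.Decomp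
  Cfsg.Agent.Lib.ElusF.SpPos

variable {F : Type*} [Field F] {V : Type*} [AddCommGroup V] [Module F V] [FiniteDimensional F V]
  {B : V → V → F}

/-- Multiplicity of blocks in the symplectic case. -/
def tt (k : ℕ) : ℕ := if Even k then 1 else 2

theorem tt_pos (k : ℕ) : 0 < tt k := by
  unfold tt
  split_ifs <;> norm_num

theorem tt_dvd_iff (ν : Multiset ℕ) : (∀ a, tt a ∣ ν.count a) ↔ ∀ a : ℕ, Odd a → Even (ν.count a) := by
  constructor
  · intro h a ha
    have h1 := h a
    unfold tt at h1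
    rw [if_neg (Nat.not_even_iff_odd.mpr ha)] at h1
    exact even_iff_two_dvd.mpr h1
  · intro h a
    unfold tt
    split_ifs with ha
    · exact one_dvd _
    · exact even_iff_two_dvd.mp (h a (Nat.not_even_iff_odd.mp ha))

/-- The step for the symplectic form in odd characteristic. -/
theorem hstep_sp (hB : Fm (RingHom.id F) (-1) B) (hA : ∀ u, B u u = 0) {y N : End F V}
    (hy : Iso B y) (hN : y = 1 + N) {s : ℕ} (hs : y ^ (s + 1) = 1) (hF2 : (2 : F) ≠ 0)
    (U : Submodule F V) (k : ℕ) (hU : Nd B U) (hUi : Inv N U) (hk : ∀ v ∈ U, (N ^ (k + 1)) v = 0)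
    (hne : ∃ v ∈ U, (N ^ k) v ≠ 0) :
    ∃ C : Submodule F V, C ≤ U ∧ Nd B C ∧ Inv N C ∧ finrank F C = tt (k + 1) * (k + 1) ∧
      ∀ j, Dd N C j = tt (k + 1) * min (k + 1) j := by
  have hUy : Inv y U := inv_y hN hUi
  have hneg : ∀ x z, B x z = - B z x := by
    intro x z
    rw [hB.herm z x]
    simp
  have hsym : ∀ x, ∀ z ∈ U, B z ((N ^ k) x) = - ((-1) ^ k * B x ((N ^ k) z)) := by
    intro x z hz
    have h1 := pair_top hB hy hN hs hUy hk (u := x) hz (a := k) (b := 0) (by omega)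
    simp only [pow_zero, Module.End.one_apply] at h1
    rw [hneg, h1]
  obtain ⟨v, hvU, hv⟩ := hne
  have hNv : (N ^ k) v ∈ U := inv_pow hUi k v hvU
  obtain ⟨u, huU, huv⟩ : ∃ u ∈ U, B u ((N ^ k) v) ≠ 0 := by
    by_contra hcon
    push Not at hcon
    apply hv
    apply hU _ hNv
    intro x hx
    rw [hneg, hcon x hx, neg_zero]
  by_cases hev : Even (k + 1)
  · -- symmetric
    have hk1 : (-1 : F) ^ k = -1 := by
      apply Odd.neg_one_pow
      rcases Nat.even_or_odd k with h | h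
      · exact absurd hev (by simp [Nat.even_add_one, h])
      · exact h
    have hsym' : ∀ x ∈ U, ∀ z ∈ U, B z ((N ^ k) x) = B x ((N ^ k) z) := by
      intro x _ z hz
      rw [hsym x z hz, hk1]
      ring
    have hex : ∃ w ∈ U, B w ((N ^ k) w) ≠ 0 := by
      by_contra hcon
      push Not at hcon
      have h1 := hcon (u + v) (U.add_mem huU hvU)
      rw [map_add, hB.add_l, hB.add_r, hB.add_r, hcon u huU, hcon v hvU, zero_add, add_zero,
        hsym' u huU v hvU] at h1
      have h2 : (2 : F) * B u ((N ^ k) v) = 0 := by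
        rw [two_mul]
        exact h1
      exact huv ((mul_eq_zero.mp h2).resolve_left hF2)
    obtain ⟨w, hwU, hw⟩ := hex
    obtain ⟨C, h1, h2, h3, h4, h5⟩ := step_one hB hy hN hs hUy hUi hk hwU hw
    have ht : tt (k + 1) = 1 := by
      unfold tt
      rw [if_pos hev]
    rw [ht]
    exact ⟨C, h1, h2, h3, h4, h5⟩
  · -- alternating
    have hk1 : (-1 : F) ^ k = 1 := by
      apply Even.neg_one_pow
      rcases Nat.even_or_odd k with h | h
      · exact h
      · exact absurd h.add_one hev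
    have hsym' : ∀ x ∈ U, ∀ z ∈ U, B z ((N ^ k) x) = - B x ((N ^ k) z) := by
      intro x _ z hz
      rw [hsym x z hz, hk1, one_mul]
    have halt : ∀ x ∈ U, B x ((N ^ k) x) = 0 := by
      intro x hx
      have h1 := hsym' x hx x hx
      have h2 : (2 : F) * B x ((N ^ k) x) = 0 := by
        rw [two_mul]
        nth_rewrite 1 [h1]
        exact neg_add_cancel _
      exact (mul_eq_zero.mp h2).resolve_left hF2
    obtain ⟨C, h1, h2, h3, h4, h5⟩ := step_two hB hy hN hs hUy hUi hk huU hvU (halt u huU) (halt v hvU)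
      huv (by
        rw [hsym' u huU v hvU]
        exact neg_ne_zero.mpr huv)
    have ht : tt (k + 1) = 2 := by
      unfold tt
      rw [if_neg hev]
    rw [ht]
    exact ⟨C, h1, h2, h3, h4, h5⟩

/-- Decomposition of the symplectic space under a unipotent isometry, odd characteristic. -/
theorem decomp_sp (hB : Fm (RingHom.id F) (-1) B) (hA : ∀ u, B u u = 0) {y N : End F V}
    (hy : Iso B y) (hN : y = 1 + N) {s : ℕ} (hs : y ^ (s + 1) = 1) (hF2 : (2 : F) ≠ 0) {L : ℕ}
    (hL : N ^ L = 0) {U : Submodule F V} (hU : Nd B U) (hUi : Inv N U) :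
    ∃ μ : Multiset ℕ, (∀ a ∈ μ, 0 < a ∧ a ≤ L) ∧ (∀ a : ℕ, Odd a → Even (μ.count a)) ∧
      μ.sum = finrank F U ∧ (∀ j, Dd N U j = (μ.map (fun a => min a j)).sum) ∧
      ∀ ν : Multiset ℕ, ν ≤ μ → (∀ a : ℕ, Odd a → Even (ν.count a)) →
        ∃ W : Submodule F V, W ≤ U ∧ Nd B W ∧ Inv N W ∧ finrank F W = ν.sum := by
  have hinj : Function.Injective y := by
    have h1 : y ^ s * y = 1 := by rw [← pow_succ, hs]
    intro a b hab
    have h2 := congrArg (y ^ s) hab
    rw [← Module.End.mul_apply, ← Module.End.mul_apply, h1] at h2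
    exact h2
  obtain ⟨μ, h1, h2, h3, h4, h5⟩ := decomp hB hy hinj hN hL tt tt_pos
    (fun U k hU hUi hk hne => hstep_sp hB hA hy hN hs hF2 U k hU hUi hk hne) _ U rfl hU hUi
  exact ⟨μ, h1, (tt_dvd_iff μ).mp h2, h3, h4, fun ν hν hνt => h5 ν hν ((tt_dvd_iff ν).mpr hνt)⟩

end Cfsg.Agent.Lib.ElusF.SpUni
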