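import Cfsg.Agent.Lib.ElusF.SpUni

/-!
# Models of unipotent symplectic elements with prescribed Jordan type, odd characteristic
-/

set_option autoImplicit false
set_option linter.unusedSectionVars false
set_option linter.style.haveILetI false
set_option linter.unusedVariables false

open Polynomial Module

universe u

namespace Cfsg.Agent.Lib.ElusF.SpUniModel

open Cfsg.Agent.Lib.ElusL.Basic Cfsg.Agent.Lib.ElusL.Dec3 Cfsg.Agent.Lib.ElusF.Form
  Cfsg.Agent.Lib.ElusF.Step Cfsg.Agent.Lib.ElusF.Uni Cfsg.Agent.Lib.ElusF.Decomp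
  Cfsg.Agent.Lib.ElusF.SpModel Cfsg.Agent.Lib.SpSpec.FormAlg Cfsg.Agent.Lib.SylowLarge.SpForm

variable {F : Type u} [Field F]

/-- Polynomial in a multiplication operator and kernel profile. -/
theorem Dk_profile {R : Type*} [CommRing R] [Algebra F R] [FiniteDimensional F R] {k : ℕ}
    (hfin : finrank F R = k + 1) {w : R} (h1 : (w - 1) ^ (k + 1) = 0) (h2 : (w - 1) ^ k ≠ 0) (j : ℕ) :
    Dk (Algebra.lmul F R w : End F R) ((X - 1) ^ j : F[X]) = min (k + 1) j := by
  set M : End F R := Algebra.lmul F R (w - 1) with hM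
  have hpow : ∀ i (v : R), (M ^ i) v = (w - 1) ^ i * v := by
    intro i v
    rw [hM, ← map_pow]
    rfl
  have hae : Polynomial.aeval (Algebra.lmul F R w : End F R) ((X - 1) ^ j : F[X]) = M ^ j := by
    rw [map_pow, map_sub, aeval_X, map_one, hM, map_sub, map_one]
  have h3 := profile (N := M) (Z := ⊤) (fun v _ => trivial) (k := k) (by rw [finrank_top, hfin])
    (fun v _ => by rw [hpow, h1, zero_mul]) ⟨1, trivial, by rwa [hpow, mul_one]⟩ j
  unfold Dk
  rw [hae, ← h3, Dd, top_inf_eq]

section

variable [Fintype F] {p : ℕ} [Fact p.Prime] [CharP F p]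

theorem finite_trunc (a : ℕ) : FiniteDimensional F (AdjoinRoot (X ^ a : F[X])) :=
  (AdjoinRoot.powerBasis' (monic_X_pow a)).finite

theorem finrank_trunc (a : ℕ) : finrank F (AdjoinRoot (X ^ a : F[X])) = a := by
  rw [(AdjoinRoot.powerBasis' (monic_X_pow a)).finrank, AdjoinRoot.powerBasis'_dim, natDegree_X_pow]

theorem nontrivial_trunc {a : ℕ} (ha : a ≠ 0) : Nontrivial (AdjoinRoot (X ^ a : F[X])) := by
  refine ⟨⟨(AdjoinRoot.root (X ^ a : F[X])) ^ 0, 0, ?_⟩⟩
  intro h
  have := (Cfsg.Agent.Lib.SLn.Spec.root_pow_eq_zero_iff).mp h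
  omega

include p in
theorem pow_of_nil {a : ℕ} (ha : a ≠ 0) (hap : a ≤ p) {w : AdjoinRoot (X ^ a : F[X])}
    (hw : (w - 1) ^ a = 0) : w ^ p = 1 := by
  haveI := nontrivial_trunc (F := F) ha
  haveI : CharP (AdjoinRoot (X ^ a : F[X])) p :=
    charP_of_injective_algebraMap (algebraMap F (AdjoinRoot (X ^ a : F[X]))).injective p
  have h1 : (w - 1) ^ p = 0 := by
    obtain ⟨c, hc⟩ := Nat.exists_eq_add_of_le hap
    rw [hc, pow_add, hw, zero_mul]
  have h2 := sub_pow_char w (1 : AdjoinRoot (X ^ a : F[X])) (p := p)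
  rw [h1, one_pow] at h2
  exact (sub_eq_zero.mp h2.symm)

/-- The pairing of the top coefficient on the truncated polynomial ring. -/
theorem coeffTop_sep {k : ℕ} (hk0 : k ≠ 0) (f : AdjoinRoot (X ^ k : F[X]))
    (hf : ∀ g, coeffTop F k (f * g) = 0) : f = 0 := by
  by_contra hne
  obtain ⟨f₀, rfl⟩ := AdjoinRoot.mk_surjective f
  set f₁ := f₀ %ₘ X ^ k with hf₁
  have hmk : AdjoinRoot.mk (X ^ k : F[X]) f₀ = AdjoinRoot.mk (X ^ k : F[X]) f₁ := by
    have h5 := modByMonic_add_div f₀ (X ^ k)
    rw [hf₁, AdjoinRoot.mk_eq_mk]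
    exact ⟨f₀ /ₘ X ^ k, by linear_combination -h5⟩
  rw [hmk] at hne hf
  have hf₁0 : f₁ ≠ 0 := by
    intro h
    rw [h, map_zero] at hne
    exact hne rfl
  have hdeg : f₁.natDegree < k := by
    have := natDegree_modByMonic_lt f₀ (monic_X_pow k) (by
      intro h
      have : (X ^ k : F[X]).natDegree = 0 := by rw [h]; simp
      rw [natDegree_X_pow] at this
      exact hk0 this)
    rwa [natDegree_X_pow] at this
  set i := f₁.natTrailingDegree with hi
  have hik : i ≤ f₁.natDegree := natTrailingDegree_le_natDegree f₁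
  have h3 := hf ((AdjoinRoot.root (X ^ k : F[X])) ^ (k - 1 - i))
  rw [← AdjoinRoot.mk_X, ← map_pow, ← map_mul, coeffTop_mk hk0] at h3
  rw [mul_comm, coeff_X_pow_mul', if_pos (by omega)] at h3
  have h4 : k - 1 - (k - 1 - i) = i := by omega
  rw [h4] at h3
  apply (trailingCoeff_nonzero_iff_nonzero.mpr hf₁0)
  exact h3

/-- The double truncated polynomial ring. -/
theorem formAlg_double {a : ℕ} (ha : a ≠ 0) :
    IsFormAlg (F := F) ((AlgHom.snd F (AdjoinRoot (X ^ a : F[X])) (AdjoinRoot (X ^ a : F[X]))).prod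
      (AlgHom.fst F (AdjoinRoot (X ^ a : F[X])) (AdjoinRoot (X ^ a : F[X]))))
      ((coeffTop F a).coprod (-(coeffTop F a))) where
  invol f := rfl
  alt f := by
    change coeffTop F a (f.1 * f.2) + -(coeffTop F a (f.2 * f.1)) = 0
    rw [mul_comm f.2 f.1, add_neg_cancel]
  nondeg f hf := by
    apply Prod.ext
    · apply coeffTop_sep ha
      intro g
      have := hf (g, 0)
      simpa using this
    · apply coeffTop_sep ha
      intro g
      have := hf (0, g)
      simpa using this

include p in
/-- A piece with a single block of even size. -/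
theorem exists_P (h2 : (2 : F) ≠ 0) {a : ℕ} (ha : Even a) (ha0 : a ≠ 0) (hap : a ≤ p) :
    ∃ (V : Type u) (_ : AddCommGroup V) (_ : Module F V) (_ : FiniteDimensional F V)
      (B : LinearMap.BilinForm F V) (T : End F V), Rz B T p ∧ finrank F V = a ∧
      ∀ j, Dk T ((X - 1) ^ j : F[X]) = min a j := by
  obtain ⟨k, rfl⟩ : ∃ k, a = k + 1 := ⟨a - 1, by omega⟩
  set a := k + 1 with hadef
  haveI := finite_trunc (F := F) a
  haveI := nontrivial_trunc (F := F) ha0
  have hf := formAlg_trunc (F := F) ha ha0 h2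
  set ρ := AdjoinRoot.root (X ^ a : F[X]) with hρ
  have hnil : ρ ^ a = 0 := root_pow_self a
  set w := cay ρ a with hw
  have hunit : IsUnit (2 : AdjoinRoot (X ^ a : F[X])) := by
    have : (2 : AdjoinRoot (X ^ a : F[X])) = algebraMap F _ 2 := (map_ofNat (algebraMap F _) 2).symm
    rw [this]
    exact (IsUnit.mk0 _ h2).map _
  have hx := cay_mul_sigma (F₀ := F) (negRoot F a) hnil (negRoot_root a)
  have h1 : (w - 1) ^ a = 0 := (cay_sub_one_pow hnil hunit a).mpr hnil
  have h3 : (w - 1) ^ k ≠ 0 := by
    intro h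
    have := (Cfsg.Agent.Lib.SLn.Spec.root_pow_eq_zero_iff).mp ((cay_sub_one_pow hnil hunit k).mp h)
    omega
  have hp := pow_of_nil (F := F) (p := p) ha0 hap h1
  refine ⟨AdjoinRoot (X ^ a : F[X]), inferInstance, inferInstance, inferInstance, form _ _,
    Algebra.lmul F _ w, Rz.lmul hf hx hp, finrank_trunc a, ?_⟩
  intro j
  exact Dk_profile (finrank_trunc a) h1 h3 j

include p in
/-- A piece with a pair of equal blocks. -/
theorem exists_Q {a : ℕ} (ha0 : a ≠ 0) (hap : a ≤ p) :
    ∃ (V : Type u) (_ : AddCommGroup V) (_ : Module F V) (_ : FiniteDimensional F V)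
      (B : LinearMap.BilinForm F V) (T : End F V), Rz B T p ∧ finrank F V = 2 * a ∧
      ∀ j, Dk T ((X - 1) ^ j : F[X]) = 2 * min a j := by
  classical
  obtain ⟨k, rfl⟩ : ∃ k, a = k + 1 := ⟨a - 1, by omega⟩
  set a := k + 1 with hadef
  haveI := finite_trunc (F := F) a
  haveI := nontrivial_trunc (F := F) ha0
  set S := AdjoinRoot (X ^ a : F[X]) with hS
  have hf := formAlg_double (F := F) ha0
  set ρ : S := AdjoinRoot.root (X ^ a : F[X]) with hρ
  have hnil : ρ ^ a = 0 := root_pow_self a
  have hiff : ∀ j, ρ ^ j = 0 ↔ a ≤ j := fun j => Cfsg.Agent.Lib.SLn.Spec.root_pow_eq_zero_iff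
  set y₁ : S := 1 + ρ with hy₁
  set y₂ : S := ∑ i ∈ Finset.range a, (-ρ) ^ i with hy₂
  have h12 : y₁ * y₂ = 1 := by
    have := one_sub_mul_geom (x := -ρ) (neg_pow_eq_zero hnil)
    rwa [sub_neg_eq_add] at this
  have hu2 : IsUnit y₂ := IsUnit.of_mul_eq_one _ (by rw [mul_comm]; exact h12)
  have hy1j : ∀ j, (y₁ - 1) ^ j = 0 ↔ a ≤ j := by
    intro j
    rw [hy₁, add_sub_cancel_left, hiff]
  have hy2 : y₂ - 1 = (-y₂) * ρ := by
    have : y₂ - 1 = y₂ - y₁ * y₂ := by rw [h12]
    rw [this, hy₁]
    ring
  have hy2j : ∀ j, (y₂ - 1) ^ j = 0 ↔ a ≤ j := by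
    intro j
    rw [hy2, mul_pow, (hu2.neg.pow j).mul_right_eq_zero, hiff]
  let R := S × S
  let x : R := (y₁, y₂)
  have hx : x * ((AlgHom.snd F S S).prod (AlgHom.fst F S S)) x = 1 := by
    apply Prod.ext
    · exact h12
    · change y₂ * y₁ = 1
      rw [mul_comm]
      exact h12
  have hp1 := pow_of_nil (F := F) (p := p) ha0 hap ((hy1j a).mpr le_rfl)
  have hp2 := pow_of_nil (F := F) (p := p) ha0 hap ((hy2j a).mpr le_rfl)
  have hxp : x ^ p = 1 := by
    apply Prod.ext
    · exact hp1
    · exact hp2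
  refine ⟨R, inferInstance, inferInstance, inferInstance, form _ _,
    Algebra.lmul F R x, Rz.lmul hf hx hxp, ?_, ?_⟩
  · rw [Module.finrank_prod, finrank_trunc a, two_mul]
  · intro j
    have h4 : (Algebra.lmul F R x : End F R) =
        LinearMap.prodMap (Algebra.lmul F S y₁ : End F S) (Algebra.lmul F S y₂ : End F S) := by
      apply LinearMap.ext
      intro v
      rfl
    rw [h4, Dk_prod, Dk_profile (finrank_trunc a) ((hy1j _).mpr le_rfl) (fun h => by
        have := (hy1j _).mp h
        omega) j,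
      Dk_profile (finrank_trunc a) ((hy2j _).mpr le_rfl) (fun h => by
        have := (hy2j _).mp h
        omega) j]
    ring

include p in
/-- Models for all admissible types. -/
theorem model_uni (h2 : (2 : F) ≠ 0) : ∀ (n : ℕ) (μ : Multiset ℕ), μ.card = n →
    (∀ a ∈ μ, 0 < a ∧ a ≤ p) → (∀ a : ℕ, Odd a → Even (μ.count a)) →
    ∃ (V : Type u) (_ : AddCommGroup V) (_ : Module F V) (_ : FiniteDimensional F V)
      (B : LinearMap.BilinForm F V) (T : End F V), Rz B T p ∧ finrank F V = μ.sum ∧
      ∀ j, Dk T ((X - 1) ^ j : F[X]) = (μ.map (fun a => min a j)).sum := by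
  classical
  intro n
  induction n using Nat.strong_induction_on with
  | _ n ih =>
    intro μ hn h0 hodd
    rcases Multiset.empty_or_exists_mem μ with rfl | ⟨a, ha⟩
    · refine ⟨Fin 0 ⊕ Fin 0 → F, inferInstance, inferInstance, inferInstance, _, 1, Rz.triv 0 p,
        ?_, ?_⟩
      · rw [finrank_triv]; simp
      · intro j
        have h1 : finrank F (Fin 0 ⊕ Fin 0 → F) = 0 := by rw [finrank_triv]
        unfold Dk
        have h3 := Submodule.finrank_le (LinearMap.ker (Polynomial.aeval (1 : End F (Fin 0 ⊕ Fin 0 → F))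
          ((X - 1) ^ j : F[X])))
        simp only [Multiset.map_zero, Multiset.sum_zero]
        omega
    · obtain ⟨ha0, hap⟩ := h0 a ha
      have hcons : a ::ₘ μ.erase a = μ := Multiset.cons_erase ha
      by_cases hev : Even a
      · have hc : (μ.erase a).card + 1 = n := by
          rw [← hn, ← hcons, Multiset.card_cons]
          simp [hcons]
        obtain ⟨V, i1, i2, i3, B, T, h, hf, hD⟩ := ih _ (by omega) (μ.erase a) rfl
          (fun b hb => h0 b (Multiset.mem_of_mem_erase hb)) (by
            intro b hb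
            have hba : b ≠ a := fun e => (Nat.not_even_iff_odd.mpr hb) (e ▸ hev)
            rw [Multiset.count_erase_of_ne hba]
            exact hodd b hb)
        obtain ⟨V', i1', i2', i3', B', T', h', hf', hD'⟩ := exists_P (p := p) h2 hev ha0.ne' hap
        refine ⟨V × V', inferInstance, inferInstance, inferInstance, sumForm B B',
          LinearMap.prodMap T T', h.prod h', ?_, ?_⟩
        · rw [Module.finrank_prod, hf, hf']
          conv_rhs => rw [← hcons, Multiset.sum_cons]
          ring
        · intro j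
          rw [Dk_prod, hD, hD']
          conv_rhs => rw [← hcons, Multiset.map_cons, Multiset.sum_cons]
          ring
      · have hodda : Odd a := Nat.not_even_iff_odd.mp hev
        have hcnt := hodd a hodda
        have hcpos : 0 < μ.count a := Multiset.count_pos.mpr ha
        have hc2 : 2 ≤ μ.count a := by
          obtain ⟨t, ht⟩ := hcnt
          omega
        have ha2 : a ∈ μ.erase a := by
          rw [← Multiset.count_pos, Multiset.count_erase_self]
          omega
        have hcons2 : a ::ₘ (μ.erase a).erase a = μ.erase a := Multiset.cons_erase ha2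
        have hc : ((μ.erase a).erase a).card + 2 = n := by
          rw [← hn]
          conv_rhs => rw [← hcons, ← hcons2, Multiset.card_cons, Multiset.card_cons]
        obtain ⟨V, i1, i2, i3, B, T, h, hf, hD⟩ := ih _ (by omega) ((μ.erase a).erase a) rfl
          (fun b hb => h0 b (Multiset.mem_of_mem_erase (Multiset.mem_of_mem_erase hb))) (by
            intro b hb
            by_cases hba : b = a
            · subst hba
              rw [Multiset.count_erase_self, Multiset.count_erase_self]
              obtain ⟨t, ht⟩ := hcnt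
              refine ⟨t - 1, ?_⟩
              omega
            · rw [Multiset.count_erase_of_ne hba, Multiset.count_erase_of_ne hba]
              exact hodd b hb)
        obtain ⟨V', i1', i2', i3', B', T', h', hf', hD'⟩ := exists_Q (F := F) (p := p) ha0.ne' hap
        refine ⟨V × V', inferInstance, inferInstance, inferInstance, sumForm B B',
          LinearMap.prodMap T T', h.prod h', ?_, ?_⟩
        · rw [Module.finrank_prod, hf, hf']
          conv_rhs => rw [← hcons, ← hcons2, Multiset.sum_cons, Multiset.sum_cons]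
          ring
        · intro j
          rw [Dk_prod, hD, hD']
          conv_rhs => rw [← hcons, ← hcons2, Multiset.map_cons, Multiset.map_cons,
            Multiset.sum_cons, Multiset.sum_cons]
          ring

end

end Cfsg.Agent.Lib.ElusF.SpUniModel
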