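import Cfsg.Agent.Lib.ElusF.SpCount

/-!
# Unipotent isometries of (skew-)Hermitian forms: nondegenerate blocks
-/

set_option autoImplicit false
set_option linter.unusedSectionVars false
set_option linter.style.haveILetI false
set_option linter.unusedVariables false

open Polynomial Module

universe u

namespace Cfsg.Agent.Lib.ElusF.Uni

open Cfsg.Agent.Lib.ElusL.Basic Cfsg.Agent.Lib.ElusL.Dec3 Cfsg.Agent.Lib.ElusF.Form
  Cfsg.Agent.Lib.ElusF.Step

variable {F : Type*} [Field F] {V : Type*} [AddCommGroup V] [Module F V] {σ : F →+* F} {ε : F}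
  {B : V → V → F}

section adj

variable (hB : Fm σ ε B) {y N : End F V} (hy : Iso B y) (hN : y = 1 + N)
include hB hy hN

theorem comm_yN : y * N = N * y := by
  rw [hN, add_mul, mul_add, one_mul, mul_one]

theorem adj_step (u z : V) : B (N u) (y z) = - B u (N z) := by
  have h1 := hy u z
  have h2 : y u = u + N u := by rw [hN]; rfl
  have h3 : y z = z + N z := by rw [hN]; rfl
  rw [h2, hB.add_l] at h1
  have h4 : B u (y z) = B u z + B u (N z) := by rw [h3, hB.add_r]
  rw [h4] at h1
  linear_combination h1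

theorem comm_pow (a b : ℕ) : y ^ a * N ^ b = N ^ b * y ^ a :=
  ((Commute.pow_pow (comm_yN hB hy hN) a b))

theorem adj_pow (a : ℕ) (u z : V) : B ((N ^ a) u) ((y ^ a) z) = (-1) ^ a * B u ((N ^ a) z) := by
  induction a generalizing z with
  | zero => simp
  | succ a ih =>
    have h1 : (N ^ (a + 1)) u = N ((N ^ a) u) := by
      rw [pow_succ', Module.End.mul_apply]
    have h2 : (y ^ (a + 1)) z = y ((y ^ a) z) := by
      rw [pow_succ', Module.End.mul_apply]
    rw [h1, h2, adj_step hB hy hN]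
    have h3 : N ((y ^ a) z) = (y ^ a) (N z) := by
      have := comm_pow hB hy hN a 1
      have h4 := congrArg (fun S : End F V => S z) this
      simp only [pow_one, Module.End.mul_apply] at h4
      exact h4.symm
    rw [h3, ih]
    have h5 : (N ^ a) (N z) = (N ^ (a + 1)) z := by
      rw [pow_succ, Module.End.mul_apply]
    rw [h5]
    ring

/-- Pairing of powers of `N` on an invariant subspace annihilated by `N ^ k`. -/
theorem pair_zero {s : ℕ} (hs : y ^ (s + 1) = 1) {U : Submodule F V} (hU : Inv y U) {k : ℕ}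
    (hk : ∀ v ∈ U, (N ^ k) v = 0) {u v : V} (hv : v ∈ U) {a b : ℕ} (hab : k ≤ a + b) :
    B ((N ^ a) u) ((N ^ b) v) = 0 := by
  set v' := ((y ^ s) ^ a) v with hv'
  have hv'U : v' ∈ U := by
    have h1 := inv_pow (inv_pow hU s) a v hv
    exact h1
  have h1 : (y ^ a) v' = v := by
    have h0 : y ^ a * (y ^ s) ^ a = 1 := by
      rw [← pow_mul, ← pow_add]
      have : a + s * a = (s + 1) * a := by ring
      rw [this, pow_mul, hs, one_pow]
    rw [hv', ← Module.End.mul_apply, h0]
    rfl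
  have h2 : (N ^ b) v = (y ^ a) ((N ^ b) v') := by
    rw [← Module.End.mul_apply, comm_pow hB hy hN, Module.End.mul_apply, h1]
  rw [h2, adj_pow hB hy hN, ← Module.End.mul_apply, ← pow_add]
  obtain ⟨c, hc⟩ := Nat.exists_eq_add_of_le hab
  have h3 : a + b = c + k := by omega
  rw [h3, pow_add, Module.End.mul_apply, hk _ hv'U, map_zero, hB.zero_r, mul_zero]

/-- The top pairing. -/
theorem pair_top {s : ℕ} (hs : y ^ (s + 1) = 1) {U : Submodule F V} (hU : Inv y U) {k : ℕ}
    (hk : ∀ v ∈ U, (N ^ (k + 1)) v = 0) {u v : V} (hv : v ∈ U) {a b : ℕ} (hab : a + b = k) :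
    B ((N ^ a) u) ((N ^ b) v) = (-1) ^ a * B u ((N ^ k) v) := by
  set v' := ((y ^ s) ^ a) v with hv'
  have hv'U : v' ∈ U := by
    have h1 := inv_pow (inv_pow hU s) a v hv
    exact h1
  have h1 : (y ^ a) v' = v := by
    have h0 : y ^ a * (y ^ s) ^ a = 1 := by
      rw [← pow_mul, ← pow_add]
      have : a + s * a = (s + 1) * a := by ring
      rw [this, pow_mul, hs, one_pow]
    rw [hv', ← Module.End.mul_apply, h0]
    rfl
  have h2 : (N ^ b) v = (y ^ a) ((N ^ b) v') := by
    rw [← Module.End.mul_apply, comm_pow hB hy hN, Module.End.mul_apply, h1]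
  rw [h2, adj_pow hB hy hN, ← Module.End.mul_apply, ← pow_add, hab]
  have h3 : ∀ (c : ℕ) (x : V), x ∈ U → (N ^ k) ((y ^ c) x) = (N ^ k) x := by
    intro c
    induction c with
    | zero => intro x _; simp
    | succ c ih =>
      intro x hx
      have h4 : (y ^ (c + 1)) x = (y ^ c) (y x) := by
        rw [pow_succ, Module.End.mul_apply]
      rw [h4, ih _ (hU x hx)]
      have h5 : y x = x + N x := by rw [hN]; rfl
      rw [h5, map_add]
      have h6 : (N ^ k) (N x) = (N ^ (k + 1)) x := by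
        rw [pow_succ, Module.End.mul_apply]
      rw [h6, hk x hx, add_zero]
  rw [← h1, h3 a v' hv'U]

end adj

section gram

variable (hB : Fm σ ε B) {y N : End F V} (hy : Iso B y) (hN : y = 1 + N)
include hB hy hN

/-- The Gram-matrix argument. -/
theorem gram_main {s : ℕ} (hs : y ^ (s + 1) = 1) {U : Submodule F V} (hU : Inv y U) {k : ℕ}
    (hk : ∀ v ∈ U, (N ^ (k + 1)) v = 0) {ι : Type*} [Fintype ι] (g : ι → V) (hg : ∀ i, g i ∈ U)
    (hΦ : ∀ c : ι → F, (∀ j, ∑ i, c i * B (g i) ((N ^ k) (g j)) = 0) → c = 0)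
    (c : ι × Fin (k + 1) → F)
    (hc : ∀ (b : Fin (k + 1)) (j : ι), B (∑ t, c t • (N ^ (t.2 : ℕ)) (g t.1)) ((N ^ (b : ℕ)) (g j)) = 0) :
    c = 0 := by
  classical
  have hmain : ∀ (a : ℕ) (ha : a < k + 1) (i : ι), c (i, ⟨a, ha⟩) = 0 := by
    intro a
    induction a using Nat.strong_induction_on with
    | _ a ih =>
      intro ha
      have hb : k - a < k + 1 := by omega
      have h1 : (fun i => c (i, ⟨a, ha⟩)) = 0 := by
        apply hΦ
        intro j
        have h2 := hc ⟨k - a, hb⟩ j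
        rw [hB.sum_l, Fintype.sum_prod_type] at h2
        have h3 : ∀ i : ι, ∑ t : Fin (k + 1), B (c (i, t) • (N ^ (t : ℕ)) (g i)) ((N ^ (k - a)) (g j)) =
            c (i, ⟨a, ha⟩) * ((-1) ^ a * B (g i) ((N ^ k) (g j))) := by
          intro i
          rw [Finset.sum_eq_single (⟨a, ha⟩ : Fin (k + 1))]
          · rw [hB.smul_l, pair_top hB hy hN hs hU hk (hg j) (by simp only; omega)]
          · intro t _ ht
            rw [hB.smul_l]
            have ht' : (t : ℕ) ≠ a := fun h => ht (Fin.ext h)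
            rcases Nat.lt_or_gt_of_ne ht' with hlt | hgt
            · rw [ih t hlt t.2 i]
              simp
            · rw [pair_zero hB hy hN hs hU hk (hg j) (by omega), mul_zero]
          · intro h
            exact absurd (Finset.mem_univ _) h
        simp only [h3] at h2
        have h4 : ∑ i, c (i, ⟨a, ha⟩) * B (g i) ((N ^ k) (g j)) =
            (-1) ^ a * ∑ i, c (i, ⟨a, ha⟩) * ((-1) ^ a * B (g i) ((N ^ k) (g j))) := by
          rw [Finset.mul_sum]
          apply Finset.sum_congr rfl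
          intro i _
          have h5 : ((-1 : F) ^ a) * (-1) ^ a = 1 := by
            rw [← mul_pow]
            simp
          linear_combination (-(c (i, ⟨a, ha⟩) * B (g i) ((N ^ k) (g j)))) * h5
        rw [h4, h2, mul_zero]
      intro i
      exact congrFun h1 i
  funext t
  obtain ⟨i, ⟨a, ha⟩⟩ := t
  exact hmain a ha i

/-- The family of powers. -/
theorem block_core [FiniteDimensional F V] {s : ℕ} (hs : y ^ (s + 1) = 1) {U : Submodule F V} (hU : Inv y U) {k : ℕ}
    (hk : ∀ v ∈ U, (N ^ (k + 1)) v = 0) {ι : Type*} [Fintype ι] (g : ι → V) (hg : ∀ i, g i ∈ U)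
    (hΦ : ∀ c : ι → F, (∀ j, ∑ i, c i * B (g i) ((N ^ k) (g j)) = 0) → c = 0) :
    LinearIndependent F (fun t : ι × Fin (k + 1) => (N ^ (t.2 : ℕ)) (g t.1)) ∧
      Nd B (Submodule.span F (Set.range (fun t : ι × Fin (k + 1) => (N ^ (t.2 : ℕ)) (g t.1)))) := by
  classical
  constructor
  · rw [Fintype.linearIndependent_iff]
    intro c hc t
    have h1 := gram_main hB hy hN hs hU hk g hg hΦ c (by
      intro b j
      rw [hc, hB.zero_l])
    rw [h1]
    rfl
  · intro x hx h
    obtain ⟨c, rfl⟩ := (Submodule.mem_span_range_iff_exists_fun F).mp hx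
    have h1 := gram_main hB hy hN hs hU hk g hg hΦ c (by
      intro b j
      exact h _ (Submodule.subset_span ⟨(j, b), rfl⟩))
    simp [h1]

end gram

section profile

variable [FiniteDimensional F V] {N : End F V}

theorem inv_y {y : End F V} (hN : y = 1 + N) {Z : Submodule F V} (hZ : Inv N Z) : Inv y Z := by
  intro v hv
  rw [hN]
  exact Z.add_mem hv (hZ v hv)

/-- The kernel profile of one block. -/
theorem profile {Z : Submodule F V} (hZ : Inv N Z) {k : ℕ} (hfin : finrank F Z = k + 1)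
    (hk : ∀ v ∈ Z, (N ^ (k + 1)) v = 0) (hne : ∃ v ∈ Z, (N ^ k) v ≠ 0) (j : ℕ) :
    Dd N Z j = min (k + 1) j := by
  set D := Dd N Z with hD
  have h0 : D 0 = 0 := Dd_zero N Z
  have hsat : ∀ j, k + 1 ≤ j → D j = k + 1 := by
    intro j hj
    have h1 : Z ≤ LinearMap.ker (N ^ j) := by
      intro v hv
      obtain ⟨c, rfl⟩ := Nat.exists_eq_add_of_le hj
      rw [LinearMap.mem_ker, add_comm, pow_add, Module.End.mul_apply, hk v hv, map_zero]
    rw [hD, Dd, inf_eq_left.mpr h1, hfin]
  have hk1 : D k < k + 1 := by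
    obtain ⟨v, hvZ, hv⟩ := hne
    have h1 : Z ⊓ LinearMap.ker (N ^ k) < Z := by
      refine lt_of_le_of_ne inf_le_left ?_
      intro h
      have hv' : v ∈ Z ⊓ LinearMap.ker (N ^ k) := by
        rw [h]
        exact hvZ
      exact hv (LinearMap.mem_ker.mp hv'.2)
    have h2 := Submodule.finrank_lt_finrank_of_lt h1
    rw [hfin] at h2
    exact h2
  have hinc : ∀ c, c ≤ k → D (k - c) + 1 ≤ D (k - c + 1) := by
    intro c
    induction c with
    | zero =>
      intro _
      simp only [Nat.sub_zero]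
      rw [hsat (k + 1) le_rfl]
      omega
    | succ c ih =>
      intro hc
      have h1 := ih (by omega)
      have h2 : k - c = k - (c + 1) + 1 := by omega
      have h3 := Dd_concave hZ (k - (c + 1))
      rw [h2] at h1
      have h4 : Dd N Z (k - (c + 1) + 2) = D (k - (c + 1) + 1 + 1) := rfl
      rw [h4] at h3
      change D (k - (c + 1)) + D (k - (c + 1) + 1 + 1) ≤ 2 * D (k - (c + 1) + 1) at h3
      omega
  have hinc' : ∀ c, c ≤ k → D c + 1 ≤ D (c + 1) := by
    intro c hc
    have := hinc (k - c) (by omega)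
    have h2 : k - (k - c) = c := by omega
    rwa [h2] at this
  have hlow : ∀ c, c ≤ k + 1 → c ≤ D c := by
    intro c
    induction c with
    | zero => intro _; omega
    | succ c ih =>
      intro hc
      have h1 := ih (by omega)
      have h2 := hinc' c (by omega)
      omega
  have hup : ∀ c, c ≤ k + 1 → D (k + 1 - c) + c ≤ k + 1 := by
    intro c
    induction c with
    | zero =>
      intro _
      simp only [Nat.sub_zero, add_zero]
      rw [hsat (k + 1) le_rfl]
    | succ c ih =>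
      intro hc
      have h1 := ih (by omega)
      have h2 := hinc' (k + 1 - (c + 1)) (by omega)
      have h3 : k + 1 - (c + 1) + 1 = k + 1 - c := by omega
      rw [h3] at h2
      omega
  by_cases hj : j ≤ k + 1
  · have h1 := hlow j hj
    have h2 := hup (k + 1 - j) (by omega)
    have h3 : k + 1 - (k + 1 - j) = j := by omega
    rw [h3] at h2
    omega
  · rw [hsat j (by omega)]
    omega

/-- Additivity of the kernel profile. -/
theorem Dd_sup {X Y : Submodule F V} (hXY : Disjoint X Y) (hX : Inv N X) (hY : Inv N Y) (k : ℕ) :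
    Dd N (X ⊔ Y) k = Dd N X k + Dd N Y k := by
  set K := LinearMap.ker (N ^ k) with hK
  have h1 : (X ⊓ K) ⊓ (Y ⊓ K) = ⊥ := by
    rw [eq_bot_iff]
    rintro v ⟨⟨h1, -⟩, ⟨h2, -⟩⟩
    have := Submodule.disjoint_def.mp hXY v h1 h2
    simp [this]
  have h2 : (X ⊓ K) ⊔ (Y ⊓ K) = (X ⊔ Y) ⊓ K := by
    apply le_antisymm
    · exact sup_le (inf_le_inf_right _ le_sup_left) (inf_le_inf_right _ le_sup_right)
    · rintro v ⟨hv, hvK⟩
      obtain ⟨u, hu, w, hw, rfl⟩ := Submodule.mem_sup.mp hv
      have h3 : (N ^ k) u + (N ^ k) w = 0 := by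
        rw [← map_add]
        exact LinearMap.mem_ker.mp hvK
      have h4 : (N ^ k) u ∈ X := inv_pow hX k u hu
      have h5 : (N ^ k) w ∈ Y := inv_pow hY k w hw
      have h6 : (N ^ k) u = -(N ^ k) w := eq_neg_of_add_eq_zero_left h3
      have h7 : (N ^ k) u ∈ Y := by
        rw [h6]
        exact Y.neg_mem h5
      have h8 := Submodule.disjoint_def.mp hXY _ h4 h7
      have h9 : (N ^ k) w = 0 := by
        rw [h8, zero_add] at h3
        exact h3
      exact Submodule.add_mem_sup ⟨hu, LinearMap.mem_ker.mpr h8⟩ ⟨hw, LinearMap.mem_ker.mpr h9⟩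
  have h3 := Submodule.finrank_sup_add_finrank_inf_eq (X ⊓ K) (Y ⊓ K)
  rw [h1, h2, finrank_bot, add_zero] at h3
  exact h3

/-- A span of a chain of powers. -/
theorem inv_span_chain {ι : Type*} (g : ι → V) {k : ℕ} (hk : ∀ i, (N ^ (k + 1)) (g i) = 0) :
    Inv N (Submodule.span F (Set.range (fun t : ι × Fin (k + 1) => (N ^ (t.2 : ℕ)) (g t.1)))) := by
  intro v hv
  have h1 : Submodule.span F (Set.range (fun t : ι × Fin (k + 1) => (N ^ (t.2 : ℕ)) (g t.1))) ≤
      (Submodule.span F (Set.range (fun t : ι × Fin (k + 1) => (N ^ (t.2 : ℕ)) (g t.1)))).comap N := by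
    rw [Submodule.span_le]
    rintro _ ⟨⟨i, a⟩, rfl⟩
    change N ((N ^ (a : ℕ)) (g i)) ∈
      Submodule.span F (Set.range (fun t : ι × Fin (k + 1) => (N ^ (t.2 : ℕ)) (g t.1)))
    rw [← Module.End.mul_apply, ← pow_succ']
    by_cases ha : (a : ℕ) + 1 < k + 1
    · exact Submodule.subset_span ⟨(i, ⟨a + 1, ha⟩), rfl⟩
    · have h2 : (a : ℕ) + 1 = k + 1 := by have := a.2; omega
      rw [h2, hk]
      exact Submodule.zero_mem _
  exact h1 hv

end profile

section steps

variable [FiniteDimensional F V] (hB : Fm σ ε B) {y N : End F V} (hy : Iso B y) (hN : y = 1 + N)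
include hB hy hN

/-- A single nondegenerate block. -/
theorem step_one {s : ℕ} (hs : y ^ (s + 1) = 1) {U : Submodule F V} (hU : Inv y U) (hUN : Inv N U)
    {k : ℕ} (hk : ∀ v ∈ U, (N ^ (k + 1)) v = 0) {u : V} (huU : u ∈ U) (hu : B u ((N ^ k) u) ≠ 0) :
    ∃ C : Submodule F V, C ≤ U ∧ Nd B C ∧ Inv N C ∧ finrank F C = 1 * (k + 1) ∧
      ∀ j, Dd N C j = 1 * min (k + 1) j := by
  classical
  obtain ⟨h1, h2⟩ := block_core hB hy hN hs hU hk (fun _ : Unit => u) (fun _ => huU) (by
    intro c hc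
    funext i
    have := hc ()
    simp only [Fintype.univ_unit, Finset.sum_singleton] at this
    have h3 := (mul_eq_zero.mp this).resolve_right hu
    exact h3)
  set C := Submodule.span F (Set.range (fun t : Unit × Fin (k + 1) => (N ^ (t.2 : ℕ)) u)) with hC
  have hCU : C ≤ U := by
    rw [hC, Submodule.span_le]
    rintro _ ⟨⟨i, a⟩, rfl⟩
    exact inv_pow hUN _ u huU
  have hCi : Inv N C := inv_span_chain (fun _ : Unit => u) (fun _ => hk u huU)
  have hfin : finrank F C = k + 1 := by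
    rw [hC, finrank_span_eq_card h1]
    simp
  refine ⟨C, hCU, h2, hCi, by rw [hfin, one_mul], ?_⟩
  intro j
  rw [one_mul]
  refine profile hCi hfin (fun v hv => hk v (hCU hv)) ⟨u, ?_, ?_⟩ j
  · exact Submodule.subset_span ⟨((), ⟨0, by omega⟩), by simp⟩
  · intro h
    rw [h, hB.zero_r] at hu
    exact hu rfl

/-- A double nondegenerate block. -/
theorem step_two {s : ℕ} (hs : y ^ (s + 1) = 1) {U : Submodule F V} (hU : Inv y U) (hUN : Inv N U)
    {k : ℕ} (hk : ∀ v ∈ U, (N ^ (k + 1)) v = 0) {u v : V} (huU : u ∈ U) (hvU : v ∈ U)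
    (huu : B u ((N ^ k) u) = 0) (hvv : B v ((N ^ k) v) = 0) (huv : B u ((N ^ k) v) ≠ 0)
    (hvu : B v ((N ^ k) u) ≠ 0) :
    ∃ C : Submodule F V, C ≤ U ∧ Nd B C ∧ Inv N C ∧ finrank F C = 2 * (k + 1) ∧
      ∀ j, Dd N C j = 2 * min (k + 1) j := by
  classical
  let g : Fin 2 → V := ![u, v]
  obtain ⟨h1, h2⟩ := block_core hB hy hN hs hU hk g (by
    intro i
    fin_cases i
    · exact huU
    · exact hvU) (by
    intro c hc
    have h0 := hc 0
    have h3 := hc 1
    simp only [Fin.sum_univ_two, g, Matrix.cons_val_zero, Matrix.cons_val_one] at h0 h3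
    rw [hvv, mul_zero, add_zero] at h3
    rw [huu, mul_zero, zero_add] at h0
    have h4 := (mul_eq_zero.mp h3).resolve_right huv
    have h5 := (mul_eq_zero.mp h0).resolve_right hvu
    funext i
    fin_cases i
    · exact h4
    · exact h5)
  set C := Submodule.span F (Set.range (fun t : Fin 2 × Fin (k + 1) => (N ^ (t.2 : ℕ)) (g t.1))) with hC
  set C₁ := Submodule.span F (Set.range (fun t : Unit × Fin (k + 1) => (N ^ (t.2 : ℕ)) u)) with hC₁
  set C₂ := Submodule.span F (Set.range (fun t : Unit × Fin (k + 1) => (N ^ (t.2 : ℕ)) v)) with hC₂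
  have hCU : C ≤ U := by
    rw [hC, Submodule.span_le]
    rintro _ ⟨⟨i, a⟩, rfl⟩
    fin_cases i
    · exact inv_pow hUN _ u huU
    · exact inv_pow hUN _ v hvU
  have hC1i : Inv N C₁ := inv_span_chain (fun _ : Unit => u) (fun _ => hk u huU)
  have hC2i : Inv N C₂ := inv_span_chain (fun _ : Unit => v) (fun _ => hk v hvU)
  have hfin : finrank F C = 2 * (k + 1) := by
    rw [hC, finrank_span_eq_card h1]
    simp
  have hle1 : finrank F C₁ ≤ k + 1 := by
    have h5 : finrank F C₁ ≤ Fintype.card (Unit × Fin (k + 1)) :=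
      finrank_range_le_card (R := F) (fun t : Unit × Fin (k + 1) => (N ^ (t.2 : ℕ)) u)
    simpa using h5
  have hle2 : finrank F C₂ ≤ k + 1 := by
    have h5 : finrank F C₂ ≤ Fintype.card (Unit × Fin (k + 1)) :=
      finrank_range_le_card (R := F) (fun t : Unit × Fin (k + 1) => (N ^ (t.2 : ℕ)) v)
    simpa using h5
  have hCle : C ≤ C₁ ⊔ C₂ := by
    rw [hC, Submodule.span_le]
    rintro _ ⟨⟨i, a⟩, rfl⟩
    fin_cases i
    · exact Submodule.mem_sup_left (Submodule.subset_span ⟨((), a), rfl⟩)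
    · exact Submodule.mem_sup_right (Submodule.subset_span ⟨((), a), rfl⟩)
  have h3 := Submodule.finrank_mono hCle
  have h4 := Submodule.finrank_sup_add_finrank_inf_eq C₁ C₂
  have hf1 : finrank F C₁ = k + 1 := by omega
  have hf2 : finrank F C₂ = k + 1 := by omega
  have hinf0 : finrank F (C₁ ⊓ C₂ : Submodule F V) = 0 := by omega
  have hdisj : Disjoint C₁ C₂ := by
    rw [disjoint_iff]
    exact Submodule.finrank_eq_zero.mp hinf0
  have hCeq : C = C₁ ⊔ C₂ := Submodule.eq_of_le_of_finrank_eq hCle (by omega)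
  have hC1U : C₁ ≤ U := le_sup_left.trans (hCeq ▸ hCU)
  have hC2U : C₂ ≤ U := le_sup_right.trans (hCeq ▸ hCU)
  refine ⟨C, hCU, h2, ?_, hfin, ?_⟩
  · rw [hCeq]
    exact inv_sup hC1i hC2i
  · intro j
    rw [hCeq, Dd_sup hdisj hC1i hC2i]
    have hnu : (N ^ k) u ≠ 0 := by
      intro h
      rw [h, hB.zero_r] at hvu
      exact hvu rfl
    have hnv : (N ^ k) v ≠ 0 := by
      intro h
      rw [h, hB.zero_r] at huv
      exact huv rfl
    rw [profile hC1i hf1 (fun x hx => hk x (hC1U hx)) ⟨u, Submodule.subset_span ⟨((), ⟨0, by omega⟩), by simp⟩, hnu⟩ j,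
      profile hC2i hf2 (fun x hx => hk x (hC2U hx)) ⟨v, Submodule.subset_span ⟨((), ⟨0, by omega⟩), by simp⟩, hnv⟩ j]
    ring

end steps

end Cfsg.Agent.Lib.ElusF.Uni
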